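import Cfsg.Agent.H26.Pro.Four

/-!
# The stabilizer of the fixed set cannot induce the alternating group
-/

set_option linter.unusedSectionVars false
set_option linter.style.haveILetI false

namespace Cfsg.Agent.H26.Pro

open Finset
open scoped Pointwise

variable {α : Type*} [Fintype α] [DecidableEq α]
variable {G : Subgroup (Equiv.Perm α)} {M : Subgroup G} {Δ : Finset α}

/-- restriction to `Δ` of its setwise stabilizer -/
def resΔ (G : Subgroup (Equiv.Perm α)) (Δ : Finset α) :
    ↥(MulAction.stabilizer G Δ) →* Equiv.Perm {a // a ∈ Δ} where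
  toFun l :=
    (((l : G) : Equiv.Perm α)).subtypePerm (fun a => by
      constructor
      · intro ha
        have h := Finset.inv_smul_mem_iff (a := (l : G)) (b := (l : G) • a) (s := Δ)
        rw [inv_smul_smul, MulAction.mem_stabilizer_iff.1 l.2] at h
        exact h.2 ha
      · intro ha
        have h : (l : G) • a ∈ (l : G) • Δ := Finset.smul_mem_smul_finset ha
        rw [MulAction.mem_stabilizer_iff.1 l.2] at h
        exact h)
  map_one' := Equiv.ext fun a => Subtype.ext rfl
  map_mul' l l' := Equiv.ext fun a => Subtype.ext rfl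

theorem resΔ_apply (l : ↥(MulAction.stabilizer G Δ)) (a : {a // a ∈ Δ}) :
    ((resΔ G Δ l a : {a // a ∈ Δ}) : α) = (l : G) • (a : α) := rfl

/-- `L` induces at least the alternating group on `Δ` -/
def Onto (Δ : Finset α) (L : Subgroup (MulAction.stabilizer G Δ)) : Prop :=
  alternatingGroup {a // a ∈ Δ} ≤ L.map (resΔ G Δ)

theorem alt_card (hk : 5 ≤ Δ.card) :
    (Δ.card - 1).factorial < Nat.card (alternatingGroup {a // a ∈ Δ}) := by
  haveI : Nontrivial {a // a ∈ Δ} := Fintype.one_lt_card_iff_nontrivial.1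
    (by rw [Fintype.card_coe]; omega)
  rw [nat_card_alternatingGroup, Nat.card_eq_fintype_card, Fintype.card_coe]
  obtain ⟨j, hj⟩ : ∃ j, Δ.card = j + 3 := ⟨Δ.card - 3, by omega⟩
  rw [hj, show j + 3 - 1 = j + 2 by omega, Nat.factorial_succ (j + 2),
    Nat.lt_div_iff_mul_lt' (Dvd.dvd.mul_left (Nat.dvd_factorial (by norm_num) (by omega)) _)]
  have := Nat.factorial_pos (j + 2)
  nlinarith

/-- the image of the preimage of the alternating group -/
theorem onto_index {L L' : Subgroup (MulAction.stabilizer G Δ)} (hon : Onto Δ L)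
    (hle : L' ≤ L) :
    Onto Δ (L ⊓ (alternatingGroup {a // a ∈ Δ}).comap (resΔ G Δ)) ∧
    ((L' ⊓ (alternatingGroup {a // a ∈ Δ}).comap (resΔ G Δ)).map (resΔ G Δ)).relIndex
      (alternatingGroup {a // a ∈ Δ}) ≤ L'.relIndex L := by
  set A := alternatingGroup {a // a ∈ Δ}
  set π := resΔ G Δ
  have hmap : (L ⊓ A.comap π).map π = A := by
    refine le_antisymm ((Subgroup.map_mono inf_le_right).trans (Subgroup.map_comap_le _ _)) ?_
    intro σ hσ
    obtain ⟨l, hl, rfl⟩ := hon hσ
    exact ⟨l, ⟨hl, hσ⟩, rfl⟩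
  refine ⟨hmap.ge, ?_⟩
  refine le_trans (le_of_eq (congrArg (fun X => Subgroup.relIndex _ X) hmap.symm)) ?_
  have h0 : L'.relIndex L ≠ 0 := Subgroup.index_ne_zero_of_finite
  have h1 : (L' ⊓ A.comap π).relIndex (L ⊓ A.comap π) ≤ L'.relIndex L := by
    have : L' ⊓ A.comap π = L' ⊓ (L ⊓ A.comap π) := by
      rw [← inf_assoc, inf_eq_left.2 hle]
    rw [this, Subgroup.inf_relIndex_right]
    exact Subgroup.relIndex_le_of_le_right inf_le_left h0
  refine le_trans (Nat.le_of_dvd ?_ ?_) h1
  · exact Nat.pos_of_ne_zero Subgroup.index_ne_zero_of_finite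
  · set P := L' ⊓ A.comap π
    set Q := L ⊓ A.comap π
    have hPQ : P ≤ Q := inf_le_inf_right _ hle
    have hsurj := π.subgroupMap_surjective Q
    have he : (P.subgroupOf Q).map (π.subgroupMap Q) = (P.map π).subgroupOf (Q.map π) := by
      ext ⟨y, hy⟩
      simp only [Subgroup.mem_map, Subgroup.mem_subgroupOf]
      constructor
      · rintro ⟨⟨x, hx⟩, hxP, e⟩; exact ⟨x, hxP, congrArg Subtype.val e⟩
      · rintro ⟨x, hxP, e⟩; exact ⟨⟨x, hPQ hxP⟩, hxP, Subtype.ext e⟩
    rw [Subgroup.relIndex, Subgroup.relIndex, ← he]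
    exact (P.subgroupOf Q).index_map_dvd hsurj

theorem onto_small {L L' : Subgroup (MulAction.stabilizer G Δ)} (hk : 5 ≤ Δ.card)
    (hon : Onto Δ L) (hle : L' ≤ L) (hidx : L'.relIndex L < Δ.card) : Onto Δ L' := by
  classical
  set A := alternatingGroup {a // a ∈ Δ}
  haveI : IsSimpleGroup A :=
    alternatingGroup.isSimpleGroup (by rw [Nat.card_eq_fintype_card, Fintype.card_coe]; exact hk)
  set I := (L' ⊓ A.comap (resΔ G Δ)).map (resΔ G Δ)
  have h := lt_of_le_of_lt (onto_index hon hle).2 hidx
  set J := I.subgroupOf A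
  rcases (Subgroup.normalCore_normal J).eq_bot_or_eq_top with hc | hc
  · exfalso
    haveI := Fintype.ofFinite (A ⧸ J)
    have hinj : Function.Injective (MulAction.toPermHom A (A ⧸ J)) := by
      rw [← MonoidHom.ker_eq_bot_iff, ← Subgroup.normalCore_eq_ker, hc]
    have h1 := Nat.card_le_card_of_injective _ hinj
    rw [Nat.card_perm, ← Subgroup.index_eq_card] at h1
    change J.index < _ at h
    have h2 : J.index.factorial ≤ (Δ.card - 1).factorial := Nat.factorial_le (by omega)
    exact absurd (h1.trans h2) (not_le.2 (alt_card hk))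
  · have : J = ⊤ := eq_top_iff.2 (hc ▸ Subgroup.normalCore_le J)
    rw [Subgroup.subgroupOf_eq_top] at this
    exact this.trans (Subgroup.map_mono inf_le_left)

theorem onto_normal {L L' : Subgroup (MulAction.stabilizer G Δ)} (hk : 5 ≤ Δ.card)
    (hon : Onto Δ L) (hle : L' ≤ L) (hN : ∀ l ∈ L, ∀ x ∈ L', l * x * l⁻¹ ∈ L')
    (hidx : L'.relIndex L < Nat.card (alternatingGroup {a // a ∈ Δ})) : Onto Δ L' := by
  classical
  set A := alternatingGroup {a // a ∈ Δ}
  haveI : IsSimpleGroup A :=
    alternatingGroup.isSimpleGroup (by rw [Nat.card_eq_fintype_card, Fintype.card_coe]; exact hk)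
  set I := (L' ⊓ A.comap (resΔ G Δ)).map (resΔ G Δ)
  have h := lt_of_le_of_lt (onto_index hon hle).2 hidx
  set J := I.subgroupOf A
  haveI : J.Normal := by
    refine ⟨fun σ hσ τ => ?_⟩
    obtain ⟨x, ⟨hx, hxA⟩, he⟩ := hσ
    obtain ⟨l, hl, hle'⟩ := hon τ.2
    refine ⟨l * x * l⁻¹, ⟨hN l hl x hx, ?_⟩, ?_⟩
    · change resΔ G Δ (l * x * l⁻¹) ∈ A
      rw [map_mul, map_mul, map_inv, hle']
      exact A.mul_mem (A.mul_mem τ.2 hxA) (A.inv_mem τ.2)
    · rw [map_mul, map_mul, map_inv, hle', he]; rfl
  rcases Subgroup.Normal.eq_bot_or_eq_top ‹J.Normal› with hc | hc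
  · exfalso
    change J.index < Nat.card A at h
    rw [hc, Subgroup.index_bot] at h
    exact lt_irrefl _ h
  · rw [Subgroup.subgroupOf_eq_top] at hc
    exact hc.trans (Subgroup.map_mono inf_le_left)

/-- the kernel of the conjugation action on the nontrivial elements of a small subgroup -/
theorem cent_index {X Y : Type*} [Group X] [Group Y] [Finite X] (f : Y →* X) (H : Subgroup X)
    (hn : ∀ y : Y, ∀ h ∈ H, f y * h * (f y)⁻¹ ∈ H) :
    ∃ C : Subgroup Y, C.Normal ∧ C.index ≤ (Nat.card H - 1).factorial ∧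
      ∀ c ∈ C, ∀ h ∈ H, f c * h = h * f c := by
  classical
  haveI := Fintype.ofFinite X
  have key : ∀ (y : Y) (h : X), (h ∈ H ∧ h ≠ 1) ↔
      (MulAut.conj (f y) h ∈ H ∧ MulAut.conj (f y) h ≠ 1) := by
    intro y h
    rw [ne_eq (MulAut.conj (f y) h), MulEquiv.map_eq_one_iff, MulAut.conj_apply]
    refine and_congr_left fun _ => ⟨hn y h, fun h' => ?_⟩
    have := hn y⁻¹ _ h'
    rw [map_inv, inv_inv] at this
    convert this using 1
    group
  let ψ : Y →* Equiv.Perm {h : X // h ∈ H ∧ h ≠ 1} :=
    { toFun := fun y => Equiv.Perm.subtypePerm (MulAut.conj (f y)).toEquiv fun h => (key y h).symm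
      map_one' := Equiv.ext fun h => Subtype.ext (by simp)
      map_mul' := fun y y' => Equiv.ext fun h => Subtype.ext (by
        change MulAut.conj (f (y * y')) (h : X) = MulAut.conj (f y) (MulAut.conj (f y') (h : X))
        simp [mul_assoc]) }
  refine ⟨ψ.ker, inferInstance, ?_, fun c hc h hh => ?_⟩
  · rw [Subgroup.index_ker]
    refine (Subgroup.card_le_card_group _).trans ?_
    rw [Nat.card_perm]
    refine Nat.factorial_le (Nat.le_sub_one_of_lt ?_)
    rw [Nat.card_eq_fintype_card, Nat.card_eq_fintype_card]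
    refine Fintype.card_lt_of_injective_of_notMem (b := (1 : H))
      (fun h => ⟨h.1, h.2.1⟩) (fun a b e => Subtype.ext (Subtype.mk.inj e)) ?_
    rintro ⟨⟨h, h1, h2⟩, e⟩
    exact h2 (congrArg Subtype.val e)
  · by_cases h1 : h = 1
    · simp [h1]
    have := congrArg Subtype.val (Equiv.Perm.congr_fun (MonoidHom.mem_ker.1 hc) ⟨h, hh, h1⟩)
    exact mul_inv_eq_iff_eq_mul.1 this

set_option maxHeartbeats 1000000 in
/-- The setwise stabilizer cannot induce the alternating group. -/
theorem alt_contra (hs : Sit G M Δ) (hT : Trans4 G) (hk : 5 ≤ Δ.card)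
    {L : Subgroup (MulAction.stabilizer G Δ)} (hon : Onto Δ L) {H : Subgroup G}
    (hHΔ : ∀ h ∈ H, ∀ a ∈ Δ, h • a = a) (hcard : Nat.card H ≤ Δ.card)
    (hnorm : ∀ l ∈ L, ∀ h ∈ H, (l : G) * h * (l : G)⁻¹ ∈ H)
    (hzfix : ∀ x ∉ Δ, (∀ h ∈ H, h • x = x) → ∀ l ∈ L, (l : G) • x = x) : False := by
  classical
  have hsub : alternatingGroup α ≤ G → False := hs.not_alt
  have hA := alt_card hk
  -- centralizer
  obtain ⟨C, hCn, hCi, hCc⟩ := cent_index ((MulAction.stabilizer G Δ).subtype.comp L.subtype) H
    (fun y h hh => hnorm _ y.2 h hh)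
  set C₀ := C.map L.subtype with hC₀def
  have hC0 : Onto Δ C₀ := by
    refine onto_normal hk hon (Subgroup.map_subtype_le _) ?_ ?_
    · rintro l hl x ⟨y, hy, rfl⟩
      exact ⟨⟨l, hl⟩ * y * ⟨l, hl⟩⁻¹, hCn.conj_mem y hy ⟨l, hl⟩, rfl⟩
    · rw [Subgroup.relIndex, Subgroup.subgroupOf,
        Subgroup.comap_map_eq_self_of_injective L.subtype_injective]
      exact lt_of_le_of_lt (hCi.trans (Nat.factorial_le (by omega))) hA
  have hcomm : ∀ l ∈ C₀, ∀ h ∈ H, (l : G) * h = h * (l : G) := by
    rintro _ ⟨y, hy, rfl⟩ h hh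
    exact hCc y hy h hh
  -- fix the complement pointwise
  have key : ∀ S : Finset α, (∀ x ∈ S, x ∉ Δ) →
      ∃ L' ≤ C₀, Onto Δ L' ∧ ∀ l ∈ L', ∀ x ∈ S, (l : G) • x = x := by
    intro S
    induction S using Finset.induction with
    | empty => exact fun _ => ⟨C₀, le_rfl, hC0, fun l _ x hx => absurd hx (Finset.notMem_empty x)⟩
    | @insert x S hxS ih =>
      intro hout
      obtain ⟨L1, hL1, hon1, hfix1⟩ := ih fun y hy => hout y (Finset.mem_insert_of_mem hy)
      have hxΔ := hout x (Finset.mem_insert_self x S)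
      by_cases hx : ∀ h ∈ H, h • x = x
      · refine ⟨L1, hL1, hon1, fun l hl y hy => ?_⟩
        rcases Finset.mem_insert.1 hy with rfl | hy
        · exact hzfix y hxΔ hx l ((Subgroup.map_subtype_le _) (hL1 hl))
        · exact hfix1 l hl y hy
      simp only [not_forall] at hx
      obtain ⟨h0, hh0, hx0⟩ := hx
      set O := orb H x with hO
      have hsm : ∀ l ∈ L1, ((l : G) • O = orb H ((l : G) • x)) := by
        intro l hl
        ext y
        rw [← Finset.inv_smul_mem_iff, hO, mem_orb, mem_orb]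
        constructor
        · rintro ⟨h, hh, e⟩
          exact ⟨h, hh, by rw [← mul_smul, ← hcomm l (hL1 hl) h hh, mul_smul, e, smul_inv_smul]⟩
        · rintro ⟨h, hh, e⟩
          exact ⟨h, hh, by rw [← e, ← mul_smul h (l : G), ← hcomm l (hL1 hl) h hh, mul_smul,
            inv_smul_smul]⟩
      have hinC : ∀ y ∉ Δ, ∀ u ∈ orb H y, u ∉ Δ := by
        intro y hy u hu huΔ
        obtain ⟨h, hh, rfl⟩ := mem_orb.1 (mem_orb_comm hu)
        exact hy (by rw [hHΔ h hh u huΔ]; exact huΔ)
      have hO2 : 2 ≤ O.card := Finset.one_lt_card.2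
        ⟨h0 • x, mem_orb.2 ⟨h0, hh0, rfl⟩, x, self_mem_orb H x, hx0⟩
      have hOk : O.card ≤ Δ.card := by
        have : O ⊆ Δᶜ := fun u hu => Finset.mem_compl.2 (hinC x hxΔ u hu)
        refine (Finset.card_le_card this).trans ?_
        rw [Finset.card_compl, hs.card]; omega
      set L2 := L1 ⊓ (MulAction.stabilizer G O).comap (MulAction.stabilizer G Δ).subtype with hL2
      have hon2 : Onto Δ L2 := by
        refine onto_small hk hon1 inf_le_left ?_
        have : L2.relIndex L1 = Nat.card (MulAction.orbit L1 O) := by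
          rw [Subgroup.relIndex, Nat.card_coe_set_eq, ← MulAction.index_stabilizer]
          · congr 1
            ext l
            simp only [hL2, Subgroup.mem_subgroupOf, Subgroup.mem_inf, SetLike.coe_mem, true_and,
              Subgroup.mem_comap, Subgroup.coe_subtype, MulAction.mem_stabilizer_iff]
            rfl
        rw [this]
        haveI := Fintype.ofFinite (MulAction.orbit L1 O)
        rw [Nat.card_eq_fintype_card, ← Set.toFinset_card]
        set Q := (MulAction.orbit L1 O).toFinset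
        have hQ : ∀ P ∈ Q, ∃ y, y ∉ Δ ∧ P = orb H y ∧ P.card = O.card := by
          intro P hP
          rw [Set.mem_toFinset] at hP
          obtain ⟨⟨l, hl⟩, rfl⟩ := hP
          refine ⟨(l : G) • x, fun h => hxΔ ?_, hsm l hl, Finset.card_smul_finset (l : G) O⟩
          have h' := Finset.inv_smul_mem_iff (a := (l : G)) (b := (l : G) • x) (s := Δ)
          rw [inv_smul_smul, MulAction.mem_stabilizer_iff.1 l.2] at h'
          exact h'.2 h
        have hdisj : ∀ P ∈ Q, ∀ P' ∈ Q, P ≠ P' → Disjoint P P' := by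
          intro P hP P' hP' hne
          obtain ⟨y, -, rfl, -⟩ := hQ P hP
          obtain ⟨y', -, rfl, -⟩ := hQ P' hP'
          exact Finset.disjoint_left.2 fun u hu hu' =>
            hne ((orb_eq_of_mem hu).symm.trans (orb_eq_of_mem hu'))
        have hle : (Q.biUnion id).card ≤ Δ.card := by
          have : Q.biUnion id ⊆ Δᶜ := by
            intro u hu
            simp only [Finset.mem_biUnion, id] at hu
            obtain ⟨P, hP, hu⟩ := hu
            obtain ⟨y, hy, rfl, -⟩ := hQ P hP
            exact Finset.mem_compl.2 (hinC y hy u hu)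
          refine (Finset.card_le_card this).trans ?_
          rw [Finset.card_compl, hs.card]; omega
        replace hle := (Finset.card_biUnion (s := Q) (t := id) hdisj).symm.trans_le hle
        rw [Finset.sum_const_nat (m := O.card) (f := fun P : Finset α => (id P).card)
          (fun P hP => (hQ P hP).choose_spec.2.2)] at hle
        have := Nat.mul_le_mul_left Q.card hO2
        omega
      set L3 := L2 ⊓ (MulAction.stabilizer G x).comap (MulAction.stabilizer G Δ).subtype with hL3
      refine ⟨L3, inf_le_left.trans (inf_le_left.trans hL1), ?_, ?_⟩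
      · refine onto_normal hk hon2 inf_le_left ?_ ?_
        · rintro l ⟨hl, hlO⟩ y ⟨⟨hy, hyO⟩, hyx⟩
          refine ⟨L2.mul_mem (L2.mul_mem ⟨hl, hlO⟩ ⟨hy, hyO⟩) (L2.inv_mem ⟨hl, hlO⟩), ?_⟩
          have hmem : (l : G)⁻¹ • x ∈ O := by
            rw [Finset.inv_smul_mem_iff, show (l : G) • O = O from hlO]
            exact self_mem_orb H x
          obtain ⟨h, hh, hhx⟩ := mem_orb.1 hmem
          have hy' : (y : G) • (l : G)⁻¹ • x = (l : G)⁻¹ • x := by
            rw [← hhx, ← mul_smul, hcomm y (hL1 hy) h hh, mul_smul,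
              show (y : G) • x = x from hyx]
          change ((l : G) * (y : G) * (l : G)⁻¹) • x = x
          rw [mul_smul, mul_smul, hy', smul_inv_smul]
        · have : L3.relIndex L2 = Nat.card (MulAction.orbit L2 x) := by
            rw [Subgroup.relIndex, Nat.card_coe_set_eq, ← MulAction.index_stabilizer]
            · congr 1
              ext l
              simp only [hL3, Subgroup.mem_subgroupOf, Subgroup.mem_inf, SetLike.coe_mem,
                true_and, Subgroup.mem_comap, Subgroup.coe_subtype, MulAction.mem_stabilizer_iff]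
              rfl
          rw [this]
          haveI := Fintype.ofFinite (MulAction.orbit L2 x)
          rw [Nat.card_eq_fintype_card, ← Set.toFinset_card]
          have hsubO : (MulAction.orbit L2 x).toFinset ⊆ O := by
            intro u hu
            rw [Set.mem_toFinset] at hu
            obtain ⟨⟨l, hl, hlO⟩, rfl⟩ := hu
            change (l : G) • x ∈ O
            rw [← show (l : G) • O = O from hlO]
            exact Finset.smul_mem_smul_finset (self_mem_orb H x)
          refine lt_of_le_of_lt (((Finset.card_le_card hsubO).trans hOk)) ?_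
          have : Δ.card ≤ (Δ.card - 1).factorial := by
            obtain ⟨j, hj⟩ : ∃ j, Δ.card = j + 5 := ⟨Δ.card - 5, by omega⟩
            rw [hj, show j + 5 - 1 = (j + 3) + 1 by omega, Nat.factorial_succ]
            have := Nat.self_le_factorial (j + 3)
            nlinarith
          omega
      · rintro l ⟨hl, hlx⟩ y hy
        rcases Finset.mem_insert.1 hy with rfl | hy
        · exact hlx
        · exact hfix1 l hl.1 y hy
  obtain ⟨L', -, hon', hfix⟩ := key Δᶜ fun x hx => Finset.mem_compl.1 hx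
  obtain ⟨a, b, c, ha, hb, hc, hab, hac, hbc⟩ :=
    Finset.two_lt_card_iff.1 (show 2 < Δ.card by omega)
  set a' : {a // a ∈ Δ} := ⟨a, ha⟩
  set b' : {a // a ∈ Δ} := ⟨b, hb⟩
  set c' : {a // a ∈ Δ} := ⟨c, hc⟩
  set σ := Equiv.swap a' b' * Equiv.swap a' c' with hσdef
  have hσ3 := Equiv.Perm.isThreeCycle_swap_mul_swap_same (a := a') (b := b') (c := c')
    (fun e => hab (Subtype.ext_iff.1 e)) (fun e => hac (Subtype.ext_iff.1 e))
    (fun e => hbc (Subtype.ext_iff.1 e))
  obtain ⟨l, hl, hlσ⟩ := hon' hσ3.mem_alternatingGroup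
  apply hsub
  refine alt_le_of_small hT (by rw [hs.card]; omega) (z := ((l : G) : Equiv.Perm α))
    (SetLike.coe_mem _) ?_ ?_
  · intro e
    apply hσ3.ne_one
    rw [← hlσ]
    exact Equiv.ext fun u => Subtype.ext (by rw [resΔ_apply]; exact Equiv.Perm.congr_fun e u)
  · have hsub3 : ((l : G) : Equiv.Perm α).support ⊆ σ.support.image Subtype.val := by
      intro u hu
      rw [Equiv.Perm.mem_support] at hu
      have huΔ : u ∈ Δ := by
        by_contra h
        exact hu (hfix l hl u (Finset.mem_compl.2 h))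
      refine Finset.mem_image.2 ⟨⟨u, huΔ⟩, Equiv.Perm.mem_support.2 fun e => hu ?_, rfl⟩
      exact Subtype.ext_iff.1 ((Equiv.Perm.congr_fun hlσ ⟨u, huΔ⟩).trans e)
    exact ((Finset.card_le_card hsub3).trans Finset.card_image_le).trans hσ3.card_support.le

end Cfsg.Agent.H26.Pro
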