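import Mathlib

/-!
# Fixed points of pronormal subgroups: the inductive engine
-/

set_option linter.unusedSectionVars false
set_option linter.unusedVariables false

namespace Cfsg.Agent.H26.Pro

open Finset

section Defs

variable {H : Type*} [Group H]

/-- conjugate subgroup `g K g⁻¹` -/
def cj (g : H) (K : Subgroup H) : Subgroup H := K.map (MulAut.conj g).toMonoidHom

/-- pronormal subgroup -/
def IsPron (K : Subgroup H) : Prop := ∀ g : H, ∃ w ∈ K ⊔ cj g K, cj w K = cj g K

theorem mem_cj {g x : H} {K : Subgroup H} : x ∈ cj g K ↔ g⁻¹ * x * g ∈ K := by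
  constructor
  · rintro ⟨y, hy, rfl⟩
    have : g⁻¹ * (MulAut.conj g).toMonoidHom y * g = y := by
      simp [MulAut.conj_apply]; group
    rwa [this]
  · intro h
    exact ⟨g⁻¹ * x * g, h, by simp [MulAut.conj_apply]; group⟩

theorem conj_mem_cj {g k : H} {K : Subgroup H} (hk : k ∈ K) : g * k * g⁻¹ ∈ cj g K := by
  rw [mem_cj]; have : g⁻¹ * (g * k * g⁻¹) * g = k := by group
  rwa [this]

theorem cj_cj (g h : H) (K : Subgroup H) : cj g (cj h K) = cj (g * h) K := by
  ext x
  simp only [mem_cj]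
  constructor <;> intro hx <;> convert hx using 1 <;> group

@[simp] theorem cj_one (K : Subgroup H) : cj (1 : H) K = K := by
  ext x; simp [mem_cj]

theorem map_cj {H' : Type*} [Group H'] (φ : H →* H') (g : H) (K : Subgroup H) :
    (cj g K).map φ = cj (φ g) (K.map φ) := by
  ext x
  constructor
  · rintro ⟨y, hy, rfl⟩
    have hy' := mem_cj.1 (SetLike.mem_coe.1 hy)
    exact mem_cj.2 ⟨_, hy', by simp⟩
  · rw [mem_cj]
    rintro ⟨y, hy, hxy⟩
    refine ⟨g * y * g⁻¹, conj_mem_cj hy, ?_⟩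
    simp [hxy]; group

theorem IsPron.map {H' : Type*} [Group H'] {K : Subgroup H} (hK : IsPron K) (φ : H →* H')
    (hφ : Function.Surjective φ) : IsPron (K.map φ) := by
  intro g'
  obtain ⟨g, rfl⟩ := hφ g'
  obtain ⟨w, hw, he⟩ := hK g
  refine ⟨φ w, ?_, ?_⟩
  · rw [← map_cj, ← Subgroup.map_sup]
    exact ⟨w, hw, rfl⟩
  · rw [← map_cj, ← map_cj, he]

theorem IsPron.subgroupOf {K S : Subgroup H} (hK : IsPron K) (hKS : K ≤ S) :
    IsPron (K.subgroupOf S) := by
  intro g
  obtain ⟨w, hw, he⟩ := hK (g : H)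
  have hg : cj (g : H) K ≤ S := by
    intro x hx
    rw [mem_cj] at hx
    have h1 : (g : H) * ((g : H)⁻¹ * x * g) * (g : H)⁻¹ ∈ S :=
      S.mul_mem (S.mul_mem g.2 (hKS hx)) (S.inv_mem g.2)
    have h2 : (g : H) * ((g : H)⁻¹ * x * g) * (g : H)⁻¹ = x := by group
    rwa [h2] at h1
  have hwS : w ∈ S := (sup_le hKS hg) hw
  have hc : cj g (K.subgroupOf S) = (cj (g : H) K).subgroupOf S := by
    ext x
    simp [mem_cj, Subgroup.mem_subgroupOf]
  refine ⟨⟨w, hwS⟩, ?_, ?_⟩
  · rw [hc, ← Subgroup.subgroupOf_sup hKS hg, Subgroup.mem_subgroupOf]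
    exact hw
  · rw [hc, ← he]
    ext x
    simp [mem_cj, Subgroup.mem_subgroupOf]

variable (β : Type*) [MulAction H β]

/-- `K` acts non-trivially on `β` -/
def Moves (K : Subgroup H) : Prop := ∃ k ∈ K, ∃ b : β, k • b ≠ b

variable {β} [Fintype β]

/-- the finset of fixed points of `K` -/
noncomputable def fixF (K : Subgroup H) : Finset β :=
  haveI : DecidablePred fun b : β => ∀ k ∈ K, k • b = b := Classical.decPred _
  univ.filter fun b => ∀ k ∈ K, k • b = b

theorem mem_fixF {K : Subgroup H} {b : β} : b ∈ fixF K ↔ ∀ k ∈ K, k • b = b := by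
  simp [fixF]

theorem mem_fixF_cj {K : Subgroup H} {g : H} {b : β} : b ∈ fixF (cj g K) ↔ g⁻¹ • b ∈ fixF K := by
  simp only [mem_fixF]
  constructor
  · intro h k hk
    have := h _ (conj_mem_cj (g := g) hk)
    rw [mul_smul, mul_smul] at this
    exact eq_inv_smul_iff.2 this
  · intro h x hx
    rw [mem_cj] at hx
    have := h _ hx
    rw [mul_smul, mul_smul, smul_inv_smul] at this
    exact (MulAction.injective g⁻¹) this

theorem fixF_anti {K L : Subgroup H} (h : K ≤ L) : fixF (β := β) L ⊆ fixF K := fun b hb =>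
  mem_fixF.2 fun k hk => mem_fixF.1 hb k (h hk)

theorem smul_mem_fixF_of_cj_eq {K : Subgroup H} {g : H} (hg : cj g K = K) {b : β}
    (hb : b ∈ fixF K) : g • b ∈ fixF K := by
  have : g • b ∈ fixF (cj g K) := by rw [mem_fixF_cj, inv_smul_smul]; exact hb
  rwa [hg] at this

/-- Witt: a conjugate of `K` fixing `a ∈ Fix K` is conjugate inside the stabilizer of `a`. -/
theorem IsPron.witt {K : Subgroup H} (hK : IsPron K) {S : Finset β} (hS : S ⊆ fixF K) {g : H}
    (hg : ∀ a ∈ S, g⁻¹ • a ∈ fixF K) :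
    ∃ h : H, (∀ a ∈ S, h • a = a) ∧ cj h K = cj g K := by
  obtain ⟨w, hw, he⟩ := hK g
  refine ⟨w, fun a ha => ?_, he⟩
  have hle : K ⊔ cj g K ≤ MulAction.stabilizer H a := by
    refine sup_le (fun k hk => mem_fixF.1 (hS ha) k hk) fun k hk => ?_
    exact mem_fixF.1 (mem_fixF_cj.2 (hg a ha)) k hk
  exact hle hw

end Defs

/-- the bound, for all degrees below `n` -/
def BndLt (n : ℕ) : Prop :=
  ∀ m < n, ∀ (G : Subgroup (Equiv.Perm (Fin m))) (K : Subgroup G),
    MulAction.IsPretransitive G (Fin m) → IsPron K → Moves (Fin m) K →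
      2 * (fixF (β := Fin m) K).card + 1 ≤ m

variable {H : Type*} [Group H] {β : Type*} [MulAction H β] [Fintype β]

theorem bnd_action {n : ℕ} (IH : BndLt n) (hlt : Fintype.card β < n)
    (ht : MulAction.IsPretransitive H β) {K : Subgroup H} (hK : IsPron K) (hm : Moves β K) :
    2 * (fixF (β := β) K).card + 1 ≤ Fintype.card β := by
  classical
  set e := Fintype.equivFin β
  set φ : H →* Equiv.Perm (Fin (Fintype.card β)) :=
    e.permCongrHom.toMonoidHom.comp (MulAction.toPermHom H β)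
  have happ : ∀ (h : H) (i : Fin (Fintype.card β)), φ h i = e (h • e.symm i) := by
    intro h i; rfl
  have key : ∀ (h : H) (i : Fin (Fintype.card β)), φ.rangeRestrict h • i = e (h • e.symm i) :=
    fun h i => happ h i
  have htr : MulAction.IsPretransitive φ.range (Fin (Fintype.card β)) := by
    refine ⟨fun a b => ?_⟩
    obtain ⟨h, hh⟩ := ht.exists_smul_eq (e.symm a) (e.symm b)
    exact ⟨φ.rangeRestrict h, by rw [key, hh, e.apply_symm_apply]⟩
  have hmv : Moves (Fin (Fintype.card β)) (K.map φ.rangeRestrict) := by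
    obtain ⟨k, hk, b, hb⟩ := hm
    refine ⟨_, Subgroup.mem_map_of_mem _ hk, e b, ?_⟩
    rw [key, e.symm_apply_apply]
    exact fun h => hb (e.injective h)
  have hb := IH _ hlt φ.range (K.map φ.rangeRestrict) htr
    (hK.map _ φ.rangeRestrict_surjective) hmv
  have hfix : fixF (β := Fin (Fintype.card β)) (K.map φ.rangeRestrict) =
      (fixF (β := β) K).map e.toEmbedding := by
    ext i
    rw [mem_fixF, Finset.mem_map_equiv, mem_fixF]
    constructor
    · intro h k hk
      have := h _ (Subgroup.mem_map_of_mem _ hk)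
      rw [key] at this
      exact e.injective (by rw [this, e.apply_symm_apply])
    · rintro h _ ⟨k, hk, rfl⟩
      rw [key, h k hk, e.apply_symm_apply]
  rwa [hfix, Finset.card_map] at hb

variable [DecidableEq β]

/-- orbit as a finset -/
noncomputable def orb (S : Subgroup H) (b : β) : Finset β :=
  haveI : Fintype (MulAction.orbit S b) := Fintype.ofFinite _
  (MulAction.orbit S b).toFinset

theorem mem_orb {S : Subgroup H} {b c : β} : c ∈ orb S b ↔ ∃ h ∈ S, h • b = c := by
  simp only [orb, Set.mem_toFinset, MulAction.mem_orbit_iff]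
  constructor
  · rintro ⟨⟨h, hh⟩, he⟩; exact ⟨h, hh, he⟩
  · rintro ⟨h, hh, he⟩; exact ⟨⟨h, hh⟩, he⟩

theorem self_mem_orb (S : Subgroup H) (b : β) : b ∈ orb S b :=
  mem_orb.2 ⟨1, S.one_mem, one_smul _ _⟩

theorem orb_eq_of_mem {S : Subgroup H} {b c : β} (h : c ∈ orb S b) : orb S c = orb S b := by
  obtain ⟨g, hg, rfl⟩ := mem_orb.1 h
  ext d
  simp only [mem_orb]
  constructor
  · rintro ⟨x, hx, rfl⟩; exact ⟨x * g, S.mul_mem hx hg, mul_smul _ _ _⟩
  · rintro ⟨x, hx, rfl⟩
    exact ⟨x * g⁻¹, S.mul_mem hx (S.inv_mem hg), by rw [mul_smul, inv_smul_smul]⟩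

theorem mem_orb_comm {S : Subgroup H} {b c : β} (h : c ∈ orb S b) : b ∈ orb S c := by
  rw [orb_eq_of_mem h]; exact self_mem_orb S b

theorem orb_card_lt {n : ℕ} {S : Subgroup H} {b a : β} (ha : a ∉ orb S b)
    (hn : Fintype.card β ≤ n) : (orb S b).card < n := by
  refine lt_of_lt_of_le (Finset.card_lt_card (t := univ) ?_) hn
  exact Finset.ssubset_iff_of_subset (subset_univ _) |>.2 ⟨a, mem_univ _, ha⟩

theorem orb_bound {n : ℕ} (IH : BndLt n) {S : Subgroup H} {K : Subgroup H} (hK : IsPron K)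
    (hKS : K ≤ S) {b : β} (hlt : (orb S b).card < n) (hmv : ∃ c ∈ orb S b, c ∉ fixF K) :
    2 * (orb S b ∩ fixF K).card + 1 ≤ (orb S b).card := by
  haveI : Fintype (MulAction.orbit S b) := Fintype.ofFinite _
  have hc : Fintype.card (MulAction.orbit S b) = (orb S b).card := by
    rw [← Set.toFinset_card]
    unfold orb
    convert rfl
  have hmv' : Moves (MulAction.orbit S b) (K.subgroupOf S) := by
    obtain ⟨c, hc, hcm⟩ := hmv
    simp only [mem_fixF, not_forall] at hcm
    obtain ⟨k, hk, hkc⟩ := hcm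
    obtain ⟨h, hh, he⟩ := mem_orb.1 hc
    refine ⟨⟨k, hKS hk⟩, hk, ⟨c, ⟨⟨h, hh⟩, he⟩⟩, ?_⟩
    exact fun he' => hkc (Subtype.ext_iff.1 he')
  have hb := bnd_action IH (hc ▸ hlt) inferInstance (hK.subgroupOf hKS) hmv'
  have hf : (fixF (β := MulAction.orbit S b) (K.subgroupOf S)).map
      (Function.Embedding.subtype _) = orb S b ∩ fixF K := by
    ext c
    simp only [Finset.mem_map, Function.Embedding.coe_subtype, Finset.mem_inter, mem_fixF]
    constructor
    · rintro ⟨⟨d, hd⟩, hfix, rfl⟩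
      refine ⟨mem_orb.2 ?_, fun k hk => ?_⟩
      · obtain ⟨⟨h, hh⟩, he⟩ := hd; exact ⟨h, hh, he⟩
      · exact Subtype.ext_iff.1 (hfix ⟨k, hKS hk⟩ hk)
    · rintro ⟨ho, hfix⟩
      obtain ⟨h, hh, he⟩ := mem_orb.1 ho
      exact ⟨⟨c, ⟨⟨h, hh⟩, he⟩⟩, fun k hk => Subtype.ext (hfix k hk), rfl⟩
  rw [← hf, Finset.card_map, ← hc]
  exact hb

/-- the set of orbits of `S` on the complement of `a` -/
noncomputable def orbitsAway (S : Subgroup H) (a : β) : Finset (Finset β) :=
  (univ.erase a).image (orb S)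

theorem le_stabilizer_of_mem_fixF {K : Subgroup H} {a : β} (ha : a ∈ fixF K) :
    K ≤ MulAction.stabilizer H a := fun k hk => mem_fixF.1 ha k hk

theorem not_mem_orb_stabilizer {a b : β} (h : b ≠ a) :
    a ∉ orb (MulAction.stabilizer H a) b := by
  intro hm
  obtain ⟨g, hg, he⟩ := mem_orb.1 hm
  exact h (MulAction.injective g (he.trans (MulAction.mem_stabilizer_iff.1 hg).symm))

theorem orbitsAway_partition (a : β) :
    (univ.erase a).card = ∑ O ∈ orbitsAway (MulAction.stabilizer H a) a, O.card ∧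
    ∀ F : Finset β, (F.erase a).card =
      ∑ O ∈ orbitsAway (MulAction.stabilizer H a) a, (O ∩ F).card := by
  have key : ∀ F : Finset β, (F.erase a).card =
      ∑ O ∈ orbitsAway (MulAction.stabilizer H a) a, (O ∩ F).card := by
    intro F
    rw [Finset.card_eq_sum_card_fiberwise (f := orb (MulAction.stabilizer H a))
      (t := orbitsAway (MulAction.stabilizer H a) a)]
    · refine Finset.sum_congr rfl fun O hO => ?_
      obtain ⟨b, hb, rfl⟩ := Finset.mem_image.1 hO
      congr 1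
      ext c
      simp only [Finset.mem_filter, Finset.mem_erase, Finset.mem_inter]
      constructor
      · rintro ⟨⟨_, hc⟩, he⟩; exact ⟨he ▸ self_mem_orb _ c, hc⟩
      · rintro ⟨ho, hc⟩
        refine ⟨⟨?_, hc⟩, orb_eq_of_mem ho⟩
        rintro rfl
        exact not_mem_orb_stabilizer (Finset.mem_erase.1 hb).1 ho
    · intro c hc
      exact Finset.mem_image_of_mem _
        (Finset.mem_erase.2 ⟨(Finset.mem_erase.1 hc).1, mem_univ _⟩)
  refine ⟨?_, key⟩
  rw [key univ]
  exact Finset.sum_congr rfl fun O _ => by rw [Finset.inter_univ]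

/-- One step of the induction: the slack is the sum of the slacks of the suborbits. -/
theorem step {n : ℕ} (IH : BndLt n) (hn : Fintype.card β ≤ n) {K : Subgroup H} (hK : IsPron K)
    {a : β} (ha : a ∈ fixF K)
    (hT : ∀ b, b ≠ a → ∃ c ∈ orb (MulAction.stabilizer H a) b, c ∉ fixF K) :
    (∀ O ∈ orbitsAway (MulAction.stabilizer H a) a, 2 * (O ∩ fixF K).card + 1 ≤ O.card) ∧
    (∑ O ∈ orbitsAway (MulAction.stabilizer H a) a, O.card) + 1 = Fintype.card β ∧
    (∑ O ∈ orbitsAway (MulAction.stabilizer H a) a, (O ∩ fixF K).card) + 1 =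
      (fixF (β := β) K).card := by
  refine ⟨fun O hO => ?_, ?_, ?_⟩
  · obtain ⟨b, hb, rfl⟩ := Finset.mem_image.1 hO
    have hba := (Finset.mem_erase.1 hb).1
    exact orb_bound IH hK (le_stabilizer_of_mem_fixF ha)
      (orb_card_lt (not_mem_orb_stabilizer hba) hn) (hT b hba)
  · rw [← (orbitsAway_partition a).1, Finset.card_erase_add_one (mem_univ a), Finset.card_univ]
  · rw [← (orbitsAway_partition a).2, Finset.card_erase_add_one ha]

/-- every conjugate of `K` fixing `a` fixes `b` -/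
def Rel (K : Subgroup H) (a b : β) : Prop := ∀ g : H, g • a ∈ fixF K → g • b ∈ fixF K

theorem Rel.refl (K : Subgroup H) (a : β) : Rel K a a := fun _ h => h

theorem Rel.trans {K : Subgroup H} {a b c : β} (h1 : Rel K a b) (h2 : Rel K b c) : Rel K a c :=
  fun g hg => h2 g (h1 g hg)

theorem Rel.smul {K : Subgroup H} {a b : β} (h1 : Rel K a b) (x : H) : Rel K (x • a) (x • b) := by
  intro g hg
  rw [← mul_smul] at hg ⊢
  exact h1 _ hg

theorem Rel.symm [Finite H] [ht : MulAction.IsPretransitive H β] {K : Subgroup H} {a b : β}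
    (h : Rel K a b) : Rel K b a := by
  classical
  haveI := Fintype.ofFinite H
  set S : β → Finset H := fun a => univ.filter fun g => g • a ∈ fixF K
  have hcard : (S b).card = (S a).card := by
    obtain ⟨x, rfl⟩ := ht.exists_smul_eq a b
    refine Finset.card_equiv (Equiv.mulRight x) fun g => ?_
    simp [S, mul_smul]
  have hsub : S a ⊆ S b := by
    intro g hg
    simp [S] at hg ⊢
    exact h g hg
  have heq := Finset.eq_of_subset_of_card_le hsub hcard.le
  intro g hg
  have : g ∈ S b := by simp [S, hg]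
  rw [← heq] at this
  simpa [S] using this

theorem exists_moved_of_not_rel {K : Subgroup H} (hK : IsPron K) {a b : β} (ha : a ∈ fixF K)
    (h : ¬ Rel K a b) : ∃ c ∈ orb (MulAction.stabilizer H a) b, c ∉ fixF K := by
  simp only [Rel, not_forall] at h
  obtain ⟨g, hga, hgb⟩ := h
  obtain ⟨w, hw, he⟩ := hK.witt (S := {a}) (g := g⁻¹) (by simpa using ha)
    (by simpa using hga)
  refine ⟨w⁻¹ • b, mem_orb.2 ⟨w⁻¹, ?_, rfl⟩, ?_⟩
  · exact inv_mem (MulAction.mem_stabilizer_iff.2 (hw a (by simp)))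
  · intro hc
    apply hgb
    have : b ∈ fixF (cj g⁻¹ K) := by rw [← he, mem_fixF_cj]; exact hc
    rwa [mem_fixF_cj, inv_inv] at this

end Cfsg.Agent.H26.Pro
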