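import Cfsg.Agent.H26.Pro.Basic

/-!
# Block systems and fixed points of pronormal subgroups
-/

set_option linter.unusedSectionVars false
set_option linter.style.haveILetI false

namespace Cfsg.Agent.H26.Pro

open Finset
open scoped Pointwise

variable {H : Type*} [Group H] {β : Type*} [MulAction H β] [Fintype β] [DecidableEq β]

/-- class of an equivalence relation -/
noncomputable def cls (r : β → β → Prop) (x : β) : Finset β :=
  haveI : DecidablePred (r x) := Classical.decPred _
  univ.filter (r x)

theorem mem_cls {r : β → β → Prop} {x y : β} : y ∈ cls r x ↔ r x y := by simp [cls]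

theorem smul_cls {r : β → β → Prop} (hinv : ∀ (g : H) (x y : β), r x y → r (g • x) (g • y))
    (g : H) (x : β) : g • cls r x = cls r (g • x) := by
  ext y
  rw [← Finset.inv_smul_mem_iff, mem_cls, mem_cls]
  constructor
  · intro h; simpa using hinv g _ _ h
  · intro h; simpa using hinv g⁻¹ _ _ h

theorem cls_eq {r : β → β → Prop} (hr : Equivalence r) {x y : β} :
    cls r x = cls r y ↔ r x y := by
  constructor
  · intro h
    have : y ∈ cls r y := mem_cls.2 (hr.refl y)
    rw [← h] at this
    exact mem_cls.1 this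
  · intro h
    ext z
    simp only [mem_cls]
    exact ⟨fun h' => hr.trans (hr.symm h) h', fun h' => hr.trans h h'⟩

/-- A block system: either `2 f + d ≤ n`, or `K` fixes every block and every block meets `Fix K`
in the same number of points. -/
theorem block_bound [ht : MulAction.IsPretransitive H β] {n : ℕ} (IH : BndLt n)
    (hn : Fintype.card β ≤ n) {K : Subgroup H} (hK : IsPron K) (r : β → β → Prop)
    (hr : Equivalence r) (hinv : ∀ (g : H) (x y : β), r x y → r (g • x) (g • y)) (x₀ : β)
    (hd : 2 ≤ (cls r x₀).card) :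
    2 * (fixF (β := β) K).card + (cls r x₀).card ≤ Fintype.card β ∨
    ((∀ k ∈ K, ∀ x : β, r x (k • x)) ∧
      ∀ x y : β, (cls r x ∩ fixF K).card = (cls r y ∩ fixF K).card) := by
  classical
  set d := (cls r x₀).card
  have hcd : ∀ x, (cls r x).card = d := by
    intro x
    obtain ⟨g, rfl⟩ := ht.exists_smul_eq x₀ x
    rw [← smul_cls hinv, Finset.card_smul_finset]
  set Q : Finset (Finset β) := univ.image (cls r)
  have hQn : Q.card * d = Fintype.card β := by
    rw [← Finset.card_univ, Finset.card_eq_sum_card_image (cls r) univ]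
    rw [Finset.sum_congr rfl (g := fun _ => d) fun c hc => ?_, Finset.sum_const, smul_eq_mul]
    obtain ⟨x, _, rfl⟩ := Finset.mem_image.1 hc
    rw [← hcd x]
    congr 1
    ext y
    simp only [Finset.mem_filter, Finset.mem_univ, true_and, mem_cls]
    rw [cls_eq hr]
    exact ⟨hr.symm, hr.symm⟩
  have horb : MulAction.orbit H (cls r x₀) = (Q : Set (Finset β)) := by
    ext c
    simp only [MulAction.mem_orbit_iff, Q, Finset.coe_image, Finset.coe_univ, Set.image_univ,
      Set.mem_range]
    constructor
    · rintro ⟨g, rfl⟩; exact ⟨g • x₀, (smul_cls hinv g x₀).symm⟩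
    · rintro ⟨x, rfl⟩
      obtain ⟨g, rfl⟩ := ht.exists_smul_eq x₀ x
      exact ⟨g, smul_cls hinv g x₀⟩
  haveI : Fintype (MulAction.orbit H (cls r x₀)) := Fintype.ofFinite _
  have hQc : Fintype.card (MulAction.orbit H (cls r x₀)) = Q.card := by
    rw [← Nat.card_eq_fintype_card, Nat.card_congr (Equiv.setCongr horb)]
    simp
  by_cases hmv : Moves (MulAction.orbit H (cls r x₀)) K
  · left
    have hQ1 : 1 ≤ Q.card := Finset.card_pos.2 ⟨cls r x₀, Finset.mem_image_of_mem _ (mem_univ _)⟩
    have hlt : Fintype.card (MulAction.orbit H (cls r x₀)) < n := by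
      rw [hQc]
      have : Q.card * 2 ≤ Q.card * d := Nat.mul_le_mul_left _ hd
      omega
    have hb := bnd_action IH hlt inferInstance hK hmv
    rw [hQc] at hb
    set P := (fixF (β := MulAction.orbit H (cls r x₀)) K).map (Function.Embedding.subtype _)
    have hPcard : P.card = (fixF (β := MulAction.orbit H (cls r x₀)) K).card := Finset.card_map _
    have hsub : fixF (β := β) K ⊆ P.biUnion id := by
      intro x hx
      simp only [Finset.mem_biUnion, id, P, Finset.mem_map, Function.Embedding.coe_subtype]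
      have hm : cls r x ∈ MulAction.orbit H (cls r x₀) := by
        rw [horb]; exact Finset.mem_image_of_mem _ (mem_univ _)
      refine ⟨cls r x, ⟨⟨cls r x, hm⟩, mem_fixF.2 fun k hk => Subtype.ext ?_, rfl⟩,
        mem_cls.2 (hr.refl x)⟩
      show k • cls r x = cls r x
      rw [smul_cls hinv, mem_fixF.1 hx k hk]
    have hP : ∀ c ∈ P, c.card = d := by
      intro c hc
      obtain ⟨⟨c', hc'⟩, -, rfl⟩ := Finset.mem_map.1 hc
      rw [horb] at hc'
      obtain ⟨x, -, rfl⟩ := Finset.mem_image.1 hc'
      exact hcd x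
    have hf : (fixF (β := β) K).card ≤ P.card * d := by
      refine (Finset.card_le_card hsub).trans (Finset.card_biUnion_le.trans (le_of_eq ?_))
      exact Finset.sum_const_nat hP
    rw [hPcard] at hf
    have := Nat.mul_le_mul_right d hb
    nlinarith
  · right
    have htriv : ∀ k ∈ K, ∀ x : β, r x (k • x) := by
      intro k hk x
      have hm : cls r x ∈ MulAction.orbit H (cls r x₀) := by
        rw [horb]; exact Finset.mem_image_of_mem _ (mem_univ _)
      simp only [Moves, not_exists, not_and, not_not] at hmv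
      have h' : k • cls r x = cls r x := congrArg Subtype.val (hmv k hk ⟨_, hm⟩)
      rw [smul_cls hinv, cls_eq hr] at h'
      exact hr.symm h'
    refine ⟨htriv, ?_⟩
    suffices ∀ x y : β, (cls r x ∩ fixF K).card ≤ (cls r y ∩ fixF K).card from
      fun x y => le_antisymm (this x y) (this y x)
    intro x y
    obtain ⟨g, hg⟩ := ht.exists_smul_eq x y
    obtain ⟨w, hw, he⟩ := hK g
    -- `w` fixes all blocks
    have hwfix : ∀ z, cls r (w • z) = cls r z := by
      intro z
      have hle : K ⊔ cj g K ≤ MulAction.stabilizer H (cls r z) := by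
        refine sup_le (fun k hk => ?_) fun k hk => ?_
        · rw [MulAction.mem_stabilizer_iff, smul_cls hinv, cls_eq hr]
          exact hr.symm (htriv k hk z)
        · rw [MulAction.mem_stabilizer_iff, smul_cls hinv, cls_eq hr]
          have := hinv g _ _ (htriv _ (mem_cj.1 hk) (g⁻¹ • z))
          rw [← mul_smul, ← mul_smul, ← mul_smul,
            show g * (g⁻¹ * k * g) * g⁻¹ = k by group, mul_inv_cancel, one_smul] at this
          exact hr.symm this
      rw [← smul_cls hinv]
      exact MulAction.mem_stabilizer_iff.1 (hle hw)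
    set h := w⁻¹ * g with hh
    have hhK : cj h K = K := by rw [hh, ← cj_cj, ← he, cj_cj, inv_mul_cancel, cj_one]
    have hhx : h • cls r x = cls r y := by
      rw [hh, mul_smul, smul_cls hinv, hg, smul_cls hinv, ← hwfix (w⁻¹ • y), smul_inv_smul]
    rw [← Finset.card_smul_finset h (cls r x ∩ fixF K)]
    refine Finset.card_le_card fun z hz => ?_
    obtain ⟨u, hu, rfl⟩ := Finset.mem_smul_finset.1 hz
    rw [Finset.mem_inter] at hu ⊢
    exact ⟨hhx ▸ Finset.smul_mem_smul_finset hu.1, smul_mem_fixF_of_cj_eq hhK hu.2⟩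

/-- classes of `Rel` are small when the slack is small -/
theorem rel_class_bound [Finite H] [ht : MulAction.IsPretransitive H β] {n : ℕ} (IH : BndLt n)
    (hn : Fintype.card β ≤ n) {K : Subgroup H} (hK : IsPron K) (hm : Moves β K) {a : β}
    (ha : a ∈ fixF K) (hd : 2 ≤ (cls (Rel K) a).card) :
    2 * (fixF (β := β) K).card + (cls (Rel K) a).card ≤ Fintype.card β := by
  rcases block_bound IH hn hK (Rel K) ⟨Rel.refl K, fun h => h.symm, fun h h' => h.trans h'⟩
      (fun g x y h => h.smul g) a hd with h | ⟨-, heq⟩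
  · exact h
  exfalso
  obtain ⟨k, hk, b, hb⟩ := hm
  apply hb
  have hsub : cls (Rel K) a ∩ fixF K = cls (Rel K) a := by
    refine Finset.inter_eq_left.2 fun x hx => ?_
    have := mem_cls.1 hx 1 (by rwa [one_smul])
    rwa [one_smul] at this
  have hall : cls (Rel K) b ∩ fixF K = cls (Rel K) b := by
    refine Finset.eq_of_subset_of_card_le Finset.inter_subset_left ?_
    obtain ⟨g, rfl⟩ := ht.exists_smul_eq a b
    rw [heq _ a, hsub, ← smul_cls (fun g x y (h : Rel K x y) => h.smul g),
      Finset.card_smul_finset]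
  have : b ∈ cls (Rel K) b ∩ fixF K := by rw [hall]; exact mem_cls.2 (Rel.refl K b)
  exact mem_fixF.1 (Finset.mem_inter.1 this).2 k hk

/-- If the slack is at most one, `Rel` is trivial. -/
theorem rel_trivial_of_slack [Finite H] [MulAction.IsPretransitive H β] {n : ℕ} (IH : BndLt n)
    (hn : Fintype.card β ≤ n) {K : Subgroup H} (hK : IsPron K) (hm : Moves β K)
    (hs : Fintype.card β < 2 * (fixF (β := β) K).card + 2) {a : β} (ha : a ∈ fixF K) {b : β}
    (hb : b ≠ a) : ¬ Rel K a b := by
  intro hR
  have h2 : 2 ≤ (cls (Rel K) a).card :=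
    Finset.one_lt_card.2 ⟨a, mem_cls.2 (Rel.refl K a), b, mem_cls.2 hR, hb.symm⟩
  have := rel_class_bound IH hn hK hm ha h2
  omega

/-- A block system with blocks of even size at least `4` leaves slack at least `4`
(or there is one block). -/
theorem block_slack_even [ht : MulAction.IsPretransitive H β] {n : ℕ} (IH : BndLt n)
    (hn : Fintype.card β ≤ n) {K : Subgroup H} (hK : IsPron K) (hm : Moves β K)
    (r : β → β → Prop) (hr : Equivalence r)
    (hinv : ∀ (g : H) (x y : β), r x y → r (g • x) (g • y)) (x₀ : β)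
    (heven : Even (cls r x₀).card) (h4 : 4 ≤ (cls r x₀).card)
    (htwo : ∃ y, ¬ r x₀ y) (hs : Fintype.card β < 2 * (fixF (β := β) K).card + 4) : False := by
  classical
  rcases block_bound IH hn hK r hr hinv x₀ (by omega) with h | ⟨htriv, heq⟩
  · omega
  obtain ⟨y, hy⟩ := htwo
  set d := (cls r x₀).card
  set f₀ := (cls r x₀ ∩ fixF K).card
  have hcd : ∀ x, (cls r x).card = d := by
    intro x
    obtain ⟨g, rfl⟩ := ht.exists_smul_eq x₀ x
    rw [← smul_cls hinv, Finset.card_smul_finset]
  set Q : Finset (Finset β) := univ.image (cls r)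
  have hfib : ∀ F : Finset β, F.card = ∑ c ∈ Q, (c ∩ F).card := by
    intro F
    rw [Finset.card_eq_sum_card_fiberwise (f := cls r) (t := Q)
      (fun x _ => Finset.mem_image_of_mem _ (mem_univ _))]
    refine Finset.sum_congr rfl fun c hc => ?_
    obtain ⟨x, _, rfl⟩ := Finset.mem_image.1 hc
    congr 1
    ext z
    simp only [Finset.mem_filter, Finset.mem_inter, mem_cls, cls_eq hr]
    exact ⟨fun h => ⟨hr.symm h.2, h.1⟩, fun h => ⟨h.2, hr.symm h.1⟩⟩
  have hconst : ∀ (F : Finset β) (e : ℕ), (∀ x, (cls r x ∩ F).card = e) →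
      F.card = Q.card * e := by
    intro F e he
    rw [hfib F, Finset.sum_congr rfl (g := fun _ => e) fun c hc => ?_, Finset.sum_const,
      smul_eq_mul]
    obtain ⟨x, _, rfl⟩ := Finset.mem_image.1 hc
    exact he x
  have hN : Fintype.card β = Q.card * d := by
    rw [← Finset.card_univ]; exact hconst _ _ fun x => by rw [Finset.inter_univ]; exact hcd x
  have hF : (fixF (β := β) K).card = Q.card * f₀ := hconst _ _ fun x => heq x x₀
  have hQ2 : 2 ≤ Q.card :=
    Finset.one_lt_card.2 ⟨cls r x₀, Finset.mem_image_of_mem _ (mem_univ _), cls r y,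
      Finset.mem_image_of_mem _ (mem_univ _), fun h => hy ((cls_eq hr).1 h)⟩
  obtain ⟨k, hk, b, hb⟩ := hm
  set S := MulAction.stabilizer H (cls r b)
  have hKS : K ≤ S := fun k hk => by
    rw [MulAction.mem_stabilizer_iff, smul_cls hinv, cls_eq hr]
    exact hr.symm (htriv k hk b)
  have horb : orb S b = cls r b := by
    ext c
    rw [mem_orb, mem_cls]
    constructor
    · rintro ⟨g, hg, rfl⟩
      rw [MulAction.mem_stabilizer_iff, smul_cls hinv, cls_eq hr] at hg
      exact hr.symm hg
    · intro hc
      obtain ⟨g, rfl⟩ := ht.exists_smul_eq b c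
      exact ⟨g, MulAction.mem_stabilizer_iff.2
        (by rw [smul_cls hinv, cls_eq hr]; exact hr.symm hc), rfl⟩
  have hlt : (orb S b).card < n := by
    rw [horb, hcd]
    have : 2 * d ≤ Q.card * d := Nat.mul_le_mul_right _ hQ2
    omega
  have hbd := orb_bound IH hK hKS hlt
    ⟨b, self_mem_orb S b, fun h => hb (mem_fixF.1 h k hk)⟩
  rw [horb, hcd, heq b x₀] at hbd
  obtain ⟨e, he⟩ := heven
  have : 2 * f₀ + 2 ≤ d := by omega
  nlinarith [Nat.mul_le_mul_left Q.card this]

end Cfsg.Agent.H26.Pro
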