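import Cfsg.Agent.H26.Pro.Semi3

/-!
# A pronormal subgroup fixes fewer than half of the points
-/

set_option linter.unusedSectionVars false
set_option linter.style.haveILetI false

namespace Cfsg.Agent.H26.Pro

open Finset
open scoped Pointwise

variable {α : Type*} [Fintype α] [DecidableEq α]
variable {G : Subgroup (Equiv.Perm α)}

/-- no pronormal subgroup fixes exactly half of the points -/
theorem sit_absurd {M : Subgroup G} {Δ : Finset α} (hs : Sit G M Δ) : False := by
  classical
  rcases Nat.lt_or_ge Δ.card 3 with hlt | hk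
  · obtain ⟨m, hm, b, hb⟩ := hs.moves
    have hout : ((m : Equiv.Perm α)).support ⊆ Δᶜ := fun u hu => Finset.mem_compl.2 fun h =>
      Equiv.Perm.mem_support.1 hu (hs.mem_iff.1 hm u h)
    have h1 := Finset.card_le_card hout
    rw [Finset.card_compl, hs.card] at h1
    have hne : (m : Equiv.Perm α) ≠ 1 := fun e => hb (by
      rw [show m = 1 from Subtype.ext e, one_smul])
    have h2 : ((m : Equiv.Perm α)).support.card = 2 :=
      le_antisymm (by omega) (Equiv.Perm.two_le_card_support_of_ne_one hne)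
    have h2T : MulAction.IsMultiplyPretransitive G α 2 :=
      MulAction.is_two_pretransitive_iff.2 fun h h' => hs.trans2 h h'
    have := Equiv.Perm.subgroup_eq_top_of_isPreprimitive_of_isSwap_mem
      (MulAction.isPreprimitive_of_is_two_pretransitive h2T) _
      (Equiv.Perm.card_support_eq_two.1 h2) m.2
    exact hs.not_alt (by rw [this]; exact le_top)
  · exact sit_false hs (sit_trans4 hs hk) hk

theorem bnd_le {n : ℕ} (IH : BndLt n) (hn : Fintype.card α = n) {K : Subgroup G}
    (htr : MulAction.IsPretransitive G α) (hK : IsPron K) (hm : Moves α K) :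
    2 * (fixF (β := α) K).card + 1 ≤ n := by
  classical
  set f := (fixF (β := α) K).card with hf
  obtain ⟨k₀, hk₀, b₀, hb₀⟩ := hm
  have hm : Moves α K := ⟨k₀, hk₀, b₀, hb₀⟩
  rcases (fixF (β := α) K).eq_empty_or_nonempty with he | ⟨a, ha⟩
  · rw [he, Finset.card_empty] at hf
    have := Fintype.card_pos_iff.2 ⟨b₀⟩
    omega
  by_cases hrel : ∃ b, b ≠ a ∧ Rel K a b
  · obtain ⟨b, hb, hR⟩ := hrel
    have h2 : 2 ≤ (cls (Rel K) a).card :=
      Finset.one_lt_card.2 ⟨a, mem_cls.2 (Rel.refl K a), b, mem_cls.2 hR, hb.symm⟩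
    have := rel_class_bound IH hn.le hK hm ha h2
    omega
  simp only [not_exists, not_and] at hrel
  obtain ⟨hbd, hsz, hfx⟩ := step IH hn.le hK ha
    fun b hb => exists_moved_of_not_rel hK ha (hrel b hb)
  have hsum := Finset.sum_le_sum hbd
  rw [Finset.sum_add_distrib, ← Finset.mul_sum, Finset.sum_const, smul_eq_mul, mul_one] at hsum
  have hP : 1 ≤ (orbitsAway (MulAction.stabilizer G a) a).card := by
    refine Finset.card_pos.2 ⟨_, Finset.mem_image_of_mem _
      (Finset.mem_erase.2 ⟨fun e => hb₀ ?_, mem_univ b₀⟩)⟩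
    exact mem_fixF.1 (e ▸ ha) k₀ hk₀
  by_contra hlt
  have hcard : Fintype.card α = 2 * f := by omega
  -- the critical situation
  set Δ := fixF (β := α) K with hΔ
  set M := fixingSubgroup G (Δ : Set α) with hM
  have hKM : K ≤ M := fun k hk => mem_fixingSubgroup_iff G |>.2 fun c hc => mem_fixF.1 hc k hk
  have hfix : fixF (β := α) M = Δ := Finset.Subset.antisymm (fixF_anti hKM)
    fun c hc => mem_fixF.2 fun m hm => mem_fixingSubgroup_iff G |>.1 hm c hc
  have hcj : ∀ (g x : G), x ∈ cj g M ↔ ∀ c ∈ g • Δ, x • c = c := by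
    intro g x
    rw [mem_cj, hM, mem_fixingSubgroup_iff]
    constructor
    · intro h c hc
      obtain ⟨d, hd, rfl⟩ := Finset.mem_smul_finset.1 hc
      have := h d hd
      rwa [mul_smul, mul_smul, inv_smul_eq_iff] at this
    · intro h d hd
      rw [mul_smul, mul_smul, inv_smul_eq_iff]
      exact h _ (Finset.smul_mem_smul_finset hd)
  have hfcj : ∀ g : G, fixF (β := α) (cj g K) = g • Δ := by
    intro g
    ext c
    rw [mem_fixF_cj, ← hΔ, Finset.inv_smul_mem_iff]
  have hpron : IsPron M := by
    intro g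
    obtain ⟨w, hw, he⟩ := hK g
    refine ⟨w, sup_le_sup hKM (Subgroup.map_mono hKM) hw, ?_⟩
    have : w • Δ = g • Δ := by rw [← hfcj, he, hfcj]
    ext x
    rw [hcj, hcj, this]
  exact sit_absurd (G := G) (M := M) (Δ := Δ)
    { htr := htr, pron := hpron, fixEq := hfix,
      full := fun g hg => (mem_fixingSubgroup_iff G).2 hg,
      card := hcard, IH := hn ▸ IH,
      moves := ⟨k₀, hKM hk₀, b₀, hb₀⟩ }

theorem bnd : ∀ n : ℕ, BndLt n := by
  intro n
  induction n with
  | zero => intro m hm; exact absurd hm (Nat.not_lt_zero m)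
  | succ n ih =>
    intro m hm G K htr hK hmv
    rcases Nat.lt_succ_iff_lt_or_eq.1 hm with h | rfl
    · exact ih m h G K htr hK hmv
    · exact bnd_le ih (Fintype.card_fin m) htr hK hmv

end Cfsg.Agent.H26.Pro
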