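import Mathlib

/-!
# Minimal degree of quadruply transitive groups (commutator averaging)
-/

set_option linter.unusedSectionVars false

namespace Cfsg.Agent.H26.Pro

open Finset Equiv

variable {α : Type*} [Fintype α] [DecidableEq α]

/-- four distinct points -/
def D4 (a b c d : α) : Prop := a ≠ b ∧ a ≠ c ∧ a ≠ d ∧ b ≠ c ∧ b ≠ d ∧ c ≠ d

/-- quadruple transitivity -/
def Trans4 (G : Subgroup (Perm α)) : Prop :=
  ∀ a b c d a' b' c' d' : α, D4 a b c d → D4 a' b' c' d' →
    ∃ g ∈ G, g a = a' ∧ g b = b' ∧ g c = c' ∧ g d = d'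

theorem exists_notMem_of_card_lt {s : Finset α} (h : s.card < Fintype.card α) :
    ∃ x, x ∉ s := by
  by_contra h'
  simp only [not_exists, not_not] at h'
  have : s = univ := Finset.eq_univ_of_forall h'
  rw [this, Finset.card_univ] at h
  exact lt_irrefl _ h

theorem Trans4.trans2 {G : Subgroup (Perm α)} (h : Trans4 G) (hn : 4 ≤ Fintype.card α)
    {a b a' b' : α} (hab : a ≠ b) (hab' : a' ≠ b') : ∃ g ∈ G, g a = a' ∧ g b = b' := by
  have ex : ∀ x y : α, x ≠ y → ∃ z w, D4 x y z w := by
    intro x y hxy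
    obtain ⟨z, hz⟩ := exists_notMem_of_card_lt (s := {x, y})
      (lt_of_le_of_lt Finset.card_le_two (by omega))
    obtain ⟨w, hw⟩ := exists_notMem_of_card_lt (s := {x, y, z})
      (lt_of_le_of_lt Finset.card_le_three (by omega))
    simp only [Finset.mem_insert, Finset.mem_singleton, not_or] at hz hw
    exact ⟨z, w, hxy, Ne.symm hz.1, Ne.symm hw.1, Ne.symm hz.2, Ne.symm hw.2.1, Ne.symm hw.2.2⟩
  obtain ⟨c, d, h1⟩ := ex a b hab
  obtain ⟨c', d', h2⟩ := ex a' b' hab'
  obtain ⟨g, hg, e1, e2, -, -⟩ := h a b c d a' b' c' d' h1 h2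
  exact ⟨g, hg, e1, e2⟩

theorem Trans4.preprimitive {G : Subgroup (Perm α)} (h : Trans4 G)
    (hn : 4 ≤ Fintype.card α) : MulAction.IsPreprimitive G α := by
  refine MulAction.isPreprimitive_of_is_two_pretransitive ?_
  rw [MulAction.is_two_pretransitive_iff]
  intro a b c d hab hcd
  obtain ⟨g, hg, e1, e2⟩ := h.trans2 hn hab hcd
  exact ⟨⟨g, hg⟩, e1, e2⟩

theorem alt_le_of_small {G : Subgroup (Perm α)} (h : Trans4 G) (hn : 4 ≤ Fintype.card α)
    {z : Perm α} (hz : z ∈ G) (hz1 : z ≠ 1) (h3 : z.support.card ≤ 3) :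
    alternatingGroup α ≤ G := by
  have h2 := Equiv.Perm.two_le_card_support_of_ne_one hz1
  rcases Nat.lt_or_ge z.support.card 3 with hlt | hge
  · rw [Equiv.Perm.subgroup_eq_top_of_isPreprimitive_of_isSwap_mem (h.preprimitive hn) z
      (Equiv.Perm.card_support_eq_two.1 (by omega)) hz]
    exact le_top
  · exact Equiv.Perm.alternatingGroup_le_of_isPreprimitive_of_isThreeCycle_mem
      (h.preprimitive hn) (card_support_eq_three_iff.1 (by omega)) hz

theorem prime_dvd_card_support {p : ℕ} (hp : p.Prime) {x : Perm α} (hx : x ^ p = 1) :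
    p ∣ x.support.card := by
  rw [← Equiv.Perm.sum_cycleType]
  refine Multiset.dvd_sum fun k hk => ?_
  have h1 := (Equiv.Perm.dvd_of_mem_cycleType hk).trans (orderOf_dvd_of_pow_eq_one hx)
  have h2 := Equiv.Perm.two_le_of_mem_cycleType hk
  rcases (Nat.dvd_prime hp).1 h1 with h | h
  · omega
  · exact dvd_of_eq h.symm

theorem exists_prime_power (G : Subgroup (Perm α)) {c : Perm α} (hc : c ∈ G) (hc1 : c ≠ 1) :
    ∃ q : ℕ, q.Prime ∧ ∃ z ∈ G, z ≠ 1 ∧ z ^ q = 1 ∧ z.support ⊆ c.support := by
  obtain ⟨q, hq, hqd⟩ := Nat.exists_prime_and_dvd (mt orderOf_eq_one_iff.1 hc1)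
  refine ⟨q, hq, c ^ (orderOf c / q), G.pow_mem hc _, ?_, ?_, Equiv.Perm.support_pow_le c _⟩
  · intro h
    have h1 := Nat.le_of_dvd (Nat.div_pos (Nat.le_of_dvd (orderOf_pos c) hqd) hq.pos)
      (orderOf_dvd_of_pow_eq_one h)
    exact absurd h1 (not_le.2 (Nat.div_lt_self (orderOf_pos c) hq.one_lt))
  · rw [← pow_mul, Nat.div_mul_cancel hqd, pow_orderOf_eq_one]

theorem pai (f : Perm α) (z : α) : f (f⁻¹ z) = z := f.apply_symm_apply z

theorem pia (f : Perm α) (z : α) : f⁻¹ (f z) = z := f.symm_apply_apply z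

theorem pinv_eq {f : Perm α} {y z : α} : f⁻¹ y = z ↔ y = f z := Equiv.symm_apply_eq f

theorem dcount {ι κ : Type*} (A : Finset ι) (B : Finset κ) (P : ι → κ → Prop)
    [∀ i, DecidablePred (P i)] [∀ k, DecidablePred fun i => P i k] :
    ∑ i ∈ A, (B.filter (P i)).card = ∑ k ∈ B, (A.filter fun i => P i k).card := by
  simp only [Finset.card_filter]
  exact Finset.sum_comm

section Fibres

variable (Gf : Finset (Perm α))

theorem fib3_eq {c : ℕ}
    (h4 : ∀ a b u v a' b' u' v', D4 a b u v → D4 a' b' u' v' →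
      (Gf.filter fun g => g a = a' ∧ g b = b' ∧ g u = u' ∧ g v = v').card = c)
    (hn : 4 ≤ Fintype.card α) {a b u a' b' u' : α} (hab : a ≠ b) (hau : a ≠ u) (hbu : b ≠ u)
    (hab' : a' ≠ b') (hau' : a' ≠ u') (hbu' : b' ≠ u') :
    (Gf.filter fun g => g a = a' ∧ g b = b' ∧ g u = u').card =
      c * (Fintype.card α - 3) := by
  obtain ⟨v, hv⟩ := exists_notMem_of_card_lt (s := {a, b, u})
    (lt_of_le_of_lt Finset.card_le_three (by omega))
  simp only [Finset.mem_insert, Finset.mem_singleton, not_or] at hv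
  rw [Finset.card_eq_sum_card_fiberwise (f := fun g : Perm α => g v)
    (t := univ \ {a', b', u'})]
  · rw [Finset.sum_const_nat (m := c), mul_comm, Finset.card_univ_sdiff]
    · congr 2
      rw [Finset.card_insert_of_notMem (by simp [hab', hau']), Finset.card_pair hbu']
    intro v' hv'
    simp only [Finset.mem_sdiff, Finset.mem_univ, true_and, Finset.mem_insert,
      Finset.mem_singleton, not_or] at hv'
    rw [← h4 a b u v a' b' u' v' ⟨hab, hau, Ne.symm hv.1, hbu, Ne.symm hv.2.1, Ne.symm hv.2.2⟩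
      ⟨hab', hau', Ne.symm hv'.1, hbu', Ne.symm hv'.2.1, Ne.symm hv'.2.2⟩, Finset.filter_filter]
    congr 1
    ext g
    simp only [Finset.mem_filter, and_assoc]
  · intro g hg
    simp only [Finset.mem_coe, Finset.mem_filter] at hg
    obtain ⟨-, e1, e2, e3⟩ := hg
    simp only [Finset.mem_coe, Finset.mem_sdiff, Finset.mem_univ, true_and, Finset.mem_insert,
      Finset.mem_singleton, not_or, ← e1, ← e2, ← e3]
    exact ⟨fun h => hv.1 (g.injective h), fun h => hv.2.1 (g.injective h),
      fun h => hv.2.2 (g.injective h)⟩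

theorem fib2_eq {c : ℕ}
    (h4 : ∀ a b u v a' b' u' v', D4 a b u v → D4 a' b' u' v' →
      (Gf.filter fun g => g a = a' ∧ g b = b' ∧ g u = u' ∧ g v = v').card = c)
    (hn : 4 ≤ Fintype.card α) {a b a' b' : α} (hab : a ≠ b) (hab' : a' ≠ b') :
    (Gf.filter fun g => g a = a' ∧ g b = b').card =
      c * (Fintype.card α - 2) * (Fintype.card α - 3) := by
  obtain ⟨v, hv⟩ := exists_notMem_of_card_lt (s := {a, b})
    (lt_of_le_of_lt Finset.card_le_two (by omega))
  simp only [Finset.mem_insert, Finset.mem_singleton, not_or] at hv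
  rw [Finset.card_eq_sum_card_fiberwise (f := fun g : Perm α => g v) (t := univ \ {a', b'})]
  · rw [Finset.sum_const_nat (m := c * (Fintype.card α - 3)), Finset.card_univ_sdiff,
      Finset.card_pair hab']
    · ring
    intro v' hv'
    simp only [Finset.mem_sdiff, Finset.mem_univ, true_and, Finset.mem_insert,
      Finset.mem_singleton, not_or] at hv'
    rw [← fib3_eq Gf h4 hn hab (Ne.symm hv.1) (Ne.symm hv.2) hab' (Ne.symm hv'.1) (Ne.symm hv'.2),
      Finset.filter_filter]
    congr 1
    ext g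
    simp only [Finset.mem_filter, and_assoc]
  · intro g hg
    simp only [Finset.mem_coe, Finset.mem_filter] at hg
    obtain ⟨-, e1, e2⟩ := hg
    simp only [Finset.mem_coe, Finset.mem_sdiff, Finset.mem_univ, true_and, Finset.mem_insert,
      Finset.mem_singleton, not_or, ← e1, ← e2]
    exact ⟨fun h => hv.1 (g.injective h), fun h => hv.2 (g.injective h)⟩

end Fibres

set_option maxHeartbeats 1000000 in
/-- The averaging step. -/
theorem exists_smaller {G : Subgroup (Perm α)} (hT : Trans4 G) {x : Perm α} (hx : x ∈ G)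
    (hx1 : x ≠ 1) {p : ℕ} (hp : p.Prime) (hxp : x ^ p = 1)
    (hcase : (p = 2 ∧ 6 ≤ x.support.card ∧ 2 * x.support.card + 4 ≤ Fintype.card α) ∨
      (p ≠ 2 ∧ 5 ≤ x.support.card ∧ 2 * x.support.card + 3 ≤ Fintype.card α)) :
    ∃ c ∈ G, c ≠ 1 ∧ c.support.card < x.support.card := by
  classical
  set D := x.support with hD
  set m := D.card with hm
  set n := Fintype.card α with hn
  have hn4 : 4 ≤ n := by omega
  obtain ⟨a, ha⟩ : D.Nonempty := Finset.card_pos.1 (by omega)
  set b := x a with hb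
  have hbD : b ∈ D := Equiv.Perm.apply_mem_support.2 ha
  have hab : a ≠ b := fun h => (Equiv.Perm.mem_support.1 ha) h.symm
  have hxx : p ≠ 2 → ∀ z ∈ D, x (x z) ≠ z := by
    intro hp2 z hz h
    obtain ⟨t, ht⟩ := hp.odd_of_ne_two hp2
    have hfix : ∀ s : ℕ, (x ^ (2 * s)) z = z := by
      intro s
      induction s with
      | zero => simp
      | succ s ih =>
        rw [Nat.mul_succ, pow_add, Equiv.Perm.mul_apply, pow_two, Equiv.Perm.mul_apply, h, ih]
    have h1 : (x ^ p) z = x z := by
      rw [ht, pow_succ', Equiv.Perm.mul_apply, hfix]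
    rw [hxp, Equiv.Perm.one_apply] at h1
    exact Equiv.Perm.mem_support.1 hz h1.symm
  set Gf : Finset (Perm α) := univ.filter (· ∈ G) with hGf
  -- the constant fibre
  obtain ⟨c, hc4⟩ : ∃ c : ℕ, ∀ a b u v a' b' u' v', D4 a b u v → D4 a' b' u' v' →
      (Gf.filter fun g => g a = a' ∧ g b = b' ∧ g u = u' ∧ g v = v').card = c := by
    obtain ⟨u, hu⟩ := exists_notMem_of_card_lt (s := {a, b})
      (lt_of_le_of_lt Finset.card_le_two (by omega))
    obtain ⟨v, hv⟩ := exists_notMem_of_card_lt (s := {a, b, u})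
      (lt_of_le_of_lt Finset.card_le_three (by omega))
    simp only [Finset.mem_insert, Finset.mem_singleton, not_or] at hu hv
    have h0 : D4 a b u v :=
      ⟨hab, Ne.symm hu.1, Ne.symm hv.1, Ne.symm hu.2, Ne.symm hv.2.1, Ne.symm hv.2.2⟩
    refine ⟨(Gf.filter fun g => g a = a ∧ g b = b ∧ g u = u ∧ g v = v).card,
      fun s t p q s' t' p' q' h1 h2 => ?_⟩
    obtain ⟨g1, hg1, a1, a2, a3, a4⟩ := hT a b u v s t p q h0 h1
    obtain ⟨g2, hg2, b1, b2, b3, b4⟩ := hT a b u v s' t' p' q' h0 h2
    refine Finset.card_equiv ((Equiv.mulLeft g2⁻¹).trans (Equiv.mulRight g1)) fun g => ?_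
    simp only [hGf, Finset.mem_filter, Finset.mem_univ, true_and, Equiv.trans_apply,
      Equiv.coe_mulLeft, Equiv.coe_mulRight, Equiv.Perm.mul_apply, a1, a2, a3, a4,
      pinv_eq, b1, b2, b3, b4]
    rw [Subgroup.mul_mem_cancel_right _ hg1, Subgroup.mul_mem_cancel_left _ (G.inv_mem hg2)]
  have hf3 := fun {a b u a' b' u' : α} h1 h2 h3 h4 h5 h6 =>
    fib3_eq Gf hc4 hn4 (a := a) (b := b) (u := u) (a' := a') (b' := b') (u' := u')
      h1 h2 h3 h4 h5 h6
  have hf2 := fun {a b a' b' : α} h1 h2 =>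
    fib2_eq Gf hc4 hn4 (a := a) (b := b) (a' := a') (b' := b') h1 h2
  set d := n - m with hd
  have hdc : Dᶜ.card = d := Finset.card_compl D
  have hoff : ∀ s : Finset α, s.offDiag.card = s.card * (s.card - 1) := fun s => by
    rw [Finset.offDiag_card, Nat.mul_sub_left_distrib, mul_one]
  set cond := Gf.filter fun h => h a ∉ D ∧ h b ∈ D with hcond
  have hcondG : ∀ h ∈ cond, h ∈ G ∧ h a ∉ D ∧ h b ∈ D := fun h hh => by
    simpa [hcond, hGf] using hh
  have hccond : cond.card = d * m * (c * (n - 2) * (n - 3)) := by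
    rw [Finset.card_eq_sum_card_fiberwise (f := fun h : Perm α => (h a, h b)) (t := Dᶜ ×ˢ D)
      (fun h hh => by
        simp only [Finset.mem_coe, Finset.mem_product, Finset.mem_compl] at hh ⊢
        exact (hcondG h hh).2),
      Finset.sum_const_nat (m := c * (n - 2) * (n - 3)), Finset.card_product, hdc]
    rintro ⟨w, v⟩ hwv
    simp only [Finset.mem_product, Finset.mem_compl] at hwv
    rw [← hf2 hab (show w ≠ v from fun e => hwv.1 (e ▸ hwv.2)), hcond, Finset.filter_filter]
    congr 1
    refine Finset.filter_congr fun g _ => ?_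
    simp only [Prod.mk.injEq]
    constructor
    · exact fun h => h.2
    · rintro ⟨e1, e2⟩; exact ⟨by rw [e1, e2]; exact hwv, e1, e2⟩
  -- the three kinds of moved points
  set IS := fun h : Perm α => D.filter fun z => h z ∈ D
  set WS := fun h : Perm α => D.filter fun z => h z ∉ D ∧ h (x z) ∈ D
  set VS := fun h : Perm α => D.filter fun u => h⁻¹ u ∉ D ∧ h⁻¹ (x u) ∈ D
  set GS := fun h : Perm α => D.filter fun z => p = 2 ∧ h z ∈ D ∧ h (x z) = x (h z)
  have hI : ∑ h ∈ cond, (IS h).card ≤
      cond.card + (m - 2) * (d * (m * (m - 1)) * (c * (n - 3))) := by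
    rw [dcount, ← Finset.add_sum_erase _ _ hbD]
    refine add_le_add (Finset.card_filter_le _ _) ?_
    have haE : a ∈ D.erase b := Finset.mem_erase.2 ⟨hab, ha⟩
    rw [← Finset.add_sum_erase _ _ haE, Finset.filter_false_of_mem (fun h hh => (hcondG h hh).2.1),
      Finset.card_empty, zero_add]
    refine (Finset.sum_le_card_nsmul _ _ (d * (m * (m - 1)) * (c * (n - 3))) ?_).trans ?_
    · intro z hz
      simp only [Finset.mem_erase] at hz
      rw [Finset.card_eq_sum_card_fiberwise (f := fun h : Perm α => (h a, (h b, h z)))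
        (t := Dᶜ ×ˢ D.offDiag) (fun h hh => by
          simp only [Finset.mem_coe, Finset.mem_filter] at hh
          simp only [Finset.mem_coe, Finset.mem_product, Finset.mem_compl, Finset.mem_offDiag]
          exact ⟨(hcondG h hh.1).2.1, (hcondG h hh.1).2.2, hh.2,
            fun e => hz.2.1 (h.injective e).symm⟩)]
      refine (Finset.sum_le_card_nsmul _ _ (c * (n - 3)) ?_).trans ?_
      · rintro ⟨w, v, u⟩ hwvu
        simp only [Finset.mem_product, Finset.mem_compl, Finset.mem_offDiag] at hwvu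
        obtain ⟨hw, hv, hu, hvu⟩ := hwvu
        rw [← hf3 (a' := w) (b' := v) (u' := u) hab (Ne.symm hz.1) (Ne.symm hz.2.1) (fun e => hw (e ▸ hv))
          (fun e => hw (e ▸ hu)) hvu]
        refine Finset.card_le_card fun h hh => ?_
        simp only [hcond, Finset.mem_filter, Prod.mk.injEq] at hh ⊢
        exact ⟨hh.1.1.1, hh.2⟩
      · rw [Finset.card_product, hdc, hoff, smul_eq_mul]
    · rw [Finset.card_erase_of_mem haE, Finset.card_erase_of_mem hbD, smul_eq_mul]
      exact le_of_eq (by rw [Nat.sub_sub])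
  set ε := if p = 2 then m - 2 else m - 3 with hε
  have hW : ∑ h ∈ cond, (WS h).card ≤
      cond.card + ε * (d * (d - 1) * (m * (m - 1)) * c) := by
    rw [dcount, ← Finset.add_sum_erase _ _ ha]
    refine add_le_add (Finset.card_filter_le _ _) ?_
    have hbE : b ∈ D.erase a := Finset.mem_erase.2 ⟨Ne.symm hab, hbD⟩
    rw [← Finset.add_sum_erase _ _ hbE,
      Finset.filter_false_of_mem (fun h hh hc => hc.1 (hcondG h hh).2.2),
      Finset.card_empty, zero_add]
    have hterm : ∀ z ∈ (D.erase a).erase b, x z ≠ a →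
        (cond.filter fun h => h z ∉ D ∧ h (x z) ∈ D).card ≤ d * (d - 1) * (m * (m - 1)) * c := by
      intro z hz hxz
      simp only [Finset.mem_erase] at hz
      have hxzb : x z ≠ b := fun e => hz.2.1 (x.injective e)
      have hzxz : z ≠ x z := fun e => Equiv.Perm.mem_support.1 hz.2.2 e.symm
      rw [Finset.card_eq_sum_card_fiberwise (f := fun h : Perm α => ((h a, h z), (h b, h (x z))))
        (t := Dᶜ.offDiag ×ˢ D.offDiag) (fun h hh => by
          simp only [Finset.mem_coe, Finset.mem_filter] at hh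
          simp only [Finset.mem_coe, Finset.mem_product, Finset.mem_compl, Finset.mem_offDiag]
          exact ⟨⟨(hcondG h hh.1).2.1, hh.2.1, fun e => hz.2.1 (h.injective e).symm⟩,
            (hcondG h hh.1).2.2, hh.2.2, fun e => hxzb (h.injective e).symm⟩)]
      refine (Finset.sum_le_card_nsmul _ _ c ?_).trans ?_
      · rintro ⟨⟨w, u⟩, v, t⟩ hw
        simp only [Finset.mem_product, Finset.mem_compl, Finset.mem_offDiag] at hw
        obtain ⟨⟨hw, hu, hwu⟩, hv, ht, hvt⟩ := hw
        rw [← hc4 a b z (x z) w v u t ⟨hab, Ne.symm hz.2.1, Ne.symm hxz, Ne.symm hz.1,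
          Ne.symm hxzb, hzxz⟩ ⟨fun e => hw (e ▸ hv), hwu, fun e => hw (e ▸ ht),
          fun e => hu (e ▸ hv), hvt, fun e => hu (e ▸ ht)⟩]
        refine Finset.card_le_card fun h hh => ?_
        simp only [hcond, Finset.mem_filter, Prod.mk.injEq] at hh ⊢
        exact ⟨hh.1.1.1, hh.2.1.1, hh.2.2.1, hh.2.1.2, hh.2.2.2⟩
      · rw [Finset.card_product, hoff, hoff, hdc, smul_eq_mul]
    by_cases hp2 : p = 2
    · rw [hε, if_pos hp2]
      refine (Finset.sum_le_card_nsmul _ _ _ fun z hz => hterm z hz ?_).trans ?_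
      · intro e
        have h2 : (x ^ 2) z = z := by rw [← hp2, hxp, Equiv.Perm.one_apply]
        rw [pow_two, Equiv.Perm.mul_apply, e] at h2
        exact (Finset.mem_erase.1 hz).1 h2.symm
      · rw [Finset.card_erase_of_mem hbE, Finset.card_erase_of_mem ha, smul_eq_mul, Nat.sub_sub]
    · have hzD : x⁻¹ a ∈ D := by
        rw [← Equiv.Perm.apply_mem_support, pai]; exact ha
      have hne : x⁻¹ a ≠ b := fun e => hxx hp2 a ha (pinv_eq.1 e).symm
      have hna : x⁻¹ a ≠ a := fun e =>
        Equiv.Perm.mem_support.1 ha (pinv_eq.1 e).symm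
      have hmem : x⁻¹ a ∈ (D.erase a).erase b :=
        Finset.mem_erase.2 ⟨hne, Finset.mem_erase.2 ⟨hna, hzD⟩⟩
      rw [← Finset.add_sum_erase _ _ hmem, Finset.filter_false_of_mem (fun h hh hc => by
        rw [pai] at hc; exact (hcondG h hh).2.1 hc.2),
        Finset.card_empty, zero_add, hε, if_neg hp2]
      refine (Finset.sum_le_card_nsmul _ _ _ fun z hz =>
        hterm z (Finset.mem_of_mem_erase hz) ?_).trans ?_
      · intro e
        exact (Finset.mem_erase.1 hz).1 (by rw [← e, pia])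
      · rw [Finset.card_erase_of_mem hmem, Finset.card_erase_of_mem hbE,
          Finset.card_erase_of_mem ha, smul_eq_mul, Nat.sub_sub, Nat.sub_sub]
  have hV : ∑ h ∈ cond, (VS h).card ≤
      m * (d * d * (c * (n - 3)) + d * (m - 2) * (d * (m - 2)) * c) := by
    rw [dcount]
    refine (Finset.sum_le_card_nsmul _ _
      (d * d * (c * (n - 3)) + d * (m - 2) * (d * (m - 2)) * c) fun u hu => ?_).trans
      (by rw [smul_eq_mul])
    have hxu : x u ∈ D := Equiv.Perm.apply_mem_support.2 hu
    have huxu : u ≠ x u := fun e => Equiv.Perm.mem_support.1 hu e.symm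
    rw [← Finset.card_filter_add_card_filter_not (fun h : Perm α => h b = x u)]
    refine add_le_add ?_ ?_
    · rw [Finset.card_eq_sum_card_fiberwise (f := fun h : Perm α => (h a, h⁻¹ u))
        (t := Dᶜ ×ˢ Dᶜ) (fun h hh => by
          simp only [Finset.mem_coe, Finset.mem_filter] at hh
          simp only [Finset.mem_coe, Finset.mem_product, Finset.mem_compl]
          exact ⟨(hcondG h hh.1.1).2.1, hh.1.2.1⟩)]
      refine (Finset.sum_le_card_nsmul _ _ (c * (n - 3)) ?_).trans ?_
      · rintro ⟨w, t⟩ hwt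
        simp only [Finset.mem_product, Finset.mem_compl] at hwt
        rw [← hf3 hab (show a ≠ t from fun e => hwt.2 (e ▸ ha))
          (show b ≠ t from fun e => hwt.2 (e ▸ hbD)) (show w ≠ x u from fun e => hwt.1 (e ▸ hxu))
          (show w ≠ u from fun e => hwt.1 (e ▸ hu)) (Ne.symm huxu)]
        refine Finset.card_le_card fun h hh => ?_
        simp only [hcond, Finset.mem_filter, Prod.mk.injEq] at hh ⊢
        refine ⟨hh.1.1.1.1, hh.2.1, hh.1.2, ?_⟩
        rw [← hh.2.2, pai]
      · rw [Finset.card_product, hdc, smul_eq_mul]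
    · rw [Finset.card_eq_sum_card_fiberwise
        (f := fun h : Perm α => ((h a, h b), (h⁻¹ u, h⁻¹ (x u))))
        (t := (Dᶜ ×ˢ (D \ {u, x u})) ×ˢ (Dᶜ ×ˢ (D \ {a, b}))) (fun h hh => by
          simp only [Finset.mem_coe, Finset.mem_filter] at hh
          obtain ⟨⟨hhc, hu', hxu'⟩, hne⟩ := hh
          simp only [Finset.mem_coe, Finset.mem_product, Finset.mem_compl, Finset.mem_sdiff,
            Finset.mem_insert, Finset.mem_singleton, not_or]
          refine ⟨⟨(hcondG h hhc).2.1, (hcondG h hhc).2.2, fun e => hu' ?_, hne⟩,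
            hu', hxu', fun e => (hcondG h hhc).2.1 ?_, fun e => hne ?_⟩
          · rw [← e, pia]; exact hbD
          · rw [← e, pai]; exact hxu
          · rw [← e, pai])]
      refine (Finset.sum_le_card_nsmul _ _ c ?_).trans ?_
      · rintro ⟨⟨w, v⟩, t1, t2⟩ hh
        simp only [Finset.mem_product, Finset.mem_compl, Finset.mem_sdiff, Finset.mem_insert,
          Finset.mem_singleton, not_or] at hh
        obtain ⟨⟨hw, hv, hvu, hvxu⟩, ht1, ht2, ht2a, ht2b⟩ := hh
        rw [← hc4 a b t1 t2 w v u (x u) ⟨hab, fun e => ht1 (e ▸ ha), Ne.symm ht2a,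
          fun e => ht1 (e ▸ hbD), Ne.symm ht2b, fun e => ht1 (e ▸ ht2)⟩
          ⟨fun e => hw (e ▸ hv), fun e => hw (e ▸ hu), fun e => hw (e ▸ hxu), hvu, hvxu, huxu⟩]
        refine Finset.card_le_card fun h hh => ?_
        simp only [hcond, Finset.mem_filter, Prod.mk.injEq] at hh ⊢
        refine ⟨hh.1.1.1.1, hh.2.1.1, hh.2.1.2, ?_, ?_⟩
        · rw [← hh.2.2.1, pai]
        · rw [← hh.2.2.2, pai]
      · rw [Finset.card_product, Finset.card_product, Finset.card_product, hdc,
          Finset.card_sdiff_of_subset (by simp [Finset.insert_subset_iff, hu, hxu]),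
          Finset.card_pair huxu,
          Finset.card_sdiff_of_subset (by simp [Finset.insert_subset_iff, ha, hbD]),
          Finset.card_pair hab, smul_eq_mul]
  have hG : p = 2 → (m - 2) * (d * (m * (m - 2)) * c) ≤ ∑ h ∈ cond, (GS h).card := by
    intro hp2
    have hinvol : ∀ z, x (x z) = z := fun z => by
      have : (x ^ 2) z = z := by rw [← hp2, hxp, Equiv.Perm.one_apply]
      rwa [pow_two, Equiv.Perm.mul_apply] at this
    rw [dcount]
    have hsub : (D.erase a).erase b ⊆ D :=
      (Finset.erase_subset _ _).trans (Finset.erase_subset _ _)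
    refine le_trans ?_ (Finset.sum_le_sum_of_subset hsub)
    have hcard : ((D.erase a).erase b).card = m - 2 := by
      rw [Finset.card_erase_of_mem (Finset.mem_erase.2 ⟨Ne.symm hab, hbD⟩),
        Finset.card_erase_of_mem ha, Nat.sub_sub]
    rw [← smul_eq_mul]
    nth_rewrite 1 [← hcard]
    refine Finset.card_nsmul_le_sum _ _ _ fun z hz => ?_
    simp only [Finset.mem_erase] at hz
    have hxzb : x z ≠ b := fun e => hz.2.1 (x.injective e)
    have hxza : x z ≠ a := fun e => hz.1 (by rw [hb, ← e, hinvol])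
    have hzxz : z ≠ x z := fun e => Equiv.Perm.mem_support.1 hz.2.2 e.symm
    set T := D.offDiag.filter fun q => q.2 ≠ x q.1
    have hT : T.card = m * (m - 2) := by
      have h1 := Finset.card_filter_add_card_filter_not (s := D.offDiag)
        (fun q : α × α => q.2 ≠ x q.1)
      have h2 : (D.offDiag.filter fun q : α × α => ¬ q.2 ≠ x q.1) =
          D.image fun v => (v, x v) := by
        ext ⟨v, u⟩
        simp only [Finset.mem_filter, Finset.mem_offDiag, Finset.mem_image, Prod.mk.injEq,
          ne_eq, not_not]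
        constructor
        · rintro ⟨⟨hv, -, -⟩, rfl⟩; exact ⟨v, hv, rfl, rfl⟩
        · rintro ⟨v, hv, rfl, rfl⟩
          exact ⟨⟨hv, Equiv.Perm.apply_mem_support.2 hv,
            fun e => Equiv.Perm.mem_support.1 hv e.symm⟩, rfl⟩
      rw [h2, Finset.card_image_of_injective _ (fun u v e => (Prod.mk.injEq _ _ _ _ ▸ e).1),
        hoff] at h1
      change T.card + m = m * (m - 1) at h1
      have : m * (m - 1) = m * (m - 2) + m := by
        rw [← Nat.mul_succ]; congr 1; omega
      omega
    rw [← hT, ← hdc, ← Finset.card_product, ← smul_eq_mul]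
    refine le_trans (Finset.card_nsmul_le_sum _
      (fun q : α × α × α => ((cond.filter fun h => p = 2 ∧ h z ∈ D ∧ h (x z) = x (h z)).filter
        fun h => (h a, h b, h z) = q).card) c ?_) (le_of_eq ?_)
    · rintro ⟨w, v, u⟩ hq
      simp only [T, Finset.mem_product, Finset.mem_compl, Finset.mem_filter,
        Finset.mem_offDiag] at hq
      obtain ⟨hw, ⟨hv, hu, hvu⟩, huxv⟩ := hq
      have hxu : x u ∈ D := Equiv.Perm.apply_mem_support.2 hu
      rw [← hc4 a b z (x z) w v u (x u) ⟨hab, Ne.symm hz.2.1, Ne.symm hxza, Ne.symm hz.1,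
        Ne.symm hxzb, hzxz⟩ ⟨fun e => hw (e ▸ hv), fun e => hw (e ▸ hu), fun e => hw (e ▸ hxu),
        hvu, fun e => huxv (by rw [e, hinvol]), fun e => Equiv.Perm.mem_support.1 hu e.symm⟩]
      refine Finset.card_le_card fun h hh => ?_
      simp only [Finset.mem_filter] at hh
      obtain ⟨hhG, e1, e2, e3, e4⟩ := hh
      simp only [hcond, Finset.mem_filter, Prod.mk.injEq, e1, e2, e3, e4]
      exact ⟨⟨⟨hhG, hw, hv⟩, hp2, hu, trivial⟩, trivial, trivial, trivial⟩
    · refine (Finset.card_eq_sum_card_fiberwise (f := fun h : Perm α => (h a, h b, h z))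
        (fun h hh => ?_)).symm
      simp only [Finset.mem_coe, Finset.mem_filter] at hh
      simp only [T, Finset.mem_coe, Finset.mem_product, Finset.mem_compl, Finset.mem_filter,
        Finset.mem_offDiag]
      refine ⟨(hcondG h hh.1).2.1, ⟨(hcondG h hh.1).2.2, hh.2.2.1,
        fun e => hz.1 (h.injective e).symm⟩, fun e => hxzb (h.injective ?_)⟩
      rw [hh.2.2.2, e, hinvol]
  -- support of the commutator
  set C := fun h : Perm α => (x * (h⁻¹ * x * h))⁻¹ * (h⁻¹ * x * h * x)
  have hsupp : ∀ h : Perm α,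
      (C h).support.card + (GS h).card ≤ (IS h).card + (WS h).card + (VS h).card := by
    intro h
    have hsub : (C h).support ⊆ (IS h \ GS h) ∪ WS h ∪ (VS h).image (h⁻¹ : Perm α) := by
      intro z hz
      by_contra hout
      rw [Equiv.Perm.mem_support] at hz
      apply hz
      simp only [C]
      rw [Equiv.Perm.mul_apply, pinv_eq]
      simp only [Equiv.Perm.mul_apply]
      simp only [Finset.mem_union, Finset.mem_sdiff, IS, WS, GS, Finset.mem_filter, not_or,
        not_and, Finset.mem_image, VS, not_exists] at hout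
      obtain ⟨⟨h1, h2⟩, h3⟩ := hout
      by_cases hzD : z ∈ D <;> by_cases hhz : h z ∈ D
      · obtain ⟨hp2, -, e⟩ : p = 2 ∧ h z ∈ D ∧ h (x z) = x (h z) := by
          have := h1 ⟨hzD, hhz⟩; tauto
        have hinv : ∀ w, x (x w) = w := fun w => by
          have : (x ^ 2) w = w := by rw [← hp2, hxp, Equiv.Perm.one_apply]
          rwa [pow_two, Equiv.Perm.mul_apply] at this
        rw [e, hinv, pia, ← e, pia, hinv]
      · have h' := h2 hzD hhz
        rw [Equiv.Perm.notMem_support.1 hhz, Equiv.Perm.notMem_support.1 h',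
          pia, pia]
      · have h' : h⁻¹ (x (h z)) ∉ D := by
          intro hmem
          exact h3 (h z) ⟨hhz, by rw [pia]; exact hzD, hmem⟩
            (pia h z)
        rw [Equiv.Perm.notMem_support.1 hzD, Equiv.Perm.notMem_support.1 h']
      · rw [Equiv.Perm.notMem_support.1 hzD, Equiv.Perm.notMem_support.1 hhz,
          pia, Equiv.Perm.notMem_support.1 hzD]
    have hGI : GS h ⊆ IS h := by
      intro z hz
      simp only [GS, IS, Finset.mem_filter] at hz ⊢
      exact ⟨hz.1, hz.2.2.1⟩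
    have e1 := (Finset.card_le_card hsub).trans (Finset.card_union_le _ _)
    have e2 := Finset.card_union_le (IS h \ GS h) (WS h)
    have e3 : ((VS h).image (h⁻¹ : Perm α)).card ≤ (VS h).card := Finset.card_image_le
    have e4 := Finset.card_sdiff_add_card_eq_card hGI
    omega
  have hne1 : ∀ h ∈ cond, C h ≠ 1 := by
    intro h hh e
    obtain ⟨-, hha, hhb⟩ := hcondG h hh
    have := congrArg (fun g : Perm α => g a) (inv_mul_eq_one.1 e)
    simp only [Equiv.Perm.mul_apply, Equiv.Perm.notMem_support.1 hha,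
      pia, ← hb] at this
    have h2 : h b = x (h b) := pinv_eq.1 this.symm |>.symm
    exact Equiv.Perm.mem_support.1 hhb h2.symm
  have hcG : ∀ h ∈ cond, C h ∈ G := fun h hh =>
    G.mul_mem (G.inv_mem (G.mul_mem hx (G.mul_mem (G.mul_mem (G.inv_mem (hcondG h hh).1) hx)
      (hcondG h hh).1)))
      (G.mul_mem (G.mul_mem (G.mul_mem (G.inv_mem (hcondG h hh).1) hx) (hcondG h hh).1) hx)
  by_contra hno
  simp only [not_exists, not_and, not_lt] at hno
  have hall : cond.card * m ≤ ∑ h ∈ cond, (C h).support.card := by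
    rw [← smul_eq_mul]
    exact Finset.card_nsmul_le_sum _ _ _ fun h hh => hno _ (hcG h hh) (hne1 h hh)
  have hsum := Finset.sum_le_sum (s := cond) fun h _ => hsupp h
  rw [Finset.sum_add_distrib, Finset.sum_add_distrib, Finset.sum_add_distrib] at hsum
  have hc0 : 0 < c := by
    obtain ⟨u, hu⟩ := exists_notMem_of_card_lt (s := {a, b})
      (lt_of_le_of_lt Finset.card_le_two (by omega))
    obtain ⟨v, hv⟩ := exists_notMem_of_card_lt (s := {a, b, u})
      (lt_of_le_of_lt Finset.card_le_three (by omega))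
    simp only [Finset.mem_insert, Finset.mem_singleton, not_or] at hu hv
    have h0 : D4 a b u v :=
      ⟨hab, Ne.symm hu.1, Ne.symm hv.1, Ne.symm hu.2, Ne.symm hv.2.1, Ne.symm hv.2.2⟩
    rw [← hc4 _ _ _ _ _ _ _ _ h0 h0]
    exact Finset.card_pos.2 ⟨1, by simp [hGf, G.one_mem]⟩
  rw [hccond] at hI hW hall
  have hd0 : 0 < d := by omega
  by_cases hp2 : p = 2
  · have hG' := hG hp2
    rw [hε, if_pos hp2] at hW
    obtain ⟨t, ht⟩ : ∃ t, n = 2 * m + 4 + t := ⟨n - (2 * m + 4), by omega⟩
    obtain ⟨s, hs⟩ : ∃ s, m = 6 + s := ⟨m - 6, by omega⟩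
    rw [show n - 2 = 2 * s + t + 14 by omega, show n - 3 = 2 * s + t + 13 by omega] at *
    rw [show m - 1 = s + 5 by omega, show m - 2 = s + 4 by omega] at *
    rw [show d - 1 = s + t + 9 by omega] at *
    have hd' : d = s + t + 10 := by omega
    rw [hd', hs] at hI hW hV hG' hall
    have hpos : 0 < c * (s + t + 10) * (6 + s) :=
      Nat.mul_pos (Nat.mul_pos hc0 (by omega)) (by omega)
    have key : (2 * s + t + 14) * (2 * s + t + 13) + (s + 4) * (s + 5) * (2 * s + t + 13) +
        (2 * s + t + 14) * (2 * s + t + 13) + (s + 4) * (s + t + 9) * (s + 5) +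
        (s + t + 10) * (2 * s + t + 13) + (s + t + 10) * (s + 4) * (s + 4) <
        (6 + s) * ((2 * s + t + 14) * (2 * s + t + 13)) + (s + 4) * (s + 4) := by
      ring_nf; omega
    have := Nat.mul_lt_mul_of_pos_left key hpos
    linarith
  · rw [hε, if_neg hp2] at hW
    obtain ⟨t, ht⟩ : ∃ t, n = 2 * m + 3 + t := ⟨n - (2 * m + 3), by omega⟩
    obtain ⟨s, hs⟩ : ∃ s, m = 5 + s := ⟨m - 5, by omega⟩
    rw [show n - 2 = 2 * s + t + 11 by omega, show n - 3 = 2 * s + t + 10 by omega] at *
    rw [show m - 1 = s + 4 by omega, show m - 2 = s + 3 by omega,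
      show m - 3 = s + 2 by omega] at *
    rw [show d - 1 = s + t + 7 by omega] at *
    have hd' : d = s + t + 8 := by omega
    rw [hd', hs] at hI hW hV hall
    have hpos : 0 < c * (s + t + 8) * (5 + s) :=
      Nat.mul_pos (Nat.mul_pos hc0 (by omega)) (by omega)
    have key : (2 * s + t + 11) * (2 * s + t + 10) + (s + 3) * (s + 4) * (2 * s + t + 10) +
        (2 * s + t + 11) * (2 * s + t + 10) + (s + 2) * (s + t + 7) * (s + 4) +
        (s + t + 8) * (2 * s + t + 10) + (s + t + 8) * (s + 3) * (s + 3) <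
        (5 + s) * ((2 * s + t + 11) * (2 * s + t + 10)) := by
      ring_nf; omega
    have := Nat.mul_lt_mul_of_pos_left key hpos
    linarith [Nat.zero_le (∑ h ∈ cond, (GS h).card)]

/-- A quadruply transitive group with an element of degree less than half of `n` contains the
alternating group. -/
theorem alt_le_of_degree {G : Subgroup (Perm α)} (hT : Trans4 G) (hn : 4 ≤ Fintype.card α)
    {x : Perm α} (hx : x ∈ G) (hx1 : x ≠ 1) {p : ℕ} (hp : p.Prime) (hxp : x ^ p = 1)
    (hdeg : x.support.card ≤ 3 ∨ (p = 2 ∧ 2 * x.support.card + 4 ≤ Fintype.card α) ∨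
      (p ≠ 2 ∧ 2 * x.support.card + 3 ≤ Fintype.card α)) :
    alternatingGroup α ≤ G := by
  induction hm : x.support.card using Nat.strong_induction_on generalizing x p with
  | _ m ih =>
  subst hm
  rcases le_or_gt x.support.card 3 with h3 | h3
  · exact alt_le_of_small hT hn hx hx1 h3
  have hpm := prime_dvd_card_support hp hxp
  by_cases h4 : p = 2 ∧ x.support.card = 4
  · obtain ⟨rfl, hm4⟩ := h4
    have hinv : ∀ w, x (x w) = w := fun w => by
      have : (x ^ 2) w = w := by rw [hxp, Equiv.Perm.one_apply]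
      rwa [pow_two, Equiv.Perm.mul_apply] at this
    obtain ⟨a, ha⟩ : x.support.Nonempty := Finset.card_pos.1 (by omega)
    have hab : x a ≠ a := Equiv.Perm.mem_support.1 ha
    obtain ⟨u, hu, hu'⟩ := Finset.exists_mem_notMem_of_card_lt_card
      (s := ({a, x a} : Finset α)) (t := x.support)
      (lt_of_le_of_lt Finset.card_le_two (by omega))
    simp only [Finset.mem_insert, Finset.mem_singleton, not_or] at hu'
    have hux : x u ≠ u := Equiv.Perm.mem_support.1 hu
    have hd4 : D4 a (x a) u (x u) := ⟨Ne.symm hab, Ne.symm hu'.1,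
      fun e => hu'.2 (by rw [e, hinv]), Ne.symm hu'.2,
      fun e => hu'.1 (x.injective e).symm, Ne.symm hux⟩
    have hsupp : x.support = {a, x a, u, x u} := by
      refine (Finset.eq_of_subset_of_card_le ?_ ?_).symm
      · simp [Finset.insert_subset_iff, ha, hu, hab, hux]
      · obtain ⟨h1, h2, h3, h4, h5, h6⟩ := hd4
        rw [hm4, Finset.card_insert_of_notMem (by simp [h1, h2, h3]),
          Finset.card_insert_of_notMem (by simp [h4, h5]), Finset.card_pair h6]
    obtain ⟨e, he⟩ := exists_notMem_of_card_lt (s := x.support) (by omega)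
    rw [hsupp] at he
    simp only [Finset.mem_insert, Finset.mem_singleton, not_or] at he
    obtain ⟨g, hg, g1, g2, g3, g4⟩ := hT a (x a) u (x u) a (x a) u e hd4
      ⟨hd4.1, hd4.2.1, Ne.symm he.1, hd4.2.2.2.1, Ne.symm he.2.1, Ne.symm he.2.2.1⟩
    set y := g * x * g⁻¹ with hy
    have hya : y a = x a := by
      rw [hy, Equiv.Perm.mul_apply, Equiv.Perm.mul_apply,
        pinv_eq.2 g1.symm, g2]
    have hyb : y (x a) = a := by
      rw [hy, Equiv.Perm.mul_apply, Equiv.Perm.mul_apply,
        pinv_eq.2 g2.symm, hinv, g1]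
    have hyu : y u = e := by
      rw [hy, Equiv.Perm.mul_apply, Equiv.Perm.mul_apply,
        pinv_eq.2 g3.symm, g4]
    have hys : ∀ w, w ≠ a → w ≠ x a → w ≠ u → w ≠ e → y w = w := by
      intro w w1 w2 w3 w4
      have hns : g⁻¹ w ∉ x.support := by
        rw [hsupp]
        simp only [Finset.mem_insert, Finset.mem_singleton, pinv_eq, g1, g2,
          g3, g4, not_or]
        exact ⟨w1, w2, w3, w4⟩
      rw [hy, Equiv.Perm.mul_apply, Equiv.Perm.mul_apply, Equiv.Perm.notMem_support.1 hns,
        pai]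
    refine alt_le_of_small hT hn (G.mul_mem (G.mul_mem (G.mul_mem hg hx) (G.inv_mem hg)) hx)
      (z := y * x) ?_ ?_
    · intro h
      have := congrArg (fun f : Perm α => f (x u)) h
      simp only [Equiv.Perm.mul_apply, hinv, hyu, Equiv.Perm.one_apply] at this
      exact he.2.2.2 this
    · refine (Finset.card_le_card (t := ({u, x u, e} : Finset α)) fun w hw => ?_).trans
        Finset.card_le_three
      by_contra hout
      simp only [Finset.mem_insert, Finset.mem_singleton, not_or] at hout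
      rw [Equiv.Perm.mem_support, Equiv.Perm.mul_apply] at hw
      apply hw
      by_cases w1 : w = a
      · subst w1; exact hyb
      by_cases w2 : w = x a
      · rw [w2, hinv]; exact hya
      have hns : w ∉ x.support := by
        rw [hsupp]
        simp [w1, w2, hout.1, hout.2.1]
      rw [Equiv.Perm.notMem_support.1 hns]
      exact hys w w1 w2 hout.1 hout.2.2
  obtain ⟨c, hc, hc1, hlt⟩ := exists_smaller hT hx hx1 hp hxp (by
    rcases hdeg with h | ⟨rfl, h⟩ | ⟨hp2, h⟩
    · omega
    · left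
      obtain ⟨t, ht⟩ := hpm
      refine ⟨rfl, ?_, h⟩
      rcases Nat.lt_or_ge t 3 with ht' | ht'
      · exact absurd ⟨rfl, by omega⟩ h4
      · omega
    · right
      refine ⟨hp2, ?_, h⟩
      rcases Nat.lt_or_ge x.support.card 5 with h5 | h5
      · exfalso
        have hm4 : x.support.card = 4 := by omega
        rw [hm4] at hpm
        rcases (Nat.prime_def.1 hp) with ⟨hp1, hp'⟩
        have := Nat.le_of_dvd (by norm_num) hpm
        interval_cases p <;> norm_num at *
      · exact h5)
  obtain ⟨q, hq, z, hz, hz1, hzq, hzs⟩ := exists_prime_power G hc hc1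
  have hzc := Finset.card_le_card hzs
  refine ih _ (lt_of_le_of_lt hzc hlt) hz hz1 hq hzq ?_ rfl
  rcases hdeg with h | ⟨-, h⟩ | ⟨-, h⟩
  · omega
  · by_cases hq2 : q = 2
    · exact Or.inr (Or.inl ⟨hq2, by omega⟩)
    · exact Or.inr (Or.inr ⟨hq2, by omega⟩)
  · by_cases hq2 : q = 2
    · exact Or.inr (Or.inl ⟨hq2, by omega⟩)
    · exact Or.inr (Or.inr ⟨hq2, by omega⟩)

end Cfsg.Agent.H26.Pro
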