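import Cfsg.Agent.H26.Pro.Blocks

/-!
# The extremal case `n = 2 f + 1` is doubly transitive
-/

set_option linter.unusedSectionVars false

namespace Cfsg.Agent.H26.Pro

open Finset
open scoped Pointwise

variable {H : Type*} [Group H] {β : Type*} [MulAction H β] [Fintype β] [DecidableEq β]

/-- out-neighbours -/
noncomputable def outN (R : β → β → Prop) (x : β) : Finset β :=
  haveI : DecidablePred (R x) := Classical.decPred _
  univ.filter (R x)

theorem mem_outN {R : β → β → Prop} {x y : β} : y ∈ outN R x ↔ R x y := by simp [outN]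

theorem smul_outN {R : β → β → Prop} (hinv : ∀ (g : H) (x y : β), R x y → R (g • x) (g • y))
    (g : H) (x : β) : g • outN R x = outN R (g • x) := by
  ext y
  rw [← Finset.inv_smul_mem_iff, mem_outN, mem_outN]
  constructor
  · intro h; simpa using hinv g _ _ h
  · intro h; simpa using hinv g⁻¹ _ _ h

theorem card_outN_eq [ht : MulAction.IsPretransitive H β] {R : β → β → Prop}
    (hinv : ∀ (g : H) (x y : β), R x y → R (g • x) (g • y)) (x y : β) :
    (outN R x).card = (outN R y).card := by
  obtain ⟨g, rfl⟩ := ht.exists_smul_eq x y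
  rw [← smul_outN hinv, Finset.card_smul_finset]

theorem sum_outN_flip (R : β → β → Prop) :
    ∑ x, (outN R x).card = ∑ x, (outN (fun u v => R v u) x).card := by
  classical
  have h := Finset.sum_card_bipartiteAbove_eq_sum_card_bipartiteBelow (s := (univ : Finset β))
    (t := (univ : Finset β)) R
  calc ∑ x, (outN R x).card = ∑ x, (Finset.bipartiteAbove R univ x).card := by
        refine Finset.sum_congr rfl fun x _ => congrArg _ ?_
        ext y; simp [mem_outN, Finset.mem_bipartiteAbove]
    _ = _ := h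
    _ = _ := by
        refine Finset.sum_congr rfl fun x _ => congrArg _ ?_
        ext y; simp [mem_outN, Finset.mem_bipartiteBelow]

/-- handshake -/
theorem handshake {R : β → β → Prop} (hs : ∀ x y, R x y → R y x) (hi : ∀ x, ¬ R x x) :
    Even (∑ x, (outN R x).card) := by
  classical
  rw [← Finset.card_sigma]
  set S := (univ : Finset β).sigma (outN R)
  have : ((S.card : ℕ) : ZMod 2) = 0 := by
    rw [Finset.card_eq_sum_ones, Nat.cast_sum]
    refine Finset.sum_involution (fun p _ => ⟨p.2, p.1⟩) ?_ ?_ ?_ ?_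
    · intro p _; decide
    · intro p hp _ he
      simp only [S, Finset.mem_sigma, mem_outN] at hp
      obtain ⟨p1, p2⟩ := p
      simp only [Sigma.mk.injEq, heq_eq_eq] at he
      exact hi p1 (he.1 ▸ hp.2)
    · intro p hp
      simp only [S, Finset.mem_sigma, mem_outN, Finset.mem_univ, true_and] at hp ⊢
      exact hs _ _ hp
    · intro p _; rfl
  exact (ZMod.natCast_eq_zero_iff_even).1 this

theorem tournament_common {H : Type*} [Group H] [MulAction H β] [ht : MulAction.IsPretransitive H β] {R : β → β → Prop}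
    (hinv : ∀ (g : H) (x y : β), R x y → R (g • x) (g • y))
    (htot : ∀ x y, x ≠ y → (R x y ↔ ¬ R y x)) (hirr : ∀ x, ¬ R x x) {a : β}
    (htrans : ∀ u v, R a u → R a v → ∃ g : H, g • a = a ∧ g • u = v)
    {x y : β} (hxy : R x y) :
    2 * (outN R x ∩ outN R y).card + 1 = (outN R a).card := by
  classical
  obtain ⟨g, rfl⟩ := ht.exists_smul_eq a x
  set u := g⁻¹ • y
  have hu : R a u := by simpa using hinv g⁻¹ _ _ hxy
  have e1 : (outN R (g • a) ∩ outN R y).card = (outN R a ∩ outN R u).card := by
    rw [show y = g • u by simp [u], ← smul_outN hinv, ← smul_outN hinv,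
      ← Finset.smul_finset_inter, Finset.card_smul_finset]
  rw [e1]
  set R' : β → β → Prop := fun u v => R v u
  have hinv' : ∀ (g : H) (x y : β), R' x y → R' (g • x) (g • y) := fun g x y h => hinv g y x h
  set O := outN R a
  have hconst : ∀ (T : β → β → Prop), (∀ (g : H) (x y : β), T x y → T (g • x) (g • y)) →
      ∀ v, R a v → (O ∩ outN T v).card = (O ∩ outN T u).card := by
    intro T hT v hv
    obtain ⟨h, hha, rfl⟩ := htrans u v hu hv
    rw [← smul_outN hT, show O = h • O by rw [smul_outN hinv, hha],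
      ← Finset.smul_finset_inter, Finset.card_smul_finset, smul_outN hinv, hha]
  have hsum : ∑ v ∈ O, (O ∩ outN R v).card = ∑ v ∈ O, (O ∩ outN R' v).card := by
    have h := Finset.sum_card_bipartiteAbove_eq_sum_card_bipartiteBelow (s := O) (t := O) R
    calc ∑ v ∈ O, (O ∩ outN R v).card = ∑ v ∈ O, (Finset.bipartiteAbove R O v).card := by
          refine Finset.sum_congr rfl fun v _ => congrArg _ ?_
          ext y; simp [mem_outN, Finset.mem_bipartiteAbove]
      _ = _ := h
      _ = _ := by
          refine Finset.sum_congr rfl fun v _ => congrArg _ ?_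
          ext y; simp [R', mem_outN, Finset.mem_bipartiteBelow]
  rw [Finset.sum_const_nat fun v hv => hconst R hinv v (mem_outN.1 hv),
    Finset.sum_const_nat fun v hv => hconst R' hinv' v (mem_outN.1 hv)] at hsum
  have huO : u ∈ O := mem_outN.2 hu
  have heq := Nat.eq_of_mul_eq_mul_left (Finset.card_pos.2 ⟨u, huO⟩) hsum
  have hdisj : Disjoint (O ∩ outN R u) (O ∩ outN R' u) := by
    refine Finset.disjoint_left.2 fun w h1 h2 => ?_
    simp only [Finset.mem_inter, mem_outN, O] at h1 h2
    by_cases hwu : u = w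
    · exact hirr u (hwu ▸ h1.2 : R u u)
    · exact ((htot u w hwu).1 h1.2) h2.2
  have hpart : O.erase u = (O ∩ outN R u) ∪ (O ∩ outN R' u) := by
    ext w
    simp only [Finset.mem_erase, Finset.mem_union, Finset.mem_inter, mem_outN]
    constructor
    · rintro ⟨hwu, hw⟩
      by_cases h : R u w
      · exact Or.inl ⟨hw, h⟩
      · exact Or.inr ⟨hw, not_not.1 (fun h' => h ((htot u w (Ne.symm hwu)).2 h'))⟩
    · rintro (⟨hw, h⟩ | ⟨hw, h⟩)
      · exact ⟨fun e => hirr u (e ▸ h : R u u), hw⟩
      · exact ⟨fun e => hirr u (e ▸ h : R u u), hw⟩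
  have := congrArg Finset.card hpart
  rw [Finset.card_union_of_disjoint hdisj, Finset.card_erase_of_mem huO] at this
  have hpos : 0 < O.card := Finset.card_pos.2 ⟨u, huO⟩
  omega

/-- The extremal case `n = 2 f + 1` is doubly transitive. -/
theorem extremal [Finite H] [ht : MulAction.IsPretransitive H β] {n : ℕ} (IH : BndLt n)
    (hn : Fintype.card β ≤ n) {K : Subgroup H} (hK : IsPron K) (hm : Moves β K)
    (hs : Fintype.card β = 2 * (fixF (β := β) K).card + 1) {a : β} (ha : a ∈ fixF K)
    {b c : β} (hb : b ≠ a) (hc : c ≠ a) : ∃ g : H, g • a = a ∧ g • b = c := by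
  classical
  set S := MulAction.stabilizer H a
  have hT : ∀ b, b ≠ a → ∃ c ∈ orb S b, c ∉ fixF K := fun b hb =>
    exists_moved_of_not_rel hK ha (rel_trivial_of_slack IH hn hK hm (by omega) ha hb)
  obtain ⟨hbd, hsz, hfx⟩ := step IH hn hK ha hT
  by_contra hne
  have hbc : orb S b ≠ orb S c := by
    intro h
    have : c ∈ orb S b := h ▸ self_mem_orb S c
    obtain ⟨g, hg, he⟩ := mem_orb.1 this
    exact hne ⟨g, hg, he⟩
  set P := orbitsAway S a
  have hbP : orb S b ∈ P := Finset.mem_image_of_mem _ (Finset.mem_erase.2 ⟨hb, mem_univ _⟩)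
  have hcP : orb S c ∈ P := Finset.mem_image_of_mem _ (Finset.mem_erase.2 ⟨hc, mem_univ _⟩)
  have hsub : {orb S b, orb S c} ⊆ P := Finset.insert_subset hbP (by simpa using hcP)
  have hP2 : P = {orb S b, orb S c} := by
    refine (Finset.eq_of_subset_of_card_le hsub ?_).symm
    rw [Finset.card_pair hbc]
    have h := Finset.sum_le_sum hbd
    rw [Finset.sum_add_distrib, ← Finset.mul_sum, Finset.sum_const, smul_eq_mul, mul_one] at h
    omega
  rw [hP2, Finset.sum_pair hbc] at hsz hfx
  have hob := hbd _ hbP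
  have hoc := hbd _ hcP
  set O := orb S b
  set O' := orb S c
  -- orbital
  set R : β → β → Prop := fun x y => ∃ g : H, g • a = x ∧ g • b = y with hR
  have hinv : ∀ (g : H) (x y : β), R x y → R (g • x) (g • y) := by
    rintro g x y ⟨h, rfl, rfl⟩; exact ⟨g * h, mul_smul _ _ _, mul_smul _ _ _⟩
  have hout : outN R a = O := by
    ext y; rw [mem_outN, mem_orb]; exact Iff.rfl
  have hirr : ∀ x, ¬ R x x := by
    rintro x ⟨h, h1, h2⟩; exact hb (MulAction.injective h (h2.trans h1.symm))
  have hodd : ¬ R b a := by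
    rintro ⟨g, hga, hgb⟩
    have hsym : ∀ x y, R x y → R y x := by
      rintro x y ⟨h, rfl, rfl⟩
      exact hinv h b a ⟨g, hga, hgb⟩
    have := handshake hsym hirr
    rw [Finset.sum_const_nat fun x _ => card_outN_eq hinv x a, Finset.card_univ, hout] at this
    rw [Nat.even_mul] at this
    rcases this with ⟨t, ht⟩ | ⟨t, ht⟩ <;> omega
  set R' : β → β → Prop := fun u v => R v u
  have hinv' : ∀ (g : H) (x y : β), R' x y → R' (g • x) (g • y) := fun g x y h => hinv g y x h
  have hnot : ∀ y, R a y → ¬ R y a := by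
    rintro y ⟨g, hga, rfl⟩ h
    have := hinv g⁻¹ _ _ h
    rw [inv_smul_smul, inv_smul_eq_iff.2 hga.symm] at this
    exact hodd this
  have hin : outN R' a = O' := by
    obtain ⟨g, hg⟩ := ht.exists_smul_eq b a
    have hmem : R' a (g • a) := ⟨g, rfl, hg⟩
    have hne' : g • a ∉ O := fun h => hnot _ (hout.symm ▸ h |> mem_outN.1) hmem
    have hga : g • a ≠ a := fun h => hb (MulAction.injective g (hg.trans h.symm))
    have hgo : orb S (g • a) = O' := by
      have : orb S (g • a) ∈ P := Finset.mem_image_of_mem _ (Finset.mem_erase.2 ⟨hga, mem_univ _⟩)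
      rw [hP2, Finset.mem_insert, Finset.mem_singleton] at this
      exact this.resolve_left fun h => hne' (h ▸ self_mem_orb S _)
    refine Finset.Subset.antisymm (fun y hy => ?_) fun y hy => ?_
    · rw [mem_outN] at hy
      have hya : y ≠ a := fun h => hirr a (h ▸ hy : R' a a)
      have : orb S y ∈ P := Finset.mem_image_of_mem _ (Finset.mem_erase.2 ⟨hya, mem_univ _⟩)
      rw [hP2, Finset.mem_insert, Finset.mem_singleton] at this
      rcases this with h | h
      · have : y ∈ O := h ▸ self_mem_orb S y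
        exact absurd hy (hnot y (mem_outN.1 (hout.symm ▸ this)))
      · exact h ▸ self_mem_orb S y
    · rw [← hgo, mem_orb] at hy
      obtain ⟨h, hh, rfl⟩ := hy
      have := hinv' h _ _ hmem
      rw [MulAction.mem_stabilizer_iff.1 hh] at this
      exact mem_outN.2 this
  have htot : ∀ x y, x ≠ y → (R x y ↔ ¬ R y x) := by
    intro x y hxy
    obtain ⟨g, rfl⟩ := ht.exists_smul_eq a x
    have hy0 : g⁻¹ • y ≠ a := fun h => hxy (by rw [← h, smul_inv_smul])
    have e1 : R (g • a) y ↔ R a (g⁻¹ • y) :=
      ⟨fun h => by simpa using hinv g⁻¹ _ _ h, fun h => by simpa using hinv g _ _ h⟩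
    have e2 : R y (g • a) ↔ R (g⁻¹ • y) a :=
      ⟨fun h => by simpa using hinv g⁻¹ _ _ h, fun h => by simpa using hinv g _ _ h⟩
    rw [e1, e2]
    refine ⟨hnot _, fun h => ?_⟩
    have : orb S (g⁻¹ • y) ∈ P :=
      Finset.mem_image_of_mem _ (Finset.mem_erase.2 ⟨hy0, mem_univ _⟩)
    rw [hP2, Finset.mem_insert, Finset.mem_singleton] at this
    rcases this with h' | h'
    · exact mem_outN.1 (hout ▸ (h' ▸ self_mem_orb S _ : g⁻¹ • y ∈ O))
    · have h3 : g⁻¹ • y ∈ outN R' a := by rw [hin, ← h']; exact self_mem_orb S _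
      exact absurd (mem_outN.1 h3) h
  have htrans : ∀ u v, R a u → R a v → ∃ g : H, g • a = a ∧ g • u = v := by
    intro u v hu hv
    replace hu : u ∈ O := hout ▸ mem_outN.2 hu
    replace hv : v ∈ O := hout ▸ mem_outN.2 hv
    exact mem_orb.1 (show v ∈ orb S u by rw [orb_eq_of_mem hu]; exact hv)
  have htrans' : ∀ u v, R' a u → R' a v → ∃ g : H, g • a = a ∧ g • u = v := by
    intro u v hu hv
    replace hu : u ∈ O' := hin ▸ mem_outN.2 hu
    replace hv : v ∈ O' := hin ▸ mem_outN.2 hv
    exact mem_orb.1 (show v ∈ orb S u by rw [orb_eq_of_mem hu]; exact hv)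
  have hoo : O.card = O'.card := by
    have h := sum_outN_flip R
    rw [Finset.sum_const_nat fun x _ => card_outN_eq hinv x a,
      Finset.sum_const_nat fun x _ => card_outN_eq hinv' x a, hout] at h
    change _ = _ * (outN R' a).card at h
    rw [hin] at h
    exact Nat.eq_of_mul_eq_mul_left (by rw [Finset.card_univ]; omega) h
  obtain ⟨k, hk, x, hx⟩ := hm
  have hxF : x ∉ fixF K := fun h => hx (mem_fixF.1 h k hk)
  have e1 : 2 * (outN R x ∩ outN R (k • x)).card + 1 = O.card := by
    rw [← hout]
    rcases Classical.em (R x (k • x)) with h | h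
    · exact tournament_common hinv htot hirr htrans h
    · rw [Finset.inter_comm]
      exact tournament_common hinv htot hirr htrans ((htot _ _ hx).2 h)
  have e2 : 2 * (outN R' x ∩ outN R' (k • x)).card + 1 = O'.card := by
    rw [← hin]
    have htot' : ∀ x y, x ≠ y → (R' x y ↔ ¬ R' y x) := fun x y h => htot y x (Ne.symm h)
    rcases Classical.em (R' x (k • x)) with h | h
    · exact tournament_common hinv' htot' hirr htrans' h
    · rw [Finset.inter_comm]
      exact tournament_common hinv' htot' hirr htrans' ((htot' _ _ hx).2 h)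
  have hsubF : fixF K ⊆ (outN R x ∩ outN R (k • x)) ∪ (outN R' x ∩ outN R' (k • x)) := by
    intro u hu
    have hku := mem_fixF.1 hu k hk
    have hxu : x ≠ u := fun h => hxF (h ▸ hu)
    simp only [Finset.mem_union, Finset.mem_inter, mem_outN]
    rcases Classical.em (R x u) with h | h
    · exact Or.inl ⟨h, hku ▸ hinv k _ _ h⟩
    · have h' : R' x u := (htot u x (Ne.symm hxu)).2 h
      exact Or.inr ⟨h', hku ▸ hinv' k _ _ h'⟩
  have := (Finset.card_le_card hsubF).trans (Finset.card_union_le _ _)
  omega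

end Cfsg.Agent.H26.Pro
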