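import Cfsg.Agent.H26.Pro.Top
import Cfsg.Agent.H26.Pro.Comm

/-!
# The critical situation is quadruply transitive
-/

set_option linter.unusedSectionVars false
set_option linter.style.haveILetI false

namespace Cfsg.Agent.H26.Pro

open Finset
open scoped Pointwise

variable {α : Type*} [Fintype α] [DecidableEq α]
variable {G : Subgroup (Equiv.Perm α)} {M : Subgroup G} {Δ : Finset α}

/-- closure with respect to the translates of `Δ` -/
noncomputable def clos (G : Subgroup (Equiv.Perm α)) (Δ S : Finset α) : Finset α :=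
  haveI : DecidablePred fun z => ∀ g : G, g • S ⊆ Δ → g • z ∈ Δ := Classical.decPred _
  univ.filter fun z => ∀ g : G, g • S ⊆ Δ → g • z ∈ Δ

theorem mem_clos {S : Finset α} {z : α} :
    z ∈ clos G Δ S ↔ ∀ g : G, g • S ⊆ Δ → g • z ∈ Δ := by simp [clos]

theorem subset_clos (S : Finset α) : S ⊆ clos G Δ S := fun z hz =>
  mem_clos.2 fun g hg => hg (Finset.smul_mem_smul_finset hz)

theorem clos_mono {S T : Finset α} (h : S ⊆ clos G Δ T) : clos G Δ S ⊆ clos G Δ T := by
  intro z hz
  refine mem_clos.2 fun g hg => mem_clos.1 hz g fun y hy => ?_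
  obtain ⟨x, hx, rfl⟩ := Finset.mem_smul_finset.1 hy
  exact mem_clos.1 (h hx) g hg

theorem smul_clos (g : G) (S : Finset α) : g • clos G Δ S = clos G Δ (g • S) := by
  ext z
  rw [← Finset.inv_smul_mem_iff, mem_clos, mem_clos]
  constructor
  · intro h g' hg'
    have := h (g' * g) (by rwa [mul_smul])
    rwa [mul_smul, smul_inv_smul] at this
  · intro h g' hg'
    have := h (g' * g⁻¹) (by rwa [mul_smul, inv_smul_smul])
    rwa [mul_smul] at this

theorem three_card {a b c : α} (hab : a ≠ b) (hac : a ≠ c) (hbc : b ≠ c) :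
    ({a, b, c} : Finset α).card = 3 := by
  rw [Finset.card_insert_of_notMem (by simp [hab, hac]), Finset.card_pair hbc]

theorem four_set {q : Finset α} (hq : q.card = 4) {a b c : α} (ha : a ∈ q) (hb : b ∈ q)
    (hc : c ∈ q) (hab : a ≠ b) (hac : a ≠ c) (hbc : b ≠ c) :
    ∃ d, d ≠ a ∧ d ≠ b ∧ d ≠ c ∧ q = {a, b, c, d} := by
  obtain ⟨d, hd, hd'⟩ := Finset.exists_mem_notMem_of_card_lt_card (s := ({a, b, c} : Finset α))
    (t := q) (by rw [three_card hab hac hbc, hq]; omega)
  simp only [Finset.mem_insert, Finset.mem_singleton, not_or] at hd'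
  refine ⟨d, hd'.1, hd'.2.1, hd'.2.2, (Finset.eq_of_subset_of_card_le ?_ ?_).symm⟩
  · simp [Finset.insert_subset_iff, ha, hb, hc, hd]
  · rw [hq, Finset.card_insert_of_notMem (by simp [hab, hac, Ne.symm hd'.1]),
      three_card hbc (Ne.symm hd'.2.1) (Ne.symm hd'.2.2)]

theorem blocks_card (hs : Sit G M Δ) {a : α} :
    ∀ (B : Finset (Finset α)), (∀ S, S ∈ B ↔ ∃ g : G, g • Δ = S) →
      B.card = 2 * (B.filter fun S => a ∈ S).card ∧
      Fintype.card α - 1 ∣ (B.filter fun S => a ∈ S).card ∧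
      0 < (B.filter fun S => a ∈ S).card := by
  intro B hB
  have hk := hs.two_le_card
  have hinv : ∀ (g : G) S, S ∈ B → g • S ∈ B := fun g S hS => by
    obtain ⟨h, rfl⟩ := (hB S).1 hS; exact (hB _).2 ⟨g * h, mul_smul _ _ _⟩
  have hcard : ∀ S ∈ B, S.card = Δ.card := fun S hS => by
    obtain ⟨h, rfl⟩ := (hB S).1 hS; exact Finset.card_smul_finset h Δ
  have hr : ∀ x y : α, (B.filter fun S => x ∈ S).card = (B.filter fun S => y ∈ S).card := by
    intro x y
    obtain ⟨g, rfl⟩ := hs.htr.exists_smul_eq x y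
    refine Finset.card_equiv (MulAction.toPerm g) fun S => ?_
    simp only [Finset.mem_filter, MulAction.toPerm_apply]
    constructor
    · rintro ⟨h1, h2⟩; exact ⟨hinv g S h1, Finset.smul_mem_smul_finset h2⟩
    · rintro ⟨h1, h2⟩
      refine ⟨by simpa using hinv g⁻¹ _ h1, ?_⟩
      have := Finset.inv_smul_mem_iff.2 h2
      rwa [inv_smul_smul] at this
  have hdc := dcount (univ : Finset α) B fun x S => x ∈ S
  rw [Finset.sum_const_nat fun x _ => hr x a, Finset.card_univ,
    Finset.sum_const_nat (f := fun S => (univ.filter fun x => x ∈ S).card) (m := Δ.card)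
      (fun S hS => by rw [← hcard S hS]; congr 1; ext x; simp), hs.card] at hdc
  have hb : B.card = 2 * (B.filter fun S => a ∈ S).card :=
    Nat.eq_of_mul_eq_mul_right (show 0 < Δ.card by omega) (by linarith)
  set r := (B.filter fun S => a ∈ S).card with hr_def
  set Ba := B.filter fun S => a ∈ S
  obtain ⟨a', ha'⟩ := exists_notMem_of_card_lt (s := {a})
    (by rw [Finset.card_singleton, hs.card]; omega)
  simp only [Finset.mem_singleton] at ha'
  have hlam : ∀ x, x ≠ a →
      (Ba.filter fun S => x ∈ S).card = (Ba.filter fun S => a' ∈ S).card := by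
    intro x hx
    obtain ⟨g, e1, e2⟩ := hs.trans2 (Ne.symm hx) (Ne.symm ha')
    refine Finset.card_equiv (MulAction.toPerm g) fun S => ?_
    simp only [Ba, Finset.mem_filter, MulAction.toPerm_apply]
    constructor
    · rintro ⟨⟨h1, h2⟩, h3⟩
      exact ⟨⟨hinv g S h1, e1 ▸ Finset.smul_mem_smul_finset h2⟩,
        e2 ▸ Finset.smul_mem_smul_finset h3⟩
    · rintro ⟨⟨h1, h2⟩, h3⟩
      refine ⟨⟨by simpa using hinv g⁻¹ _ h1, ?_⟩, ?_⟩
      · rw [← e1] at h2; simpa using Finset.inv_smul_mem_iff.2 h2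
      · rw [← e2] at h3; simpa using Finset.inv_smul_mem_iff.2 h3
  have hdc2 := dcount Ba (univ.erase a) fun S x => x ∈ S
  rw [Finset.sum_const_nat (m := Δ.card - 1) (fun S hS => ?_),
    Finset.sum_const_nat fun x hx => hlam x (Finset.mem_erase.1 hx).1,
    Finset.card_erase_of_mem (mem_univ a), Finset.card_univ] at hdc2
  · refine ⟨hb, ?_, ?_⟩
    · have hco : Nat.Coprime (Fintype.card α - 1) (Δ.card - 1) := by
        have h1 : Nat.Coprime 1 (Δ.card - 1) := Nat.coprime_one_left _
        have : Fintype.card α - 1 = 1 + 2 * (Δ.card - 1) := by rw [hs.card]; omega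
        rw [this]
        exact (Nat.coprime_add_mul_right_left 1 (Δ.card - 1) 2).2 h1
      exact hco.dvd_of_dvd_mul_right ⟨_, hdc2⟩
    · obtain ⟨c, hc⟩ := hs.nonempty
      obtain ⟨g, hg⟩ := hs.htr.exists_smul_eq c a
      exact Finset.card_pos.2 ⟨g • Δ, Finset.mem_filter.2
        ⟨(hB _).2 ⟨g, rfl⟩, hg ▸ Finset.smul_mem_smul_finset hc⟩⟩
  · obtain ⟨hS1, hS2⟩ := Finset.mem_filter.1 hS
    rw [show ((univ.erase a).filter fun x => x ∈ S) = S.erase a by
      ext x; simp, Finset.card_erase_of_mem hS2, hcard S hS1]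

set_option maxHeartbeats 1000000 in
/-- no quadruple system -/
theorem no_quad (hs : Sit G M Δ) (hk : 3 ≤ Δ.card)
    (hq : ∃ a b c : α, a ≠ b ∧ a ≠ c ∧ b ≠ c ∧ (clos G Δ {a, b, c}).card = 4) : False := by
  classical
  have hn := hs.card
  have h4 : ∀ a b c : α, a ≠ b → a ≠ c → b ≠ c → (clos G Δ {a, b, c}).card = 4 := by
    intro a b c hab hac hbc
    obtain ⟨x, y, z, hxy, hxz, hyz, h⟩ := hq
    obtain ⟨g, e1, e2, e3⟩ := hs.trans3 hxy hxz hyz hab hac hbc
    rw [← h, ← Finset.card_smul_finset g (clos G Δ {x, y, z}), smul_clos]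
    simp [Finset.smul_finset_insert, e1, e2, e3]
  have hline : ∀ {a b c x y z : α}, a ≠ b → a ≠ c → b ≠ c → x ≠ y → x ≠ z → y ≠ z →
      x ∈ clos G Δ {a, b, c} → y ∈ clos G Δ {a, b, c} → z ∈ clos G Δ {a, b, c} →
      clos G Δ {x, y, z} = clos G Δ {a, b, c} := by
    intro a b c x y z hab hac hbc hxy hxz hyz hx hy hz
    refine Finset.eq_of_subset_of_card_le (clos_mono ?_) (by rw [h4 _ _ _ hab hac hbc,
      h4 _ _ _ hxy hxz hyz])
    simp [Finset.insert_subset_iff, hx, hy, hz]
  set B : Finset (Finset α) := univ.filter fun S => ∃ g : G, g • Δ = S with hBdef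
  have hB : ∀ S, S ∈ B ↔ ∃ g : G, g • Δ = S := fun S => by simp [B]
  -- blocks are closed
  have hclosed : ∀ S ∈ B, ∀ {x y z : α}, x ∈ S → y ∈ S → z ∈ S →
      clos G Δ {x, y, z} ⊆ S := by
    intro S hS x y z hx hy hz w hw
    obtain ⟨g, rfl⟩ := (hB S).1 hS
    have h2 := mem_clos.1 hw g⁻¹ (fun u hu => by
      obtain ⟨v, hv, rfl⟩ := Finset.mem_smul_finset.1 hu
      simp only [Finset.mem_insert, Finset.mem_singleton] at hv
      rw [Finset.inv_smul_mem_iff]
      rcases hv with rfl | rfl | rfl <;> assumption)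
    rwa [Finset.inv_smul_mem_iff] at h2
  -- the even sets
  set A : Finset (Finset α) := univ.filter fun S => ∀ a b c : α, a ≠ b → a ≠ c → b ≠ c →
    Even (clos G Δ {a, b, c} ∩ S).card with hA
  have hmemA : ∀ S, S ∈ A ↔ ∀ a b c : α, a ≠ b → a ≠ c → b ≠ c →
      Even (clos G Δ {a, b, c} ∩ S).card := fun S => by simp [A]
  have hcomplA : ∀ S ∈ A, Sᶜ ∈ A := by
    intro S hS
    rw [hmemA] at hS ⊢
    intro a b c hab hac hbc
    have h1 := Finset.card_sdiff_add_card_inter (clos G Δ {a, b, c}) S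
    rw [h4 a b c hab hac hbc] at h1
    rw [← Finset.sdiff_eq_inter_compl]
    obtain ⟨t, ht⟩ := hS a b c hab hac hbc
    exact ⟨2 - t, by omega⟩
  have hblockA : ∀ S ∈ B, S ∈ A := by
    intro S hS
    rw [hmemA]
    intro a b c hab hac hbc
    set q := clos G Δ {a, b, c} with hqdef
    have hqc : q.card = 4 := h4 a b c hab hac hbc
    have hle : (q ∩ S).card ≤ 4 := hqc ▸ Finset.card_le_card Finset.inter_subset_left
    have h3 : 3 ≤ (q ∩ S).card → (q ∩ S).card = 4 := by
      intro h
      obtain ⟨x, y, z, hx, hy, hz, hxy, hxz, hyz⟩ :=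
        Finset.two_lt_card_iff.1 (by omega : 2 < (q ∩ S).card)
      simp only [Finset.mem_inter] at hx hy hz
      have := hclosed S hS hx.2 hy.2 hz.2
      rw [hline hab hac hbc hxy hxz hyz hx.1 hy.1 hz.1] at this
      rw [Finset.inter_eq_left.2 this, hqc]
    have h1 : (q ∩ S).card ≠ 1 := by
      intro h
      obtain ⟨z, hz⟩ := Finset.card_eq_one.1 h
      have hz' : z ∈ q ∧ z ∈ S := Finset.mem_inter.1 (by rw [hz]; simp)
      have hout : ∀ w ∈ q, w ≠ z → w ∉ S := fun w hw hwz hwS => hwz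
        (Finset.mem_singleton.1 (hz ▸ Finset.mem_inter.2 ⟨hw, hwS⟩))
      obtain ⟨x, hx, y, hy, hxy⟩ := Finset.one_lt_card.1
        (show 1 < (q.erase z).card by rw [Finset.card_erase_of_mem hz'.1, hqc]; norm_num)
      obtain ⟨hxz, hxq⟩ := Finset.mem_erase.1 hx
      obtain ⟨hyz, hyq⟩ := Finset.mem_erase.1 hy
      have hxS := hout x hxq hxz
      have hyS := hout y hyq hyz
      -- the map `d ↦` fourth point of `{z, x, d}`
      have hex : ∀ d, d ≠ z → d ≠ x → ∃ e, e ≠ z ∧ e ≠ x ∧ e ≠ d ∧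
          clos G Δ {z, x, d} = {z, x, d, e} := fun d hdz hdx =>
        four_set (h4 z x d (Ne.symm hxz) (Ne.symm hdz) (Ne.symm hdx))
          (subset_clos _ (by simp)) (subset_clos _ (by simp)) (subset_clos _ (by simp))
          (Ne.symm hxz) (Ne.symm hdz) (Ne.symm hdx)
      choose! σ hσ using hex
      have hdx : ∀ d ∈ S.erase z, d ≠ z ∧ d ≠ x := fun d hd =>
        ⟨(Finset.mem_erase.1 hd).1, fun e => hxS (e ▸ (Finset.mem_erase.1 hd).2)⟩
      have hmap : ∀ d ∈ S.erase z, σ d ∈ Sᶜ.erase x := by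
        intro d hd
        obtain ⟨hdz, hdx'⟩ := hdx d hd
        obtain ⟨e1, e2, e3, e4⟩ := hσ d hdz hdx'
        refine Finset.mem_erase.2 ⟨e2, Finset.mem_compl.2 fun hS' => hxS ?_⟩
        have := hclosed S hS hz'.2 (Finset.mem_erase.1 hd).2 hS'
        rw [hline (Ne.symm hxz) (Ne.symm hdz) (Ne.symm hdx') (Ne.symm hdz) (Ne.symm e1)
          (Ne.symm e3) (by rw [e4]; simp) (by rw [e4]; simp) (by rw [e4]; simp), e4] at this
        exact this (by simp)
      have hinj : Set.InjOn σ (S.erase z : Finset α) := by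
        intro d hd d' hd' he
        rw [Finset.mem_coe] at hd hd'
        obtain ⟨hdz, hdx'⟩ := hdx d hd
        obtain ⟨hdz', hdx''⟩ := hdx d' hd'
        obtain ⟨e1, e2, e3, e4⟩ := hσ d hdz hdx'
        obtain ⟨f1, f2, f3, f4⟩ := hσ d' hdz' hdx''
        have h5 := hline (Ne.symm hxz) (Ne.symm hdz) (Ne.symm hdx') (Ne.symm hxz) (Ne.symm e1)
          (Ne.symm e2) (by rw [e4]; simp) (by rw [e4]; simp) (by rw [e4]; simp)
        have h6 := hline (Ne.symm hxz) (Ne.symm hdz') (Ne.symm hdx'') (Ne.symm hxz) (Ne.symm f1)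
          (Ne.symm f2) (by rw [f4]; simp) (by rw [f4]; simp) (by rw [f4]; simp)
        have hd'' : d' ∈ ({z, x, d, σ d} : Finset α) := by
          rw [← e4, ← h5, he, h6, f4]; simp
        simp only [Finset.mem_insert, Finset.mem_singleton] at hd''
        rcases hd'' with h | h | h | h
        · exact absurd h hdz'
        · exact absurd h hdx''
        · exact h.symm
        · exact absurd (h.trans he).symm f3
      have hsurj : (S.erase z).image σ = Sᶜ.erase x := by
        refine Finset.eq_of_subset_of_card_le (Finset.image_subset_iff.2 hmap) ?_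
        obtain ⟨g, rfl⟩ := (hB S).1 hS
        rw [Finset.card_image_of_injOn hinj, Finset.card_erase_of_mem hz'.2,
          Finset.card_erase_of_mem (Finset.mem_compl.2 hxS), Finset.card_compl,
          Finset.card_smul_finset, hn]
        omega
      obtain ⟨d, hd, hde⟩ := Finset.mem_image.1
        (hsurj.symm ▸ Finset.mem_erase.2 ⟨Ne.symm hxy, Finset.mem_compl.2 hyS⟩ :
          y ∈ (S.erase z).image σ)
      obtain ⟨hdz, hdx'⟩ := hdx d hd
      obtain ⟨e1, e2, e3, e4⟩ := hσ d hdz hdx'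
      have h5 := hline (Ne.symm hxz) (Ne.symm hdz) (Ne.symm hdx') (Ne.symm hxz) (Ne.symm hyz)
        hxy (by rw [e4]; simp) (by rw [e4]; simp) (by rw [e4, hde]; simp)
      rw [hline hab hac hbc (Ne.symm hxz) (Ne.symm hyz) hxy hz'.1 hxq hyq] at h5
      exact hout d (show d ∈ q by rw [hqdef, h5]; exact subset_clos _ (by simp)) hdz
        (Finset.mem_erase.1 hd).2
    have : (q ∩ S).card = 0 ∨ (q ∩ S).card = 2 ∨ (q ∩ S).card = 4 := by omega
    rcases this with h | h | h <;> rw [h] <;> decide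
  -- lower bound
  obtain ⟨a₀, -⟩ := hs.nonempty
  obtain ⟨hb, hdvd, hpos⟩ := blocks_card hs (a := a₀) B hB
  have hr := Nat.le_of_dvd hpos hdvd
  have hlow : 2 * B.card + 2 ≤ A.card := by
    set C := B.image fun S => Sᶜ
    have hd1 : Disjoint B C := Finset.disjoint_left.2 fun S hS hS' => by
      obtain ⟨T, hT, rfl⟩ := Finset.mem_image.1 hS'
      obtain ⟨g, hg⟩ := (hB _).1 hS
      obtain ⟨h, rfl⟩ := (hB T).1 hT
      refine hs.not_compl (h⁻¹ * g) ?_
      rw [mul_smul, hg]
      ext u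
      rw [Finset.mem_compl, Finset.mem_inv_smul_finset_iff, Finset.mem_compl,
        Finset.smul_mem_smul_finset_iff]
    have hsub : insert ∅ (insert univ (B ∪ C)) ⊆ A := by
      refine Finset.insert_subset ?_ (Finset.insert_subset ?_ (Finset.union_subset
        (fun S hS => hblockA S hS) fun S hS => ?_))
      · simp [hmemA]
      · rw [hmemA]; intro a b c hab hac hbc
        rw [Finset.inter_univ, h4 a b c hab hac hbc]; decide
      · obtain ⟨T, hT, rfl⟩ := Finset.mem_image.1 hS
        exact hcomplA T (hblockA T hT)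
    have hc : ∀ S ∈ B ∪ C, S.card = Δ.card := by
      intro S hS
      rcases Finset.mem_union.1 hS with h | h
      · obtain ⟨g, rfl⟩ := (hB S).1 h; exact Finset.card_smul_finset g Δ
      · obtain ⟨T, hT, rfl⟩ := Finset.mem_image.1 h
        obtain ⟨g, rfl⟩ := (hB T).1 hT
        rw [Finset.card_compl, Finset.card_smul_finset, hn]; omega
    have h1 : (univ : Finset α) ∉ B ∪ C := fun h => by
      have := hc _ h; rw [Finset.card_univ, hn] at this; omega
    have h2 : (∅ : Finset α) ∉ insert univ (B ∪ C) := by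
      intro h
      rcases Finset.mem_insert.1 h with h | h
      · have := congrArg Finset.card h; rw [Finset.card_univ, Finset.card_empty, hn] at this
        omega
      · have := hc _ h; rw [Finset.card_empty] at this; omega
    have := Finset.card_le_card hsub
    rw [Finset.card_insert_of_notMem h2, Finset.card_insert_of_notMem h1,
      Finset.card_union_of_disjoint hd1, Finset.card_image_of_injective _ compl_injective] at this
    omega
  -- upper bound
  have hup : A.card ≤ 2 * Fintype.card α := by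
    set D : Finset α → Finset α := fun T => univ.filter fun z =>
      ∀ S ∈ A, ∀ S' ∈ A, (∀ t ∈ T, (t ∈ S ↔ t ∈ S')) → (z ∈ S ↔ z ∈ S') with hD
    have hself : ∀ T, T ⊆ D T := fun T t ht => by
      simp only [hD, Finset.mem_filter, Finset.mem_univ, true_and]
      exact fun S _ S' _ h => h t ht
    have hfourth : ∀ T, ∀ x y z w, x ∈ D T → y ∈ D T → z ∈ D T → x ≠ y → x ≠ z → y ≠ z →
        w ∈ clos G Δ {x, y, z} → w ∈ D T := by
      intro T x y z w hx hy hz hxy hxz hyz hw
      simp only [hD, Finset.mem_filter, Finset.mem_univ, true_and] at hx hy hz ⊢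
      intro S hS S' hS' hT
      by_cases hw' : w = x ∨ w = y ∨ w = z
      · rcases hw' with rfl | rfl | rfl
        exacts [hx S hS S' hS' hT, hy S hS S' hS' hT, hz S hS S' hS' hT]
      simp only [not_or] at hw'
      have hq : clos G Δ {x, y, z} = {x, y, z, w} := by
        refine (Finset.eq_of_subset_of_card_le ?_ ?_).symm
        · simp only [Finset.insert_subset_iff, Finset.singleton_subset_iff]
          exact ⟨subset_clos _ (by simp), subset_clos _ (by simp), subset_clos _ (by simp), hw⟩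
        · rw [h4 x y z hxy hxz hyz,
            Finset.card_insert_of_notMem (by simp [hxy, hxz, Ne.symm hw'.1]),
            three_card hyz (Ne.symm hw'.2.1) (Ne.symm hw'.2.2)]
      have e := (hmemA S).1 hS x y z hxy hxz hyz
      have e' := (hmemA S').1 hS' x y z hxy hxz hyz
      rw [hq] at e e'
      have hsplit : ∀ U : Finset α, (({x, y, z, w} : Finset α) ∩ U).card =
          (if x ∈ U then 1 else 0) + (if y ∈ U then 1 else 0) + (if z ∈ U then 1 else 0) +
          (if w ∈ U then 1 else 0) := by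
        intro U
        rw [← Finset.filter_mem_eq_inter, Finset.card_filter,
          Finset.sum_insert (by simp [hxy, hxz, Ne.symm hw'.1]),
          Finset.sum_insert (by simp [hyz, Ne.symm hw'.2.1]),
          Finset.sum_insert (by simp [Ne.symm hw'.2.2]), Finset.sum_singleton]
        ring
      rw [hsplit] at e e'
      obtain ⟨t, ht⟩ := e
      obtain ⟨t', ht'⟩ := e'
      have i1 := hx S hS S' hS' hT
      have i2 := hy S hS S' hS' hT
      have i3 := hz S hS S' hS' hT
      simp only [i1, i2, i3] at ht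
      constructor <;> intro h <;> by_contra h' <;> simp only [h, h', if_true, if_false] at ht ht'
        <;> omega
    have hgrow : ∀ T, (D T).Nonempty → D T ≠ univ → 2 ^ T.card ≤ 2 * (D T).card →
        ∃ T', T.card < T'.card ∧ 2 ^ T'.card ≤ 2 * (D T').card ∧ (D T').Nonempty := by
      intro T hne hnu hsz
      obtain ⟨x, hx⟩ : ∃ x, x ∉ D T := by
        by_contra h; simp only [not_exists, not_not] at h
        exact hnu (Finset.eq_univ_of_forall h)
      obtain ⟨a, ha⟩ := hne
      have hmono : D T ⊆ D (insert x T) := by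
        intro z hz
        simp only [hD, Finset.mem_filter, Finset.mem_univ, true_and] at hz ⊢
        exact fun S hS S' hS' h => hz S hS S' hS' fun t ht => h t (Finset.mem_insert_of_mem ht)
      have hxT : x ∉ T := fun h => hx (hself T h)
      refine ⟨insert x T, by rw [Finset.card_insert_of_notMem hxT]; omega, ?_,
        ⟨a, hmono ha⟩⟩
      rw [Finset.card_insert_of_notMem hxT, pow_succ]
      have hex : ∀ s, s ≠ a → s ≠ x → ∃ e, e ≠ a ∧ e ≠ x ∧ e ≠ s ∧
          clos G Δ {a, x, s} = {a, x, s, e} := fun s hsa hsx =>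
        four_set (h4 a x s (fun h => hx (h ▸ ha)) (Ne.symm hsa) (Ne.symm hsx))
          (subset_clos _ (by simp)) (subset_clos _ (by simp)) (subset_clos _ (by simp))
          (fun h => hx (h ▸ ha)) (Ne.symm hsa) (Ne.symm hsx)
      choose! τ hτ using hex
      have hax : a ≠ x := fun h => hx (h ▸ ha)
      have hne' : ∀ s ∈ (D T).erase a, s ≠ a ∧ s ≠ x := fun s hs =>
        ⟨(Finset.mem_erase.1 hs).1, fun e => hx (e ▸ (Finset.mem_erase.1 hs).2)⟩
      have hnew : ∀ s ∈ (D T).erase a, τ s ∈ (D (insert x T) \ D T).erase x := by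
        intro s hs
        obtain ⟨hsa, hsx⟩ := hne' s hs
        obtain ⟨e1, e2, e3, e4⟩ := hτ s hsa hsx
        refine Finset.mem_erase.2 ⟨e2, Finset.mem_sdiff.2 ⟨?_, fun hin => hx ?_⟩⟩
        · exact hfourth _ a x s _ (hmono ha) (hself _ (Finset.mem_insert_self x T))
            (hmono (Finset.mem_erase.1 hs).2) hax (Ne.symm hsa) (Ne.symm hsx) (by rw [e4]; simp)
        · refine hfourth T a s (τ s) x ha (Finset.mem_erase.1 hs).2 hin (Ne.symm hsa) (Ne.symm e1)
            (Ne.symm e3) ?_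
          rw [hline hax (Ne.symm hsa) (Ne.symm hsx) (Ne.symm hsa) (Ne.symm e1) (Ne.symm e3)
            (by rw [e4]; simp) (by rw [e4]; simp) (by rw [e4]; simp)]
          exact subset_clos _ (by simp)
      have hinj : Set.InjOn τ ((D T).erase a : Finset α) := by
        intro s hs s' hs' he
        rw [Finset.mem_coe] at hs hs'
        obtain ⟨hsa, hsx⟩ := hne' s hs
        obtain ⟨hsa', hsx'⟩ := hne' s' hs'
        obtain ⟨e1, e2, e3, e4⟩ := hτ s hsa hsx
        obtain ⟨f1, f2, f3, f4⟩ := hτ s' hsa' hsx'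
        have h5 := hline hax (Ne.symm hsa) (Ne.symm hsx) hax (Ne.symm e1) (Ne.symm e2)
          (by rw [e4]; simp) (by rw [e4]; simp) (by rw [e4]; simp)
        have h6 := hline hax (Ne.symm hsa') (Ne.symm hsx') hax (Ne.symm f1) (Ne.symm f2)
          (by rw [f4]; simp) (by rw [f4]; simp) (by rw [f4]; simp)
        have hs'' : s' ∈ ({a, x, s, τ s} : Finset α) := by
          rw [← e4, ← h5, he, h6, f4]; simp
        simp only [Finset.mem_insert, Finset.mem_singleton] at hs''
        rcases hs'' with h | h | h | h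
        · exact absurd h hsa'
        · exact absurd h hsx'
        · exact h.symm
        · exact absurd (h.trans he).symm f3
      have h1 := Finset.card_le_card (Finset.image_subset_iff.2 hnew)
      have hxmem : x ∈ D (insert x T) \ D T :=
        Finset.mem_sdiff.2 ⟨hself _ (Finset.mem_insert_self x T), hx⟩
      rw [Finset.card_image_of_injOn hinj, Finset.card_erase_of_mem ha,
        Finset.card_erase_of_mem hxmem] at h1
      have h2 := Finset.card_pos.2 ⟨x, hxmem⟩
      have h3 := Finset.card_sdiff_add_card_eq_card hmono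
      have h4' := Finset.card_pos.2 ⟨a, ha⟩
      omega
    -- iterate
    have hex : ∃ T, D T = univ ∧ 2 ^ T.card ≤ 2 * Fintype.card α := by
      obtain ⟨T, hT, hmax⟩ := Finset.exists_max_image
        ((univ : Finset (Finset α)).filter fun T => 2 ^ T.card ≤ 2 * (D T).card ∧ (D T).Nonempty)
        Finset.card ⟨{a₀}, by
          simp only [Finset.mem_filter, Finset.mem_univ, true_and, Finset.card_singleton]
          have : a₀ ∈ D {a₀} := hself _ (by simp)
          have := Finset.card_pos.2 ⟨a₀, this⟩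
          exact ⟨by omega, ⟨a₀, hself _ (by simp)⟩⟩⟩
      simp only [Finset.mem_filter, Finset.mem_univ, true_and] at hT
      refine ⟨T, ?_, hT.1.trans (Nat.mul_le_mul_left 2 (Finset.card_le_univ _))⟩
      by_contra hnu
      obtain ⟨T', h1, h2, h3⟩ := hgrow T hT.2 hnu hT.1
      exact absurd (hmax T' (by simp [h2, h3])) (not_le.2 h1)
    obtain ⟨T, hT, hsz⟩ := hex
    refine le_trans ?_ hsz
    rw [← Finset.card_powerset]
    refine Finset.card_le_card_of_injOn (fun S => T ∩ S)
      (fun S _ => Finset.mem_coe.2 (Finset.mem_powerset.2 Finset.inter_subset_left)) ?_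
    intro S hS S' hS' he
    ext z
    have hz : z ∈ D T := by rw [hT]; exact mem_univ z
    simp only [hD, Finset.mem_filter, Finset.mem_univ, true_and] at hz
    refine hz S hS S' hS' fun t ht => ?_
    have := Finset.ext_iff.1 he t
    simpa [ht] using this
  rw [hn] at hr hup
  omega

/-- odd orbit of the pointwise stabilizer of three points -/
def OddQ (G : Subgroup (Equiv.Perm α)) (x y z w : α) : Prop :=
  D4 x y z w ∧ Odd (orb (MulAction.stabilizer G x ⊓ MulAction.stabilizer G y ⊓
    MulAction.stabilizer G z) w).card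

theorem oddQ_swap12 {x y z w : α} : OddQ G x y z w ↔ OddQ G y x z w := by
  unfold OddQ D4
  rw [inf_comm (MulAction.stabilizer G x) (MulAction.stabilizer G y)]
  constructor <;> rintro ⟨⟨h1, h2, h3, h4, h5, h6⟩, h⟩ <;>
    exact ⟨⟨h1.symm, h4, h5, h2, h3, h6⟩, h⟩

theorem oddQ_swap23 {x y z w : α} : OddQ G x y z w ↔ OddQ G x z y w := by
  unfold OddQ D4
  rw [inf_right_comm (MulAction.stabilizer G x)]
  constructor <;> rintro ⟨⟨h1, h2, h3, h4, h5, h6⟩, h⟩ <;>
    exact ⟨⟨h2, h1, h3, h4.symm, h6, h5⟩, h⟩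

theorem oddQ_smul (g : G) {x y z w : α} (h : OddQ G x y z w) :
    OddQ G (g • x) (g • y) (g • z) (g • w) := by
  obtain ⟨⟨h1, h2, h3, h4, h5, h6⟩, ho⟩ := h
  have hi := MulAction.injective (β := α) g
  refine ⟨⟨hi.ne h1, hi.ne h2, hi.ne h3, hi.ne h4, hi.ne h5, hi.ne h6⟩, ?_⟩
  convert ho using 1
  rw [← Finset.card_smul_finset g (orb _ w)]
  congr 1
  ext u
  rw [← Finset.inv_smul_mem_iff, mem_orb, mem_orb]
  simp only [Subgroup.mem_inf, MulAction.mem_stabilizer_iff]
  constructor
  · rintro ⟨s, ⟨⟨e1, e2⟩, e3⟩, rfl⟩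
    exact ⟨g⁻¹ * s * g, ⟨⟨by rw [mul_smul, mul_smul, e1, inv_smul_smul],
      by rw [mul_smul, mul_smul, e2, inv_smul_smul]⟩,
      by rw [mul_smul, mul_smul, e3, inv_smul_smul]⟩, by rw [mul_smul, mul_smul]⟩
  · rintro ⟨s, ⟨⟨e1, e2⟩, e3⟩, hu⟩
    exact ⟨g * s * g⁻¹, ⟨⟨by rw [mul_smul, mul_smul, inv_smul_smul, e1],
      by rw [mul_smul, mul_smul, inv_smul_smul, e2]⟩,
      by rw [mul_smul, mul_smul, inv_smul_smul, e3]⟩,
      by rw [mul_smul, mul_smul, inv_smul_smul, hu, smul_inv_smul]⟩

set_option maxHeartbeats 1000000 in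
theorem sit_trans4 (hs : Sit G M Δ) (hk : 3 ≤ Δ.card) : Trans4 G := by
  classical
  haveI := hs.htr
  have hn := hs.card
  obtain ⟨u, v, w, hu, hv, hw, huv, huw, hvw⟩ :=
    Finset.two_lt_card_iff.1 (by omega : 2 < Δ.card)
  set H := MulAction.stabilizer G u ⊓ MulAction.stabilizer G v with hH
  have hMH : M ≤ H := fun m hm =>
    ⟨hs.mem_iff.1 hm u hu, hs.mem_iff.1 hm v hv⟩
  have hmemO : ∀ x, x ∈ MulAction.orbit H w ↔ x ≠ u ∧ x ≠ v := by
    intro x
    constructor
    · rintro ⟨⟨g, hg1, hg2⟩, rfl⟩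
      exact ⟨fun h => huw.symm (MulAction.injective g (h.trans hg1.symm)),
        fun h => hvw.symm (MulAction.injective g (h.trans hg2.symm))⟩
    · rintro ⟨hxu, hxv⟩
      obtain ⟨g, e1, e2, e3⟩ := hs.trans3 huv huw hvw huv (Ne.symm hxu) (Ne.symm hxv)
      exact ⟨⟨g, e1, e2⟩, e3⟩
  haveI : Fintype (MulAction.orbit H w) := Fintype.ofFinite _
  have hcardβ : Fintype.card (MulAction.orbit H w) = 2 * Δ.card - 2 := by
    rw [← Set.toFinset_card, show (MulAction.orbit H w).toFinset = univ \ {u, v} by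
      ext x; simp [hmemO], Finset.card_univ_sdiff, Finset.card_pair huv, hn]
  have hfix : (fixF (β := MulAction.orbit H w) (M.subgroupOf H)).card = Δ.card - 2 := by
    rw [← Finset.card_map (Function.Embedding.subtype _),
      show (fixF (β := MulAction.orbit H w) (M.subgroupOf H)).map (Function.Embedding.subtype _) =
        Δ \ {u, v} by
        ext x
        simp only [Finset.mem_map, Function.Embedding.coe_subtype, Finset.mem_sdiff,
          Finset.mem_insert, Finset.mem_singleton, mem_fixF]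
        constructor
        · rintro ⟨⟨y, hy⟩, hfix, rfl⟩
          refine ⟨?_, fun h => ?_⟩
          · rw [← hs.fixEq, mem_fixF]
            exact fun m hm => Subtype.ext_iff.1 (hfix ⟨m, hMH hm⟩ hm)
          · rcases h with h | h
            exacts [((hmemO y).1 hy).1 h, ((hmemO y).1 hy).2 h]
        · rintro ⟨hx, hne⟩
          simp only [not_or] at hne
          exact ⟨⟨x, (hmemO x).2 hne⟩,
            fun m hm => Subtype.ext (hs.mem_iff.1 hm x hx), rfl⟩,
      Finset.card_sdiff_of_subset (by simp [Finset.insert_subset_iff, hu, hv]),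
      Finset.card_pair huv]
  have hmv : Moves (MulAction.orbit H w) (M.subgroupOf H) := by
    obtain ⟨m, hm, x, hx⟩ := hs.moves
    refine ⟨⟨m, hMH hm⟩, hm, ⟨x, (hmemO x).2 ⟨fun h => hx ?_, fun h => hx ?_⟩⟩,
      fun h => hx (Subtype.ext_iff.1 h)⟩
    · rw [h]; exact hs.mem_iff.1 hm u hu
    · rw [h]; exact hs.mem_iff.1 hm v hv
  set w' : MulAction.orbit H w := ⟨w, MulAction.mem_orbit_self w⟩ with hw'
  have hwfix : w' ∈ fixF (β := MulAction.orbit H w) (M.subgroupOf H) :=
    mem_fixF.2 fun m hm => Subtype.ext (hs.mem_iff.1 hm w hw)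
  rcases slack_two hs.IH (by rw [hcardβ, hn]; omega) (hs.pron.subgroupOf hMH) hmv
      (by rw [hcardβ, hfix]; omega) hwfix with h2t | ⟨d, hd, hrel⟩ | ⟨L, hL, hsym, htri, hedge, hco⟩
  · -- quadruply transitive
    intro a b c d a' b' c' d' h1 h2
    obtain ⟨p1, p2, p3, p4, p5, p6⟩ := h1
    obtain ⟨q1, q2, q3, q4, q5, q6⟩ := h2
    obtain ⟨g1, a1, a2, a3⟩ := hs.trans3 p1 p2 p4 huv huw hvw
    obtain ⟨g2, b1, b2, b3⟩ := hs.trans3 q1 q2 q4 huv huw hvw
    have hx : g1 • d ≠ u ∧ g1 • d ≠ v ∧ g1 • d ≠ w :=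
      ⟨fun h => p3 (MulAction.injective g1 (a1.trans h.symm)),
        fun h => p5 (MulAction.injective g1 (a2.trans h.symm)),
        fun h => p6 (MulAction.injective g1 (a3.trans h.symm))⟩
    have hy : g2 • d' ≠ u ∧ g2 • d' ≠ v ∧ g2 • d' ≠ w :=
      ⟨fun h => q3 (MulAction.injective g2 (b1.trans h.symm)),
        fun h => q5 (MulAction.injective g2 (b2.trans h.symm)),
        fun h => q6 (MulAction.injective g2 (b3.trans h.symm))⟩
    obtain ⟨⟨g, hg⟩, hgw, hgd⟩ := h2t ⟨g1 • d, (hmemO _).2 ⟨hx.1, hx.2.1⟩⟩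
      ⟨g2 • d', (hmemO _).2 ⟨hy.1, hy.2.1⟩⟩
      (fun h => hx.2.2 (Subtype.ext_iff.1 h)) (fun h => hy.2.2 (Subtype.ext_iff.1 h))
    have hgw' : g • w = w := Subtype.ext_iff.1 hgw
    have hgd' : g • g1 • d = g2 • d' := Subtype.ext_iff.1 hgd
    refine ⟨((g2⁻¹ * g * g1 : G) : Equiv.Perm α), SetLike.coe_mem _, ?_, ?_, ?_, ?_⟩
    · change (g2⁻¹ * g * g1) • a = a'
      rw [mul_smul, mul_smul, a1, show g • u = u from hg.1, inv_smul_eq_iff, b1]
    · change (g2⁻¹ * g * g1) • b = b'
      rw [mul_smul, mul_smul, a2, show g • v = v from hg.2, inv_smul_eq_iff, b2]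
    · change (g2⁻¹ * g * g1) • c = c'
      rw [mul_smul, mul_smul, a3, hgw', inv_smul_eq_iff, b3]
    · change (g2⁻¹ * g * g1) • d = d'
      rw [mul_smul, mul_smul, hgd', inv_smul_smul]
  · -- quadruple system
    exfalso
    refine no_quad hs hk ⟨u, v, w, huv, huw, hvw, ?_⟩
    have key : ∀ z (hz : z ∈ MulAction.orbit H w),
        Rel (M.subgroupOf H) w' ⟨z, hz⟩ ↔ z ∈ clos G Δ {u, v, w} := by
      intro z hz
      have hF : ∀ (x : α) (hx : x ∈ MulAction.orbit H w),
          (⟨x, hx⟩ : MulAction.orbit H w) ∈ fixF (M.subgroupOf H) ↔ x ∈ Δ := by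
        intro x hx
        rw [mem_fixF]
        constructor
        · intro h
          rw [← hs.fixEq, mem_fixF]
          exact fun m hm => Subtype.ext_iff.1 (h ⟨m, hMH hm⟩ hm)
        · exact fun h m hm => Subtype.ext (hs.mem_iff.1 hm x h)
      constructor
      · intro hR
        refine mem_clos.2 fun g hg => ?_
        have hin : ∀ x ∈ ({u, v, w} : Finset α), g • x ∈ Δ := fun x hx =>
          hg (Finset.smul_mem_smul_finset hx)
        obtain ⟨h, h1, h2⟩ := hs.witt (S := {u, v}) (g := g⁻¹)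
          (by simp [Finset.insert_subset_iff, hu, hv])
          (by
            intro x hx
            rw [Finset.mem_inv_smul_finset_iff]
            exact hin x (by simp only [Finset.mem_insert, Finset.mem_singleton] at hx ⊢; tauto))
        have hhH : h⁻¹ ∈ H := H.inv_mem ⟨h1 u (by simp), h1 v (by simp)⟩
        have hiff : ∀ x : α, h⁻¹ • x ∈ Δ ↔ g • x ∈ Δ := fun x => by
          rw [Finset.inv_smul_mem_iff, h2, Finset.mem_inv_smul_finset_iff]
        have hmemh : ∀ x ∈ MulAction.orbit H w, h⁻¹ • x ∈ MulAction.orbit H w :=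
          fun x hx => MulAction.mem_orbit_of_mem_orbit (⟨h⁻¹, hhH⟩ : H) hx
        rw [← hiff]
        exact (hF _ (hmemh z hz)).1 (hR ⟨h⁻¹, hhH⟩
          ((hF _ (hmemh w (MulAction.mem_orbit_self w))).2 ((hiff w).2 (hin w (by simp)))))
      · rintro hcl ⟨h, hh⟩ hhw
        refine (hF _ _).2 (mem_clos.1 hcl h fun y hy => ?_)
        obtain ⟨x, hx, rfl⟩ := Finset.mem_smul_finset.1 hy
        simp only [Finset.mem_insert, Finset.mem_singleton] at hx
        rcases hx with rfl | rfl | rfl
        · rw [show h • x = x from hh.1]; exact hu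
        · rw [show h • x = x from hh.2]; exact hv
        · exact (hF _ _).1 hhw
    have hset : clos G Δ {u, v, w} = {u, v, w, (d : α)} := by
      ext z
      by_cases hz : z = u ∨ z = v
      · constructor
        · intro _; simp only [Finset.mem_insert]; tauto
        · intro _; rcases hz with rfl | rfl <;> exact subset_clos _ (by simp)
      · simp only [not_or] at hz
        rw [← key z ((hmemO z).2 hz), hrel]
        simp [Subtype.ext_iff, hz.1, hz.2, hw']
    have hdu := (hmemO d).1 d.2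
    have hdw : (d : α) ≠ w := fun h => hd (Subtype.ext h)
    rw [hset, Finset.card_insert_of_notMem (by simp [huv, huw, Ne.symm hdu.1]),
      three_card hvw (Ne.symm hdu.2) (Ne.symm hdw)]
  · -- a graph
    exfalso
    have hLiff : ∀ (x y : MulAction.orbit H w), L x y ↔ OddQ G u v x y := by
      intro x y
      rw [hL]
      have hx := (hmemO x).1 x.2
      have hy := (hmemO y).1 y.2
      have horb : (orb (MulAction.stabilizer H x) y).card =
          (orb (MulAction.stabilizer G u ⊓ MulAction.stabilizer G v ⊓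
            MulAction.stabilizer G (x : α)) (y : α)).card := by
        rw [← Finset.card_map (Function.Embedding.subtype _)]
        congr 1
        ext z
        simp only [Finset.mem_map, Function.Embedding.coe_subtype, mem_orb]
        constructor
        · rintro ⟨_, ⟨⟨g, hg⟩, hgx, rfl⟩, rfl⟩
          exact ⟨g, ⟨hg, Subtype.ext_iff.1 hgx⟩, rfl⟩
        · rintro ⟨g, ⟨hg, hgx⟩, rfl⟩
          exact ⟨⟨g • (y : α), MulAction.mem_orbit_of_mem_orbit (⟨g, hg⟩ : H) y.2⟩,
            ⟨⟨g, hg⟩, Subtype.ext hgx, rfl⟩, rfl⟩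
      rw [horb]
      constructor
      · rintro ⟨hne, ho⟩
        exact ⟨⟨huv, Ne.symm hx.1, Ne.symm hy.1, Ne.symm hx.2, Ne.symm hy.2,
          fun h => hne (Subtype.ext h)⟩, ho⟩
      · rintro ⟨hd4, ho⟩
        exact ⟨fun h => hd4.2.2.2.2.2 (congrArg Subtype.val h), ho⟩
    have move : ∀ x y : α, x ≠ y → ∃ g : G, g • x = u ∧ g • y = v ∧
        ∀ z t, (OddQ G x y z t ↔ OddQ G u v (g • z) (g • t)) := by
      intro x y hxy
      obtain ⟨g, e1, e2⟩ := hs.trans2 hxy huv
      refine ⟨g, e1, e2, fun z t => ⟨fun h => e1 ▸ e2 ▸ oddQ_smul g h, fun h => ?_⟩⟩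
      have := oddQ_smul g⁻¹ h
      rwa [← e1, ← e2, inv_smul_smul, inv_smul_smul, inv_smul_smul, inv_smul_smul] at this
    have hsym34 : ∀ {x y z t : α}, OddQ G x y z t → OddQ G x y t z := by
      intro x y z t h
      obtain ⟨g, -, -, hg⟩ := move x y h.1.1
      rw [hg] at h ⊢
      obtain ⟨⟨-, h2, h3, h4, h5, h6⟩, -⟩ := id h
      exact (hLiff ⟨g • t, (hmemO _).2 ⟨Ne.symm h3, Ne.symm h5⟩⟩
        ⟨g • z, (hmemO _).2 ⟨Ne.symm h2, Ne.symm h4⟩⟩).1 (hsym _ _
          ((hLiff ⟨g • z, _⟩ ⟨g • t, _⟩).2 h))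
    -- exactly one rule
    have hone : ∀ {x y c d e : α}, OddQ G x y c d → e ≠ x → e ≠ y → e ≠ c → e ≠ d →
        (OddQ G x y c e ↔ ¬ OddQ G x y d e) := by
      intro x y c d e h hex hey hec hed
      obtain ⟨g, e1, e2, hg⟩ := move x y h.1.1
      have hne : ∀ t, t ≠ x → t ≠ y → g • t ∈ MulAction.orbit H w := fun t htx hty =>
        (hmemO _).2 ⟨fun he => htx (MulAction.injective g (he.trans e1.symm)),
          fun he => hty (MulAction.injective g (he.trans e2.symm))⟩
      obtain ⟨⟨-, h2, h3, h4, h5, h6⟩, -⟩ := id h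
      set C : MulAction.orbit H w := ⟨g • c, hne c (Ne.symm h2) (Ne.symm h4)⟩
      set D : MulAction.orbit H w := ⟨g • d, hne d (Ne.symm h3) (Ne.symm h5)⟩
      set E : MulAction.orbit H w := ⟨g • e, hne e hex hey⟩
      have hCD : L C D := (hLiff C D).2 ((hg c d).1 h)
      rw [hg c e, hg d e, ← hLiff C E, ← hLiff D E]
      refine ⟨fun h1 => htri C D E hCD h1, fun h1 => ?_⟩
      by_contra h2'
      exact hco C E D (fun he => h6 (MulAction.injective g (Subtype.ext_iff.1 he))) h2'
        (fun he => h1 (hsym _ _ he)) hCD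
    obtain ⟨x₀, y₀, he⟩ := hedge
    rw [hLiff] at he
    obtain ⟨e, he'⟩ := exists_notMem_of_card_lt (s := {u, v, (x₀ : α), (y₀ : α)})
      (lt_of_le_of_lt Finset.card_le_four (by omega))
    simp only [Finset.mem_insert, Finset.mem_singleton, not_or] at he'
    obtain ⟨heu, hev, hex, hey⟩ := he'
    -- three links
    have k1 := hone he heu hev hex hey
    have q2 : OddQ G u x₀ v y₀ := oddQ_swap23.1 he
    have k2 := hone q2 heu hex hev hey
    have q3 : OddQ G u y₀ v x₀ := oddQ_swap23.1 (hsym34 he)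
    have k3 := hone q3 heu hey hev hex
    have r1 : OddQ G u x₀ v e ↔ OddQ G u v x₀ e := oddQ_swap23
    have r2 : OddQ G u y₀ v e ↔ OddQ G u v y₀ e := oddQ_swap23
    have r3 : OddQ G u x₀ y₀ e ↔ OddQ G u y₀ x₀ e := oddQ_swap23
    by_cases A1 : OddQ G u v x₀ e <;> by_cases A2 : OddQ G u v y₀ e <;>
      by_cases A3 : OddQ G u x₀ y₀ e <;> tauto

end Cfsg.Agent.H26.Pro
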