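import Cfsg.Agent.H26.Pro.Extremal

/-!
# The case `n = 2 f + 2`
-/

set_option linter.unusedSectionVars false
set_option linter.style.haveILetI false

namespace Cfsg.Agent.H26.Pro

open Finset
open scoped Pointwise

variable {H : Type*} [Group H] {β : Type*} [MulAction H β] [Fintype β] [DecidableEq β]

theorem smul_orb_stabilizer (g : H) (a b : β) :
    g • orb (MulAction.stabilizer H a) b = orb (MulAction.stabilizer H (g • a)) (g • b) := by
  ext y
  rw [← Finset.inv_smul_mem_iff, mem_orb, mem_orb]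
  constructor
  · rintro ⟨h, hh, he⟩
    refine ⟨g * h * g⁻¹, ?_, ?_⟩
    · rw [MulAction.mem_stabilizer_iff, mul_smul, mul_smul, inv_smul_smul,
        MulAction.mem_stabilizer_iff.1 hh]
    · rw [mul_smul, mul_smul, inv_smul_smul, he, smul_inv_smul]
  · rintro ⟨h, hh, he⟩
    refine ⟨g⁻¹ * h * g, ?_, ?_⟩
    · rw [MulAction.mem_stabilizer_iff, mul_smul, mul_smul,
        MulAction.mem_stabilizer_iff.1 hh, inv_smul_smul]
    · rw [mul_smul, mul_smul, he]

/-- `extremal`, for an orbit of a subgroup containing `K`. -/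
theorem orb_extremal [Finite H] {n : ℕ} (IH : BndLt n) (hn : Fintype.card β ≤ n)
    {K S : Subgroup H} (hK : IsPron K) (hKS : K ≤ S) {o : β}
    (hmv : ∃ c ∈ orb S o, c ∉ fixF K)
    (hs : (orb S o).card = 2 * (orb S o ∩ fixF K).card + 1) {a : β} (hao : a ∈ orb S o)
    (ha : a ∈ fixF K) {b c : β} (hb : b ∈ orb S o) (hba : b ≠ a) (hc : c ∈ orb S o)
    (hca : c ≠ a) : ∃ g ∈ S, g • a = a ∧ g • b = c := by
  haveI : Fintype (MulAction.orbit S o) := Fintype.ofFinite _
  have hcard : Fintype.card (MulAction.orbit S o) = (orb S o).card := by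
    rw [← Set.toFinset_card]; unfold orb; convert rfl
  have hmem : ∀ x, x ∈ orb S o → x ∈ MulAction.orbit S o := fun x hx => by
    simpa [orb] using hx
  have hmv' : Moves (MulAction.orbit S o) (K.subgroupOf S) := by
    obtain ⟨c, hc, hcm⟩ := hmv
    simp only [mem_fixF, not_forall] at hcm
    obtain ⟨k, hk, hkc⟩ := hcm
    exact ⟨⟨k, hKS hk⟩, hk, ⟨c, hmem c hc⟩, fun he => hkc (Subtype.ext_iff.1 he)⟩
  have hf : (fixF (β := MulAction.orbit S o) (K.subgroupOf S)).card =
      (orb S o ∩ fixF K).card := by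
    rw [← Finset.card_map (Function.Embedding.subtype _)]
    congr 1
    ext d
    simp only [Finset.mem_map, Function.Embedding.coe_subtype, Finset.mem_inter, mem_fixF]
    constructor
    · rintro ⟨⟨e, he⟩, hfix, rfl⟩
      refine ⟨?_, fun k hk => Subtype.ext_iff.1 (hfix ⟨k, hKS hk⟩ hk)⟩
      obtain ⟨⟨h, hh⟩, h'⟩ := he
      exact mem_orb.2 ⟨h, hh, h'⟩
    · rintro ⟨hd, hfix⟩
      exact ⟨⟨d, hmem d hd⟩, fun k hk => Subtype.ext (hfix k hk), rfl⟩
  have hlen : Fintype.card (MulAction.orbit S o) ≤ n := by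
    rw [hcard]; exact (Finset.card_le_univ _).trans hn
  obtain ⟨⟨g, hg⟩, h1, h2⟩ := extremal IH hlen (hK.subgroupOf hKS) hmv'
    (by rw [hcard, hf, hs]) (a := ⟨a, hmem a hao⟩)
    (mem_fixF.2 fun k hk => Subtype.ext (mem_fixF.1 ha k hk))
    (b := ⟨b, hmem b hb⟩) (c := ⟨c, hmem c hc⟩)
    (fun h => hba (Subtype.ext_iff.1 h)) (fun h => hca (Subtype.ext_iff.1 h))
  exact ⟨g, hg, Subtype.ext_iff.1 h1, Subtype.ext_iff.1 h2⟩

/-- slack two: doubly transitive, or classes of size two, or a graph without triangles in which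
non-adjacency is transitive. -/
theorem slack_two [Finite H] [ht : MulAction.IsPretransitive H β] {n : ℕ} (IH : BndLt n)
    (hn : Fintype.card β ≤ n) {K : Subgroup H} (hK : IsPron K) (hm : Moves β K)
    (hs : Fintype.card β = 2 * (fixF (β := β) K).card + 2) {a : β} (ha : a ∈ fixF K) :
    (∀ b c : β, b ≠ a → c ≠ a → ∃ g : H, g • a = a ∧ g • b = c) ∨
    (∃ b, b ≠ a ∧ ∀ c, Rel K a c ↔ c = a ∨ c = b) ∨
    ∃ L : β → β → Prop,
      (∀ u v, L u v ↔ u ≠ v ∧ Odd (orb (MulAction.stabilizer H u) v).card) ∧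
      (∀ u v, L u v → L v u) ∧ (∀ u v w, L u v → L u w → ¬ L v w) ∧ (∃ u v, L u v) ∧
      (∀ u v w, u ≠ w → ¬ L u v → ¬ L v w → ¬ L u w) := by
  classical
  by_cases hrel : ∃ b, b ≠ a ∧ Rel K a b
  · right; left
    obtain ⟨b, hb, hR⟩ := hrel
    have hsub : {a, b} ⊆ cls (Rel K) a :=
      Finset.insert_subset (mem_cls.2 (Rel.refl K a)) (by simpa using mem_cls.2 hR)
    have h2 : 2 ≤ (cls (Rel K) a).card := by
      have := Finset.card_le_card hsub
      rwa [Finset.card_pair (Ne.symm hb)] at this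
    have hle := rel_class_bound IH hn hK hm ha h2
    have heq := Finset.eq_of_subset_of_card_le hsub (by rw [Finset.card_pair (Ne.symm hb)]; omega)
    refine ⟨b, hb, fun c => ?_⟩
    rw [show Rel K a c ↔ c ∈ cls (Rel K) a from mem_cls.symm, ← heq]; simp
  by_cases htr : ∀ b c : β, b ≠ a → c ≠ a → ∃ g : H, g • a = a ∧ g • b = c
  · exact Or.inl htr
  right; right
  -- suborbits
  have hnorel : ∀ u ∈ fixF (β := β) K, ∀ b, b ≠ u → ¬ Rel K u b := by
    intro u hu b hb hR
    obtain ⟨g, hg⟩ := ht.exists_smul_eq u a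
    exact hrel ⟨g • b, fun h => hb (MulAction.injective g (h.trans hg.symm)), hg ▸ hR.smul g⟩
  have hTu : ∀ u ∈ fixF (β := β) K, ∀ b, b ≠ u →
      ∃ c ∈ orb (MulAction.stabilizer H u) b, c ∉ fixF K :=
    fun u hu b hb => exists_moved_of_not_rel hK hu (hnorel u hu b hb)
  set S := MulAction.stabilizer H a
  obtain ⟨hbd, hsz, hfx⟩ := step IH hn hK ha (hTu a ha)
  set P := orbitsAway S a with hPdef
  have hmemP : ∀ y, y ≠ a → orb S y ∈ P := fun y hy =>
    Finset.mem_image_of_mem _ (Finset.mem_erase.2 ⟨hy, mem_univ _⟩)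
  have hP2 : 2 ≤ P.card := by
    simp only [not_forall] at htr
    obtain ⟨b, c, hb, hc, hne⟩ := htr
    refine Finset.one_lt_card.2 ⟨_, hmemP b hb, _, hmemP c hc, fun h => hne ?_⟩
    exact mem_orb.1 (h ▸ self_mem_orb S c)
  -- there is an odd suborbit
  have hsl : ∑ O ∈ P, (O.card - 2 * (O ∩ fixF K).card) = 3 := by
    have : ∑ O ∈ P, O.card = (∑ O ∈ P, (O.card - 2 * (O ∩ fixF K).card)) +
        2 * ∑ O ∈ P, (O ∩ fixF K).card := by
      rw [Finset.mul_sum, ← Finset.sum_add_distrib]
      refine Finset.sum_congr rfl fun O hO => ?_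
      have := hbd O hO; omega
    omega
  obtain ⟨O, hOP, hO1⟩ : ∃ O ∈ P, O.card = 2 * (O ∩ fixF K).card + 1 := by
    by_contra hno
    simp only [not_exists, not_and] at hno
    have : P.card • 2 ≤ ∑ O ∈ P, (O.card - 2 * (O ∩ fixF K).card) := by
      refine Finset.card_nsmul_le_sum P _ 2 fun O hO => ?_
      have := hbd O hO; have := hno O hO; omega
    simp only [smul_eq_mul] at this
    omega
  obtain ⟨b, hb', hbO⟩ := Finset.mem_image.1 hOP
  have hba : b ≠ a := (Finset.mem_erase.1 hb').1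
  have hKS : K ≤ S := le_stabilizer_of_mem_fixF ha
  -- properties of odd suborbits
  have hodd : ∀ O' ∈ P, O'.card = 2 * (O' ∩ fixF K).card + 1 → 3 ≤ O'.card ∧
      ∀ u v u' v', u ∈ O' → v ∈ O' → u' ∈ O' → v' ∈ O' → u ≠ v → u' ≠ v' →
        ∃ g ∈ S, g • u = u' ∧ g • v = v' := by
    intro O' hO' hO'1
    obtain ⟨o, ho, rfl⟩ := Finset.mem_image.1 hO'
    have hoa := (Finset.mem_erase.1 ho).1
    obtain ⟨c, hc, hcm⟩ := hTu a ha o hoa
    have hc2 : 2 ≤ (orb S o).card := by
      simp only [mem_fixF, not_forall] at hcm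
      obtain ⟨k, hk, hkc⟩ := hcm
      refine Finset.one_lt_card.2 ⟨k • c, ?_, c, hc, hkc⟩
      rw [← orb_eq_of_mem hc]
      exact mem_orb.2 ⟨k, hKS hk, rfl⟩
    refine ⟨by omega, fun u v u' v' hu hv hu' hv' huv huv' => ?_⟩
    obtain ⟨a', ha'⟩ : (orb S o ∩ fixF K).Nonempty := Finset.card_pos.1 (by omega)
    rw [Finset.mem_inter] at ha'
    obtain ⟨g, hg, hgu⟩ := mem_orb.1 ((orb_eq_of_mem hu).symm ▸ ha'.1 : a' ∈ orb S u)
    obtain ⟨g', hg', hgu'⟩ := mem_orb.1 ((orb_eq_of_mem hu').symm ▸ ha'.1 : a' ∈ orb S u')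
    have hin : ∀ x ∈ orb S o, ∀ h ∈ S, h • x ∈ orb S o := fun x hx h hh => by
      rw [← orb_eq_of_mem hx]; exact mem_orb.2 ⟨h, hh, rfl⟩
    obtain ⟨h, hh, h1, h2⟩ := orb_extremal IH hn hK hKS ⟨c, hc, hcm⟩ hO'1 ha'.1 ha'.2
      (hin v hv g hg) (fun e => huv (MulAction.injective g (hgu.trans e.symm)))
      (hin v' hv' g' hg') (fun e => huv' (MulAction.injective g' (hgu'.trans e.symm)))
    refine ⟨g'⁻¹ * h * g, S.mul_mem (S.mul_mem (S.inv_mem hg') hh) hg, ?_, ?_⟩
    · rw [mul_smul, mul_smul, hgu, h1, inv_smul_eq_iff, hgu']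
    · rw [mul_smul, mul_smul, h2, inv_smul_smul]
  obtain ⟨hO3, hpair⟩ := hodd O hOP hO1
  set R : β → β → Prop := fun x y => ∃ g : H, g • a = x ∧ g • b = y with hR
  have hinv : ∀ (g : H) (x y : β), R x y → R (g • x) (g • y) := by
    rintro g x y ⟨h, rfl, rfl⟩; exact ⟨g * h, mul_smul _ _ _, mul_smul _ _ _⟩
  have hout : outN R a = O := by
    rw [← hbO]; ext y; rw [mem_outN, mem_orb]; exact Iff.rfl
  have hirr : ∀ x, ¬ R x x := by
    rintro x ⟨h, h1, h2⟩; exact hba (MulAction.injective h (h2.trans h1.symm))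
  -- no edge inside a neighbourhood
  have hmono : ∀ u ∈ O, ∀ v ∈ O, ¬ R u v := by
    intro u hu v hv huvR
    have huv : u ≠ v := fun e => hirr v (e ▸ huvR)
    have hall : ∀ u' ∈ O, ∀ v' ∈ O, u' ≠ v' → R u' v' := by
      intro u' hu' v' hv' hne
      obtain ⟨g, -, h1, h2⟩ := hpair u v u' v' hu hv hu' hv' huv hne
      exact h1 ▸ h2 ▸ hinv g _ _ huvR
    have hsym : ∀ x y, R x y → R y x := by
      obtain ⟨g, h1, h2⟩ := hall v hv u hu (Ne.symm huv)
      obtain ⟨g', h1', h2'⟩ := hall u hu v hv huv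
      have hba' : R b a := ⟨g'⁻¹ * g, by rw [mul_smul, h1, ← h2', inv_smul_smul],
        by rw [mul_smul, h2, ← h1', inv_smul_smul]⟩
      rintro x y ⟨h, rfl, rfl⟩
      exact hinv h _ _ hba'
    have hnb : ∀ x y z, R x y → R x z → y ≠ z → R y z := by
      intro x y z hy hz hne
      obtain ⟨g, rfl⟩ := ht.exists_smul_eq a x
      have hy' : g⁻¹ • y ∈ O := by
        rw [← hout, mem_outN]; simpa using hinv g⁻¹ _ _ hy
      have hz' : g⁻¹ • z ∈ O := by
        rw [← hout, mem_outN]; simpa using hinv g⁻¹ _ _ hz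
      have := hinv g _ _ (hall _ hy' _ hz' fun e => hne ((MulAction.injective g⁻¹) e))
      simpa using this
    set r : β → β → Prop := fun x y => x = y ∨ R x y
    have hr : Equivalence r := by
      refine ⟨fun x => Or.inl rfl, ?_, ?_⟩
      · rintro x y (rfl | h)
        exacts [Or.inl rfl, Or.inr (hsym _ _ h)]
      · rintro x y z (rfl | h) h'
        · exact h'
        rcases h' with rfl | h'
        · exact Or.inr h
        by_cases hxz : x = z
        · exact Or.inl hxz
        · exact Or.inr (hnb y x z (hsym _ _ h) h' hxz)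
    have hcls : cls r a = insert a O := by
      ext y; rw [mem_cls, Finset.mem_insert, ← hout, mem_outN]
      exact or_congr eq_comm Iff.rfl
    have haO : a ∉ O := fun h => hirr a (mem_outN.1 (hout.symm ▸ h))
    obtain ⟨O', hO', hne'⟩ := Finset.exists_mem_ne hP2 O
    obtain ⟨c, hc, rfl⟩ := Finset.mem_image.1 hO'
    refine block_slack_even IH hn hK hm r hr (fun g x y h => h.imp (congrArg _) (hinv g x y)) a
      ?_ ?_ ⟨c, ?_⟩ (by omega)
    · rw [hcls, Finset.card_insert_of_notMem haO, hO1]; exact ⟨(O ∩ fixF K).card + 1, by ring⟩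
    · rw [hcls, Finset.card_insert_of_notMem haO]; omega
    · rintro (h | h)
      · exact (Finset.mem_erase.1 hc).1 h.symm
      · apply hne'
        rw [← hbO]
        exact orb_eq_of_mem (hbO.symm ▸ (hout ▸ mem_outN.2 h : c ∈ O))
  -- the colour of the pairs inside `O` gives a suborbit with larger slack
  obtain ⟨u, v, w, hu, hv, hw, huv, huw, hvw⟩ := Finset.two_lt_card_iff.1 (by omega : 2 < O.card)
  obtain ⟨g, hg⟩ := ht.exists_smul_eq u a
  have hgv : g • v ≠ a := fun e => huv (MulAction.injective g (hg.trans e.symm))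
  set O' := orb S (g • v) with hO'def
  have hO'P : O' ∈ P := hmemP _ hgv
  have hO'ne : O' ≠ O := by
    intro e
    have : R a (g • v) := mem_outN.1 (hout.symm ▸ (e ▸ self_mem_orb S _ : g • v ∈ O))
    have := hinv g⁻¹ _ _ this
    rw [← hg, inv_smul_smul, inv_smul_smul] at this
    exact hmono u hu v hv this
  have hO'2 : 2 * (O' ∩ fixF K).card + 2 ≤ O'.card := by
    by_contra hlt
    have hO'1 : O'.card = 2 * (O' ∩ fixF K).card + 1 := by have := hbd O' hO'P; omega
    obtain ⟨h1, hS1, e1, e2⟩ := hpair u v u w hu hv hu hw huv huw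
    obtain ⟨h2, hS2, f1, f2⟩ := hpair u v v w hu hv hv hw huv hvw
    have hgw : g • w ∈ O' := by
      refine mem_orb.2 ⟨g * h1 * g⁻¹, ?_, ?_⟩
      · rw [MulAction.mem_stabilizer_iff, ← hg, mul_smul, mul_smul, inv_smul_smul, e1]
      · rw [mul_smul, mul_smul, inv_smul_smul, e2]
    have hgvw : g • v ≠ g • w := fun e => hvw (MulAction.injective g e)
    obtain ⟨-, hpair'⟩ := hodd O' hO'P hO'1
    -- the colour of `O'` is its own orbital
    set R' : β → β → Prop := fun x y => ∃ h : H, h • a = x ∧ h • (g • v) = y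
    have hinv' : ∀ (h : H) (x y : β), R' x y → R' (h • x) (h • y) := by
      rintro h x y ⟨h', rfl, rfl⟩; exact ⟨h * h', mul_smul _ _ _, mul_smul _ _ _⟩
    have hout' : outN R' a = O' := by
      ext y; rw [mem_outN, hO'def, mem_orb]; exact Iff.rfl
    have hR' : R' (g • v) (g • w) :=
      ⟨g * h2 * g⁻¹, by rw [← hg, mul_smul, mul_smul, inv_smul_smul, f1],
        by rw [mul_smul, mul_smul, inv_smul_smul, f2]⟩
    have hall : ∀ x ∈ O', ∀ y ∈ O', x ≠ y → R' x y := by
      intro x hx y hy hne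
      obtain ⟨h, -, i1, i2⟩ := hpair' _ _ x y (self_mem_orb S _) hgw hx hy hgvw hne
      exact i1 ▸ i2 ▸ hinv' h _ _ hR'
    have hga : a ≠ g • v := Ne.symm hgv
    have hsym : ∀ x y, R' x y → R' y x := by
      obtain ⟨h, h1, h2⟩ := hall _ hgw _ (self_mem_orb S _) (Ne.symm hgvw)
      obtain ⟨h', h1', h2'⟩ := hR'
      have hba' : R' (g • v) a := ⟨h'⁻¹ * h, by rw [mul_smul, h1, ← h2', inv_smul_smul],
        by rw [mul_smul, h2, ← h1', inv_smul_smul]⟩
      rintro x y ⟨i, rfl, rfl⟩
      exact hinv' i _ _ hba'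
    set r : β → β → Prop := fun x y => x = y ∨ R' x y
    have hirr' : ∀ x, ¬ R' x x := by
      rintro x ⟨h, i1, i2⟩; exact hgv (MulAction.injective h (i2.trans i1.symm))
    have hnb : ∀ x y z, R' x y → R' x z → y ≠ z → R' y z := by
      intro x y z hy hz hne
      obtain ⟨i, rfl⟩ := ht.exists_smul_eq a x
      have hy' : i⁻¹ • y ∈ O' := by
        rw [← hout', mem_outN]; simpa using hinv' i⁻¹ _ _ hy
      have hz' : i⁻¹ • z ∈ O' := by
        rw [← hout', mem_outN]; simpa using hinv' i⁻¹ _ _ hz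
      have := hinv' i _ _ (hall _ hy' _ hz' fun e => hne ((MulAction.injective i⁻¹) e))
      simpa using this
    have hr : Equivalence r := by
      refine ⟨fun x => Or.inl rfl, ?_, ?_⟩
      · rintro x y (rfl | h)
        exacts [Or.inl rfl, Or.inr (hsym _ _ h)]
      · rintro x y z (rfl | h) h'
        · exact h'
        rcases h' with rfl | h'
        · exact Or.inr h
        by_cases hxz : x = z
        · exact Or.inl hxz
        · exact Or.inr (hnb y x z (hsym _ _ h) h' hxz)
    have hcls : cls r a = insert a O' := by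
      ext y; rw [mem_cls, Finset.mem_insert, ← hout', mem_outN]
      exact or_congr eq_comm Iff.rfl
    have haO : a ∉ O' := fun h => hirr' a (mem_outN.1 (hout'.symm ▸ h))
    refine block_slack_even IH hn hK hm r hr (fun i x y h => h.imp (congrArg _) (hinv' i x y)) a
      ?_ ?_ ⟨b, ?_⟩ (by omega)
    · rw [hcls, Finset.card_insert_of_notMem haO, hO'1]; exact ⟨(O' ∩ fixF K).card + 1, by ring⟩
    · rw [hcls, Finset.card_insert_of_notMem haO]
      have := (hodd O' hO'P hO'1).1; omega
    · rintro (h | h)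
      · exact hba h.symm
      · apply hO'ne
        rw [← hbO, hO'def]
        exact (orb_eq_of_mem (hO'def ▸ hout' ▸ mem_outN.2 h : b ∈ orb S (g • v))).symm
  -- exactly two suborbits
  have hPeq : P = {O, O'} := by
    have hsub : {O, O'} ⊆ P := Finset.insert_subset hOP (by simpa using hO'P)
    refine (Finset.eq_of_subset_of_card_le hsub ?_).symm
    rw [Finset.card_pair hO'ne.symm]
    by_contra hlt
    obtain ⟨O'', hO'', hn''⟩ := Finset.exists_mem_notMem_of_card_lt_card
      (s := ({O, O'} : Finset (Finset β))) (t := P) (by rw [Finset.card_pair hO'ne.symm]; omega)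
    have h3 : ({O, O', O''} : Finset (Finset β)) ⊆ P := by
      refine Finset.insert_subset hOP (Finset.insert_subset hO'P (by simpa using hO''))
    have := Finset.sum_le_sum_of_subset
      (f := fun T : Finset β => T.card - 2 * (T ∩ fixF K).card) h3
    simp only [Finset.mem_insert, Finset.mem_singleton, not_or] at hn''
    rw [Finset.sum_insert (by simp [hO'ne.symm, Ne.symm hn''.1]),
      Finset.sum_insert (by simp [Ne.symm hn''.2]), Finset.sum_singleton] at this
    have := hbd O'' hO''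
    omega
  rw [hPeq, Finset.sum_pair hO'ne.symm] at hsl hsz hfx
  set o := O.card with hodef
  have ho'even : O'.card = 2 * (O' ∩ fixF K).card + 2 := by omega
  -- symmetry
  have hsym : ∀ x y, R x y → R y x := by
    have hba' : R b a := by
      have hflip := sum_outN_flip R
      rw [Finset.sum_const_nat fun x _ => card_outN_eq hinv x a,
        Finset.sum_const_nat fun x _ =>
          card_outN_eq (R := fun u v => R v u) (fun i x y h => hinv i y x h) x a, hout] at hflip
      have hceq := Nat.eq_of_mul_eq_mul_left (by rw [Finset.card_univ]; omega) hflip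
      obtain ⟨i, hi⟩ := ht.exists_smul_eq b a
      have hia : i • a ≠ a := fun h => hba (MulAction.injective i (hi.trans h.symm))
      have hin : outN (fun u v => R v u) a = orb S (i • a) := by
        ext y
        rw [mem_outN, mem_orb]
        constructor
        · rintro ⟨j, rfl, hj⟩
          refine ⟨j * i⁻¹, MulAction.mem_stabilizer_iff.2 ?_, ?_⟩
          · rw [mul_smul, ← hi, inv_smul_smul, hj, hi]
          · rw [mul_smul, inv_smul_smul]
        · rintro ⟨j, hj, rfl⟩
          exact ⟨j * i, mul_smul _ _ _, by rw [mul_smul, hi]; exact MulAction.mem_stabilizer_iff.1 hj⟩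
      have hmem := hmemP _ hia
      rw [← hin, hPeq, Finset.mem_insert, Finset.mem_singleton] at hmem
      rcases hmem with h | h
      · have : b ∈ outN (fun u v => R v u) a := by rw [h, ← hbO]; exact self_mem_orb S b
        exact (mem_outN (R := fun u v => R v u)).1 this
      · rw [h] at hceq; omega
    rintro x y ⟨i, rfl, rfl⟩
    exact hinv i _ _ hba'
  -- identification of `R`
  have hLiff : ∀ u v, R u v ↔ u ≠ v ∧ Odd (orb (MulAction.stabilizer H u) v).card := by
    intro x y
    obtain ⟨i, rfl⟩ := ht.exists_smul_eq a x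
    have hy : y = i • i⁻¹ • y := (smul_inv_smul i y).symm
    rw [hy, ← smul_orb_stabilizer, Finset.card_smul_finset]
    have e1 : R (i • a) (i • i⁻¹ • y) ↔ R a (i⁻¹ • y) :=
      ⟨fun h => by simpa using hinv i⁻¹ _ _ h, hinv i _ _⟩
    rw [e1, show R a (i⁻¹ • y) ↔ i⁻¹ • y ∈ O by rw [← hout, mem_outN]]
    set z := i⁻¹ • y
    constructor
    · intro hz
      refine ⟨fun e => ?_, ?_⟩
      · have : a = z := MulAction.injective i e
        exact hirr a (mem_outN.1 (hout.symm ▸ (this.symm ▸ hz : a ∈ O)))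
      · change Odd (orb S z).card
        rw [orb_eq_of_mem (hbO.symm ▸ hz : z ∈ orb S b), hbO]
        exact ⟨(O ∩ fixF K).card, hO1⟩
    · rintro ⟨hne, hod⟩
      have hza : z ≠ a := fun e => hne (congrArg _ e.symm)
      have := hmemP z hza
      rw [hPeq, Finset.mem_insert, Finset.mem_singleton] at this
      rcases this with h | h
      · exact h ▸ self_mem_orb S z
      · change Odd (orb S z).card at hod
        rw [h, ho'even] at hod
        obtain ⟨t, ht'⟩ := hod
        omega
  have htri : ∀ u v w, R u v → R u w → ¬ R v w := by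
    intro x y z hy hz hyz
    obtain ⟨i, rfl⟩ := ht.exists_smul_eq a x
    refine hmono (i⁻¹ • y) ?_ (i⁻¹ • z) ?_ (hinv i⁻¹ _ _ hyz)
    · rw [← hout, mem_outN]; simpa using hinv i⁻¹ _ _ hy
    · rw [← hout, mem_outN]; simpa using hinv i⁻¹ _ _ hz
  -- the parameters
  have hcomm : ∀ x y, x ≠ y → ¬ R x y →
      (outN R x ∩ outN R y).card = (outN R a ∩ outN R (g • v)).card := by
    intro x y hne hxy
    obtain ⟨i, rfl⟩ := ht.exists_smul_eq a x
    have hz : i⁻¹ • y ≠ a := fun e => hne (by rw [← e, smul_inv_smul])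
    have := hmemP _ hz
    rw [hPeq, Finset.mem_insert, Finset.mem_singleton] at this
    rcases this with h | h
    · exfalso; apply hxy
      have : R a (i⁻¹ • y) := mem_outN.1 (hout.symm ▸ (h ▸ self_mem_orb S _ : i⁻¹ • y ∈ O))
      simpa using hinv i _ _ this
    · obtain ⟨j, hj, hjv⟩ := mem_orb.1
        (show i⁻¹ • y ∈ orb S (g • v) by rw [← hO'def, ← h]; exact self_mem_orb S _)
      have hy' : y = (i * j) • (g • v) := by rw [mul_smul, hjv, smul_inv_smul]
      have hx' : i • a = (i * j) • a := by rw [mul_smul, MulAction.mem_stabilizer_iff.1 hj]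
      rw [hy', hx', ← smul_outN hinv, ← smul_outN hinv, ← Finset.smul_finset_inter,
        Finset.card_smul_finset]
  set μ := (outN R a ∩ outN R (g • v)).card with hμ
  have hO'mem : ∀ y, y ∈ O' ↔ y ≠ a ∧ ¬ R a y := by
    intro y
    constructor
    · intro hy
      refine ⟨fun e => ?_, fun hRy => hO'ne ?_⟩
      · obtain ⟨j, hj, hje⟩ := mem_orb.1 (e ▸ hy : a ∈ orb S (g • v))
        exact hgv (MulAction.injective j (hje.trans (MulAction.mem_stabilizer_iff.1 hj).symm))
      · have hyO : y ∈ O := hout ▸ mem_outN.2 hRy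
        rw [hO'def, ← orb_eq_of_mem hy, orb_eq_of_mem (hbO.symm ▸ hyO : y ∈ orb S b), hbO]
    · rintro ⟨hya, hRy⟩
      have := hmemP y hya
      rw [hPeq, Finset.mem_insert, Finset.mem_singleton] at this
      rcases this with h | h
      · exact absurd (mem_outN.1 (hout.symm ▸ (h ▸ self_mem_orb S y : y ∈ O))) hRy
      · exact h ▸ self_mem_orb S y
  have hcount : O'.card * μ = o * (o - 1) := by
    have h1 : ∀ y ∈ O', (Finset.bipartiteAbove R O y).card = μ := by
      intro y hy
      obtain ⟨hya, hRy⟩ := (hO'mem y).1 hy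
      rw [← hcomm a y (Ne.symm hya) hRy, hout]
      congr 1; ext z; simp [Finset.mem_bipartiteAbove, mem_outN]
    have h2 : ∀ z ∈ O, (Finset.bipartiteBelow R O' z).card = o - 1 := by
      intro z hz
      have hRz : R a z := mem_outN.1 (hout.symm ▸ hz)
      have : Finset.bipartiteBelow R O' z = (outN R z).erase a := by
        ext y
        simp only [Finset.mem_bipartiteBelow, Finset.mem_erase, mem_outN, hO'mem]
        constructor
        · rintro ⟨⟨hya, -⟩, h⟩; exact ⟨hya, hsym _ _ h⟩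
        · rintro ⟨hya, h⟩
          exact ⟨⟨hya, fun h' => htri a z y hRz h' h⟩, hsym _ _ h⟩
      rw [this, Finset.card_erase_of_mem (mem_outN.2 (hsym _ _ hRz)), card_outN_eq hinv z a, hout]
    have := Finset.sum_card_bipartiteAbove_eq_sum_card_bipartiteBelow (s := O') (t := O) R
    rwa [Finset.sum_const_nat h1, Finset.sum_const_nat h2] at this
  -- inside `Fix K`
  set f₁ := (O ∩ fixF K).card
  set f₂ := (O' ∩ fixF K).card
  set F := fixF (β := β) K with hF
  have hin : ∀ x ∈ F, (outN R x ∩ F).card = f₁ := by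
    intro x hx
    obtain ⟨i, hi⟩ := ht.exists_smul_eq a x
    have e1 : outN R x = orb (MulAction.stabilizer H x) (i • b) := by
      rw [← hi, ← smul_orb_stabilizer, ← smul_outN hinv, hout, hbO]
    set O'' := orb (MulAction.stabilizer H x) (i • (g • v))
    have e2 : O''.card = O'.card := by
      simp only [O'', ← hi, ← smul_orb_stabilizer, Finset.card_smul_finset]; rfl
    have hix : i • b ≠ x := fun e => hba (MulAction.injective i (e.trans hi.symm))
    have hiv : i • (g • v) ≠ x := fun e => hgv (MulAction.injective i (e.trans hi.symm))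
    have b1 := orb_bound IH hK (le_stabilizer_of_mem_fixF hx)
      (orb_card_lt (not_mem_orb_stabilizer hix) hn) (hTu x hx _ hix)
    have b2 := orb_bound IH hK (le_stabilizer_of_mem_fixF hx)
      (orb_card_lt (not_mem_orb_stabilizer hiv) hn) (hTu x hx _ hiv)
    rw [← e1, card_outN_eq hinv x a, hout] at b1
    change 2 * (outN R x ∩ F).card + 1 ≤ o at b1
    change 2 * (O'' ∩ F).card + 1 ≤ O''.card at b2
    have hsubF : F.erase x ⊆ (outN R x ∩ F) ∪ (O'' ∩ F) := by
      intro y hy
      obtain ⟨hyx, hyF⟩ := Finset.mem_erase.1 hy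
      simp only [Finset.mem_union, Finset.mem_inter, hyF, and_true]
      by_cases hR' : R x y
      · exact Or.inl (mem_outN.2 hR')
      · right
        have : i⁻¹ • y ∈ O' := by
          refine (hO'mem _).2 ⟨fun e => hyx ?_, fun h => hR' ?_⟩
          · rw [← hi, ← e, smul_inv_smul]
          · have := hinv i _ _ h; rwa [hi, smul_inv_smul] at this
        simp only [O'', ← hi, ← smul_orb_stabilizer, ← Finset.inv_smul_mem_iff]
        exact this
    have hcardF := (Finset.card_le_card hsubF).trans (Finset.card_union_le _ _)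
    rw [Finset.card_erase_of_mem hx] at hcardF
    have : F.card = f₁ + f₂ + 1 := by omega
    omega
  have hfF : F.card = f₁ + f₂ + 1 := by omega
  -- common neighbours bound
  have hd : ∀ x ∈ (univ \ F : Finset β), (Finset.bipartiteAbove R F x).card ≤ μ := by
    intro x hx
    simp only [Finset.mem_sdiff, Finset.mem_univ, true_and, hF, mem_fixF, not_forall] at hx
    obtain ⟨k, hk, hkx⟩ := hx
    by_cases h0 : (Finset.bipartiteAbove R F x).Nonempty
    · obtain ⟨z, hz⟩ := h0
      rw [Finset.mem_bipartiteAbove] at hz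
      have hkz : R (k • x) z := by
        have := hinv k _ _ hz.2; rwa [mem_fixF.1 hz.1 k hk] at this
      have hnadj : ¬ R x (k • x) := fun h => htri z x (k • x) (hsym _ _ hz.2) (hsym _ _ hkz) h
      refine le_trans ?_ (le_of_eq (hcomm x (k • x) (Ne.symm hkx) hnadj))
      refine Finset.card_le_card fun y hy => ?_
      rw [Finset.mem_bipartiteAbove] at hy
      rw [Finset.mem_inter, mem_outN, mem_outN]
      exact ⟨hy.2, by have := hinv k _ _ hy.2; rwa [mem_fixF.1 hy.1 k hk] at this⟩
    · rw [Finset.not_nonempty_iff_eq_empty.1 h0]; simp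
  have hbig : o + 1 ≤ 2 * μ := by
    have h1 := Finset.sum_card_bipartiteAbove_eq_sum_card_bipartiteBelow
      (s := (univ \ F : Finset β)) (t := F) R
    have h2 : ∀ z ∈ F, (Finset.bipartiteBelow R (univ \ F) z).card = o - f₁ := by
      intro z hz
      have : Finset.bipartiteBelow R (univ \ F) z = outN R z \ F := by
        ext y
        simp only [Finset.mem_bipartiteBelow, Finset.mem_sdiff, Finset.mem_univ, true_and,
          mem_outN]
        exact ⟨fun h => ⟨hsym _ _ h.2, h.1⟩, fun h => ⟨h.2, hsym _ _ h.1⟩⟩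
      have hc := Finset.card_sdiff_add_card_inter (outN R z) F
      rw [hin z hz, card_outN_eq hinv z a, hout] at hc
      rw [this]
      omega
    rw [Finset.sum_const_nat h2] at h1
    have h3 := Finset.sum_le_card_nsmul _ _ μ hd
    rw [h1, smul_eq_mul, Finset.card_univ_sdiff, hs, hfF] at h3
    rw [ho'even, show o = 2 * f₁ + 1 by omega] at hcount
    by_contra hlt
    have hμle : μ ≤ f₁ := by omega
    have hf1 : 1 ≤ f₁ := by omega
    rw [show o - f₁ = f₁ + 1 by omega] at h3
    rw [show 2 * (f₁ + f₂ + 1) + 2 - (f₁ + f₂ + 1) = f₁ + f₂ + 3 by omega] at h3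
    rw [show 2 * f₁ + 1 - 1 = 2 * f₁ by omega] at hcount
    have h4 : (2 * f₂ + 2) * μ ≤ (2 * f₂ + 2) * f₁ := Nat.mul_le_mul_left _ hμle
    have h5 : (f₁ + f₂ + 3) * μ ≤ (f₁ + f₂ + 3) * f₁ := Nat.mul_le_mul_left _ hμle
    nlinarith
  refine ⟨R, hLiff, hsym, htri, ⟨a, b, 1, one_smul _ _, one_smul _ _⟩, ?_⟩
  intro x y z hxz hxy hyz hxz'
  by_cases e1 : x = y
  · exact hyz (e1 ▸ hxz')
  by_cases e2 : y = z
  · exact hxy (e2 ▸ hxz')
  have h1 := hcomm x y e1 hxy
  have h2 := hcomm z y (Ne.symm e2) (fun h => hyz (hsym _ _ h))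
  have hle : ((outN R x ∩ outN R y) ∪ (outN R z ∩ outN R y)).card ≤ o := by
    rw [hodef, ← hout, ← card_outN_eq hinv y a]
    exact Finset.card_le_card (Finset.union_subset Finset.inter_subset_right
      Finset.inter_subset_right)
  have hio := Finset.card_union_add_card_inter (outN R x ∩ outN R y) (outN R z ∩ outN R y)
  obtain ⟨t, ht'⟩ : ((outN R x ∩ outN R y) ∩ (outN R z ∩ outN R y)).Nonempty :=
    Finset.card_pos.1 (by omega)
  simp only [Finset.mem_inter, mem_outN] at ht'
  exact htri t x z (hsym _ _ ht'.1.1) (hsym _ _ ht'.2.1) hxz'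

end Cfsg.Agent.H26.Pro
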