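import Cfsg.Agent.H26.Pro.Alt

/-!
# Tools for the final analysis
-/

set_option linter.unusedSectionVars false
set_option linter.style.haveILetI false

namespace Cfsg.Agent.H26.Pro

open Finset
open scoped Pointwise

theorem free_dvd {H : Type*} [Group H] [Finite H] {β : Type*} [MulAction H β] [Fintype β]
    [DecidableEq β] (P : Subgroup H) (S : Finset β) (hinv : ∀ g ∈ P, ∀ s ∈ S, g • s ∈ S)
    (hfree : ∀ g ∈ P, ∀ s ∈ S, g • s = s → g = 1) : Nat.card P ∣ S.card := by
  classical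
  rw [Finset.card_eq_sum_card_fiberwise (f := orb P) (t := S.image (orb P))
    (fun s hs => Finset.mem_image_of_mem _ hs)]
  refine Finset.dvd_sum fun O hO => ?_
  obtain ⟨s, hs, rfl⟩ := Finset.mem_image.1 hO
  have : (S.filter fun t => orb P t = orb P s) = orb P s := by
    ext t
    simp only [Finset.mem_filter]
    refine ⟨fun h => h.2 ▸ self_mem_orb P t, fun h => ⟨?_, orb_eq_of_mem h⟩⟩
    obtain ⟨g, hg, rfl⟩ := mem_orb.1 h
    exact hinv g hg s hs
  rw [this]
  haveI := Fintype.ofFinite P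
  have hinj : Function.Injective fun g : P => (g : H) • s := by
    intro g g' e
    have h1 : ((g' : H)⁻¹ * g) • s = s := by rw [mul_smul]; exact inv_smul_eq_iff.2 e
    exact (Subtype.ext (inv_mul_eq_one.1 (hfree _ (P.mul_mem (P.inv_mem g'.2) g.2) s hs h1))).symm
  have himg : (univ : Finset P).image (fun g : P => (g : H) • s) = orb P s := by
    ext t
    simp only [Finset.mem_image, Finset.mem_univ, true_and, mem_orb]
    exact ⟨fun ⟨g, e⟩ => ⟨g, g.2, e⟩, fun ⟨g, hg, e⟩ => ⟨⟨g, hg⟩, e⟩⟩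
  rw [← himg, Finset.card_image_of_injective _ hinj, Finset.card_univ, Nat.card_eq_fintype_card]

theorem pfix {H : Type*} [Group H] [Finite H] {β : Type*} [MulAction H β] [Fintype β]
    [DecidableEq β] {p : ℕ} [Fact p.Prime] {P : Subgroup H} (hP : IsPGroup p P) (S : Finset β)
    (hinv : ∀ g ∈ P, ∀ s ∈ S, g • s ∈ S) {F : Finset β}
    (hF : ∀ s, s ∈ F ↔ s ∈ S ∧ ∀ g ∈ P, g • s = s) : S.card ≡ F.card [MOD p] := by
  classical
  let A : SubMulAction P β :=
    { carrier := ↑S, smul_mem' := fun g s hs => hinv g.1 g.2 s hs }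
  have h := hP.card_modEq_card_fixedPoints A
  have e1 : Nat.card A = S.card := by
    show Nat.card {x // x ∈ (S : Set β)} = S.card
    simp
  have e2 : Nat.card (MulAction.fixedPoints P A) = F.card := by
    have hbij : (MulAction.fixedPoints P A) ≃ {x // x ∈ F} :=
      { toFun := fun x => ⟨x.1.1, (hF _).2 ⟨x.1.2, fun g hg =>
          Subtype.ext_iff.1 (x.2 ⟨g, hg⟩)⟩⟩
        invFun := fun x => ⟨⟨x.1, ((hF _).1 x.2).1⟩, fun g =>
          Subtype.ext (((hF _).1 x.2).2 g.1 g.2)⟩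
        left_inv := fun x => rfl
        right_inv := fun x => rfl }
    rw [Nat.card_congr hbij, Nat.card_eq_fintype_card, Fintype.card_coe]
  rwa [e1, e2] at h

variable {α : Type*} [Fintype α] [DecidableEq α]
variable {G : Subgroup (Equiv.Perm α)} {M : Subgroup G} {Δ : Finset α}

/-- a `p`-subgroup of `M` fixes a second block -/
theorem second_block (hs : Sit G M Δ) {p : ℕ} [Fact p.Prime] {P : Subgroup G} (hPM : P ≤ M)
    (hP : IsPGroup p P) : ∃ g : G, g • Δ ≠ Δ ∧ ∀ y ∈ P, y • g • Δ = g • Δ := by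
  classical
  by_contra hno
  simp only [not_exists, not_and] at hno
  set B : Finset (Finset α) := univ.filter fun S => ∃ g : G, g • Δ = S
  have hB : ∀ S, S ∈ B ↔ ∃ g : G, g • Δ = S := fun S => by simp [B]
  obtain ⟨a, ha⟩ := hs.nonempty
  obtain ⟨hb, -, -⟩ := blocks_card hs (a := a) B hB
  have hfixΔ : ∀ y ∈ P, y • Δ = Δ := by
    intro y hy
    refine Finset.eq_of_subset_of_card_le (fun u hu => ?_) (Finset.card_smul_finset y Δ).ge
    obtain ⟨b, hb, rfl⟩ := Finset.mem_smul_finset.1 hu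
    rwa [hs.mem_iff.1 (hPM hy) b hb]
  have huniq : ∀ S ∈ B, (∀ g ∈ P, g • S = S) → S = Δ := by
    intro S hS hfix
    obtain ⟨g, rfl⟩ := (hB S).1 hS
    by_contra hne
    exact hno g hne fun y hy => hfix y hy
  have hinv : ∀ g ∈ P, ∀ S ∈ B, g • S ∈ B := fun g _ S hS => by
    obtain ⟨h, rfl⟩ := (hB S).1 hS; exact (hB _).2 ⟨g * h, mul_smul _ _ _⟩
  have h1 := pfix hP B hinv (F := {Δ}) fun S => by
    rw [Finset.mem_singleton]
    exact ⟨fun e => e ▸ ⟨(hB Δ).2 ⟨1, one_smul _ _⟩, hfixΔ⟩, fun h => huniq S h.1 h.2⟩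
  have h2 := pfix hP (B.filter fun S => a ∈ S) (fun g hg S hS => by
    rw [Finset.mem_filter] at hS ⊢
    refine ⟨hinv g hg S hS.1, ?_⟩
    rw [← hs.mem_iff.1 (hPM hg) a ha]
    exact Finset.smul_mem_smul_finset hS.2) (F := {Δ}) fun S => by
    rw [Finset.mem_singleton, Finset.mem_filter]
    exact ⟨fun e => e ▸ ⟨⟨(hB Δ).2 ⟨1, one_smul _ _⟩, ha⟩, hfixΔ⟩, fun h => huniq S h.1.1 h.2⟩
  rw [Finset.card_singleton] at h1 h2
  rw [hb] at h1
  have h3 : 2 * 1 ≡ 1 [MOD p] := (h2.symm.mul_left 2).trans h1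
  have h4 : 1 ≡ 0 [MOD p] := Nat.ModEq.add_right_cancel' 1 h3
  exact (Fact.out : p.Prime).ne_one (Nat.dvd_one.1 (Nat.modEq_zero_iff_dvd.1 h4))

/-- the group induced on `Δ` is quadruply transitive -/
theorem res_trans4 (hs : Sit G M Δ) (hT : Trans4 G) : Trans4 (resΔ G Δ).range := by
  classical
  intro a b c d a' b' c' d' h1 h2
  have d1 : D4 (a : α) b c d := by
    obtain ⟨p1, p2, p3, p4, p5, p6⟩ := h1
    exact ⟨fun e => p1 (Subtype.ext e), fun e => p2 (Subtype.ext e), fun e => p3 (Subtype.ext e),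
      fun e => p4 (Subtype.ext e), fun e => p5 (Subtype.ext e), fun e => p6 (Subtype.ext e)⟩
  have d2 : D4 (a' : α) b' c' d' := by
    obtain ⟨p1, p2, p3, p4, p5, p6⟩ := h2
    exact ⟨fun e => p1 (Subtype.ext e), fun e => p2 (Subtype.ext e), fun e => p3 (Subtype.ext e),
      fun e => p4 (Subtype.ext e), fun e => p5 (Subtype.ext e), fun e => p6 (Subtype.ext e)⟩
  obtain ⟨g, hg, e1, e2, e3, e4⟩ := hT _ _ _ _ _ _ _ _ d1 d2
  set g' : G := ⟨g, hg⟩
  obtain ⟨h, hfix, hΔ⟩ := hs.witt (S := {(a' : α), (b' : α), (c' : α), (d' : α)}) (g := g')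
    (by simp [Finset.insert_subset_iff, a'.2, b'.2, c'.2, d'.2])
    (by
      intro u hu
      simp only [Finset.mem_insert, Finset.mem_singleton] at hu
      rcases hu with rfl | rfl | rfl | rfl
      exacts [Finset.mem_smul_finset.2 ⟨a, a.2, e1⟩, Finset.mem_smul_finset.2 ⟨b, b.2, e2⟩,
        Finset.mem_smul_finset.2 ⟨c, c.2, e3⟩, Finset.mem_smul_finset.2 ⟨d, d.2, e4⟩])
  have hmem : h⁻¹ * g' ∈ MulAction.stabilizer G Δ := by
    rw [MulAction.mem_stabilizer_iff, mul_smul, inv_smul_eq_iff, hΔ]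
  refine ⟨_, ⟨⟨_, hmem⟩, rfl⟩, ?_, ?_, ?_, ?_⟩
  · refine Subtype.ext ?_
    rw [resΔ_apply, mul_smul, inv_smul_eq_iff]
    exact e1.trans (hfix _ (by simp)).symm
  · refine Subtype.ext ?_
    rw [resΔ_apply, mul_smul, inv_smul_eq_iff]
    exact e2.trans (hfix _ (by simp)).symm
  · refine Subtype.ext ?_
    rw [resΔ_apply, mul_smul, inv_smul_eq_iff]
    exact e3.trans (hfix _ (by simp)).symm
  · refine Subtype.ext ?_
    rw [resΔ_apply, mul_smul, inv_smul_eq_iff]
    exact e4.trans (hfix _ (by simp)).symm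

/-- an element of small degree on `Δ` gives the alternating group there -/
theorem onto_of_degree (hs : Sit G M Δ) (hT : Trans4 G) (hk : 4 ≤ Δ.card) {y : G}
    (hy : y • Δ = Δ) {q : ℕ} (hq : q.Prime) (hyq : y ^ q = 1) {D : Finset α}
    (hD : ∀ a ∈ Δ, (y • a ≠ a ↔ a ∈ D)) (hDne : D.Nonempty) (hDsub : D ⊆ Δ)
    (hdeg : D.card ≤ 3 ∨ (q = 2 ∧ 2 * D.card + 4 ≤ Δ.card) ∨
      (q ≠ 2 ∧ 2 * D.card + 3 ≤ Δ.card)) :
    Onto Δ (⊤ : Subgroup (MulAction.stabilizer G Δ)) := by
  classical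
  set l : MulAction.stabilizer G Δ := ⟨y, hy⟩
  have hsupp : (resΔ G Δ l).support.card = D.card := by
    rw [← Finset.card_map (Function.Embedding.subtype _)]
    congr 1
    ext a
    simp only [Finset.mem_map, Function.Embedding.coe_subtype, Equiv.Perm.mem_support]
    constructor
    · rintro ⟨⟨b, hb⟩, hne, rfl⟩
      exact (hD b hb).1 fun e => hne (Subtype.ext e)
    · exact fun ha => ⟨⟨a, hDsub ha⟩,
        fun e => (hD a (hDsub ha)).2 ha (Subtype.ext_iff.1 e), rfl⟩
  have hne : resΔ G Δ l ≠ 1 := by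
    intro e
    rw [e, Equiv.Perm.support_one, Finset.card_empty] at hsupp
    exact (Finset.card_pos.2 hDne).ne hsupp
  have := alt_le_of_degree (res_trans4 hs hT) (by rw [Fintype.card_coe]; exact hk)
    ⟨l, rfl⟩ hne hq (by rw [← map_pow, show l ^ q = 1 from Subtype.ext hyq, map_one])
    (by rw [hsupp, Fintype.card_coe]; exact hdeg)
  exact this.trans (by rw [MonoidHom.range_eq_map])

/-- every nontrivial element of `M` fixes at most one point outside `Δ` -/
def One (M : Subgroup G) (Δ : Finset α) : Prop :=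
  ∀ m ∈ M, m ≠ 1 → ∀ x y, x ∉ Δ → y ∉ Δ → m • x = x → m • y = y → x = y

theorem small_false (hs : Sit G M Δ) (hT : Trans4 G) (hk : 3 ≤ Δ.card) :
    ∀ m ∈ M, m ≠ 1 → (∃ x y, x ∉ Δ ∧ y ∉ Δ ∧ x ≠ y ∧ m • x = x ∧ m • y = y) ∨
      (Δ.card ≤ 4 ∧ ∃ x, x ∉ Δ ∧ m • x = x) ∨ Δ.card ≤ 3 → False := by
  classical
  have hn := hs.card
  set k := Δ.card with hkdef
  intro m hm hm1 hcase
  obtain ⟨q, hq, z, hz, hz1, hzq, hzs⟩ := exists_prime_power G (c := (m : Equiv.Perm α)) m.2
    (fun e => hm1 (Subtype.ext e))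
  apply hs.not_alt
  have hout : ((m : Equiv.Perm α)).support ⊆ Δᶜ := fun u hu => Finset.mem_compl.2 fun h =>
    Equiv.Perm.mem_support.1 hu (hs.mem_iff.1 hm u h)
  refine alt_le_of_degree hT (by omega) hz hz1 hq hzq ?_
  rcases hcase with ⟨x, y, hx, hy, hxy, hmx, hmy⟩ | ⟨hk4, x, hx, hmx⟩ | hk3
  · have hsub : ((m : Equiv.Perm α)).support ⊆ Δᶜ \ {x, y} := by
      intro u hu
      refine Finset.mem_sdiff.2 ⟨hout hu, fun h => Equiv.Perm.mem_support.1 hu ?_⟩
      simp only [Finset.mem_insert, Finset.mem_singleton] at h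
      rcases h with rfl | rfl <;> assumption
    have h2 := (Finset.card_le_card hzs).trans (Finset.card_le_card hsub)
    rw [Finset.card_sdiff_of_subset (by simp [Finset.insert_subset_iff, hx, hy]),
      Finset.card_compl, Finset.card_pair hxy] at h2
    rcases em (q = 2) with h | h
    · exact Or.inr (Or.inl ⟨h, by omega⟩)
    · exact Or.inr (Or.inr ⟨h, by omega⟩)
  · have hsub : ((m : Equiv.Perm α)).support ⊆ Δᶜ.erase x := fun u hu =>
      Finset.mem_erase.2 ⟨fun e => Equiv.Perm.mem_support.1 hu (e ▸ hmx), hout hu⟩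
    have h2 := (Finset.card_le_card hzs).trans (Finset.card_le_card hsub)
    rw [Finset.card_erase_of_mem (Finset.mem_compl.2 hx), Finset.card_compl] at h2
    exact Or.inl (by omega)
  · have h2 := (Finset.card_le_card hzs).trans (Finset.card_le_card hout)
    rw [Finset.card_compl] at h2
    exact Or.inl (by omega)

theorem four_le (hs : Sit G M Δ) (hT : Trans4 G) (hk : 3 ≤ Δ.card) : 4 ≤ Δ.card := by
  by_contra h
  obtain ⟨m, hm, b, hb⟩ := hs.moves
  exact small_false hs hT hk m hm (fun e => hb (by rw [e, one_smul])) (Or.inr (Or.inr (by omega)))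

theorem one_of (hs : Sit G M Δ) (hT : Trans4 G) (hk : 3 ≤ Δ.card) : One M Δ := by
  intro m hm hm1 x y hx hy hmx hmy
  by_contra hne
  exact small_false hs hT hk m hm hm1 (Or.inl ⟨x, y, hx, hy, hne, hmx, hmy⟩)

/-- points outside `Δ` with nontrivial stabilizer in `M` -/
noncomputable def nrF (M : Subgroup G) (Δ : Finset α) : Finset α :=
  haveI : DecidablePred fun x : α => ∃ m ∈ M, m ≠ 1 ∧ m • x = x := Classical.decPred _
  Δᶜ.filter fun x => ∃ m ∈ M, m ≠ 1 ∧ m • x = x

theorem mem_nrF {x : α} : x ∈ nrF M Δ ↔ x ∈ Δᶜ ∧ ∃ m ∈ M, m ≠ 1 ∧ m • x = x := by simp [nrF]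

/-- stabilizer of a point in `M` -/
noncomputable def stF (M : Subgroup G) (x : α) : Finset G :=
  haveI : Fintype G := Fintype.ofFinite G
  haveI : DecidablePred fun m : G => m ∈ M ∧ m • x = x := Classical.decPred _
  univ.filter fun m => m ∈ M ∧ m • x = x

theorem mem_stF {x : α} {m : G} : m ∈ stF M x ↔ m ∈ M ∧ m • x = x := by simp [stF]

theorem one_mem_stF (x : α) : (1 : G) ∈ stF M x := mem_stF.2 ⟨M.one_mem, one_smul _ _⟩

theorem card_stF (x : α) :
    Nat.card (M ⊓ MulAction.stabilizer G x : Subgroup G) = (stF M x).card := by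
  haveI := Fintype.ofFinite G
  classical
  rw [Nat.card_eq_fintype_card, Fintype.card_of_subtype (stF M x) fun m => by
    simp [mem_stF, MulAction.mem_stabilizer_iff]]

theorem mem_compl_smul (hs : Sit G M Δ) {m : G} (hm : m ∈ M) {x : α} (hx : x ∈ Δᶜ) :
    m • x ∈ Δᶜ := by
  rw [Finset.mem_compl] at hx ⊢
  intro h
  have e : m • x = x := MulAction.injective m (hs.mem_iff.1 hm _ h)
  exact hx (e ▸ h)

theorem card_compl_Δ (hs : Sit G M Δ) : Δᶜ.card = Δ.card := by
  rw [Finset.card_compl, hs.card]; omega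

theorem orbst (x : α) : ∀ u ∈ orb M x, (orb M x).card * (stF M u).card = Nat.card M := by
  intro u hu
  classical
  haveI := Fintype.ofFinite G
  set Mf : Finset G := univ.filter (· ∈ M) with hMf
  have hMfc : Mf.card = Nat.card M := by
    rw [Nat.card_eq_fintype_card, Fintype.card_of_subtype Mf (fun m => by simp [hMf])]
  rw [← orb_eq_of_mem hu, ← hMfc]
  refine Eq.trans ?_ (Finset.card_eq_sum_card_fiberwise
    (f := fun m : G => m • u) (t := orb M u) (fun m hm => by
      rw [Finset.mem_coe, hMf, Finset.mem_filter] at hm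
      exact mem_orb.2 ⟨m, hm.2, rfl⟩)).symm
  refine (Finset.sum_const_nat fun y hy => ?_).symm
  obtain ⟨g, hg, rfl⟩ := mem_orb.1 hy
  refine Finset.card_equiv (Equiv.mulLeft g⁻¹) fun m => ?_
  simp only [mem_stF, hMf, Finset.mem_filter, Finset.mem_univ, true_and, Equiv.coe_mulLeft,
    mul_smul, inv_smul_eq_iff]
  exact and_congr_left fun _ =>
    ⟨fun h => M.mul_mem (M.inv_mem hg) h,
      fun h => by simpa [← mul_assoc] using M.mul_mem hg h⟩

theorem orb_two (hs : Sit G M Δ) : ∀ x ∈ Δᶜ, 2 ≤ (orb M x).card := by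
  intro x hx
  have hxF : x ∉ fixF (β := α) M := by rw [hs.fixEq]; exact Finset.mem_compl.1 hx
  simp only [mem_fixF, not_forall] at hxF
  obtain ⟨m, hm, hmx⟩ := hxF
  exact Finset.one_lt_card.2 ⟨m • x, mem_orb.2 ⟨m, hm, rfl⟩, x, self_mem_orb M x, hmx⟩

theorem orb_compl (hs : Sit G M Δ) : ∀ x ∈ Δᶜ, orb M x ⊆ Δᶜ := by
  intro x hx u hu
  obtain ⟨m, hm, rfl⟩ := mem_orb.1 hu
  exact mem_compl_smul hs hm hx

theorem two_le_st {x : α} (hxn : x ∈ nrF M Δ) : 2 ≤ (stF M x).card := by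
  obtain ⟨-, m, hm, hm1, hmx⟩ := mem_nrF.1 hxn
  exact Finset.one_lt_card.2 ⟨m, mem_stF.2 ⟨hm, hmx⟩, 1, one_mem_stF x, hm1⟩

theorem one_orbit (hs : Sit G M Δ) (hone : One M Δ) :
    ∀ z ∈ nrF M Δ, ∀ z' ∈ nrF M Δ, z' ∈ orb M z := by
  classical
  haveI := Fintype.ofFinite G
  intro z hz z' hz'
  by_contra hne
  have hzC : z ∈ Δᶜ := (mem_nrF.1 hz).1
  have hzC' : z' ∈ Δᶜ := (mem_nrF.1 hz').1
  set Mf : Finset G := univ.filter (· ∈ M) with hMf
  have hMfc : Mf.card = Nat.card M := by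
    rw [Nat.card_eq_fintype_card, Fintype.card_of_subtype Mf (fun m => by simp [hMf])]
  have hdisj : Disjoint (orb M z) (orb M z') := Finset.disjoint_left.2 fun u hu hu' => hne
    (by rw [← orb_eq_of_mem hu, orb_eq_of_mem hu']; exact self_mem_orb M z')
  set U := orb M z ∪ orb M z'
  have hUC : U ⊆ Δᶜ := Finset.union_subset (orb_compl hs z hzC) (orb_compl hs z' hzC')
  have hle : ∑ u ∈ U, ((stF M u).erase 1).card ≤ (Mf.erase 1).card := by
    rw [← Finset.card_biUnion]
    · refine Finset.card_le_card fun m hm => ?_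
      simp only [Finset.mem_biUnion, Finset.mem_erase, mem_stF] at hm
      obtain ⟨u, -, h1, h2, -⟩ := hm
      simp only [hMf, Finset.mem_erase, Finset.mem_filter, Finset.mem_univ, true_and]
      exact ⟨h1, h2⟩
    · intro u hu u' hu' hne'
      refine Finset.disjoint_left.2 fun m hm hm' => hne' ?_
      simp only [Finset.mem_erase, mem_stF] at hm hm'
      exact hone m hm.2.1 hm.1 u u' (Finset.mem_compl.1 (hUC hu)) (Finset.mem_compl.1 (hUC hu'))
        hm.2.2 hm'.2.2
  have key : ∀ y ∈ nrF M Δ, Nat.card M ≤ 2 * ∑ u ∈ orb M y, ((stF M u).erase 1).card := by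
    intro y hy
    have h2 := two_le_st hy
    have hy2 := orbst (M := M) y y (self_mem_orb M y)
    have hsum : ∑ u ∈ orb M y, ((stF M u).erase 1).card
        = (orb M y).card * ((stF M y).card - 1) := by
      refine Finset.sum_const_nat fun u hu => ?_
      rw [Finset.card_erase_of_mem (one_mem_stF u)]
      have := orbst (M := M) y u hu
      rw [← hy2] at this
      rw [Nat.eq_of_mul_eq_mul_left (Finset.card_pos.2 ⟨y, self_mem_orb M y⟩) this]
    rw [hsum, ← hy2]
    obtain ⟨t, ht⟩ : ∃ t, (stF M y).card = t + 2 := ⟨(stF M y).card - 2, by omega⟩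
    rw [ht, show t + 2 - 1 = t + 1 by omega]
    nlinarith
  rw [Finset.sum_union hdisj, Finset.card_erase_of_mem (by simp [hMf]), hMfc] at hle
  have := key z hz
  have := key z' hz'
  have := Nat.card_pos (α := M)
  omega

theorem st_dvd (hs : Sit G M Δ) (hone : One M Δ) :
    ∀ z ∈ nrF M Δ, (stF M z).card ∣ (orb M z).card - 1 := by
  intro z hz
  have hzC : z ∈ Δᶜ := (mem_nrF.1 hz).1
  rw [← card_stF, ← Finset.card_erase_of_mem (self_mem_orb M z)]
  refine free_dvd _ _ ?_ ?_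
  · rintro m ⟨hm, hmz⟩ u hu
    rw [Finset.mem_erase] at hu ⊢
    refine ⟨fun e => hu.1 (MulAction.injective m (e.trans hmz.symm)), ?_⟩
    rw [← orb_eq_of_mem hu.2]
    exact mem_orb.2 ⟨m, hm, rfl⟩
  · rintro m ⟨hm, hmz⟩ u hu hmu
    by_contra h1
    rw [Finset.mem_erase] at hu
    exact hu.1 (hone m hm h1 u z (Finset.mem_compl.1 (orb_compl hs z hzC hu.2))
      (Finset.mem_compl.1 hzC) hmu hmz)

theorem free_of_empty (hs : Sit G M Δ) (hNe : nrF M Δ = ∅) :
    Nat.card M ∣ Δ.card := by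
  rw [← card_compl_Δ hs]
  refine free_dvd M Δᶜ (fun m hm x hx => mem_compl_smul hs hm hx) fun m hm u hu h => ?_
  by_contra h1
  have : u ∈ nrF M Δ := mem_nrF.2 ⟨hu, m, hm, h1, h⟩
  rw [hNe] at this
  exact Finset.notMem_empty u this

theorem conj_mem_M (hs : Sit G M Δ) (l : MulAction.stabilizer G Δ) :
    ∀ m ∈ M, (l : G) * m * (l : G)⁻¹ ∈ M := fun m hm => by
  have h := hs.cj_eq_iff (g := (l : G)) (h := 1).2 (by rw [one_smul]; exact l.2)
  rw [cj_one] at h
  exact h ▸ conj_mem_cj hm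

theorem onto_false (hs : Sit G M Δ) (hT : Trans4 G) (hk : 3 ≤ Δ.card)
    (honto : Onto Δ (⊤ : Subgroup (MulAction.stabilizer G Δ))) : False := by
  classical
  have hk4 := four_le hs hT hk
  have hone := one_of hs hT hk
  set k := Δ.card with hkdef
  have hk5 : 5 ≤ k := by
    by_contra hlt
    rcases (nrF M Δ).eq_empty_or_nonempty with hNe | ⟨z, hz⟩
    · -- semiregular of order dividing `4`
      have hMk := free_of_empty hs hNe
      rw [← hkdef, show k = 4 by omega] at hMk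
      obtain ⟨i, -, hi⟩ := (Nat.dvd_prime_pow Nat.prime_two (m := 2)).1
        (show Nat.card M ∣ 2 ^ 2 from hMk)
      haveI := Fact.mk Nat.prime_two
      obtain ⟨g, hg, hgM⟩ := second_block hs (le_refl M) (IsPGroup.of_card hi)
      exact hg (hs.eq_of_normalised hgM)
    · obtain ⟨hzC, m, hm, hm1, hmz⟩ := mem_nrF.1 hz
      exact small_false hs hT hk m hm hm1
        (Or.inr (Or.inl ⟨by omega, z, Finset.mem_compl.1 hzC, hmz⟩))
  rcases (nrF M Δ).eq_empty_or_nonempty with hNe | ⟨z, hz⟩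
  · refine alt_contra hs hT hk5 honto (H := M) (fun m hm => hs.mem_iff.1 hm)
      (Nat.le_of_dvd (by omega) (free_of_empty hs hNe))
      (fun l _ m hm => conj_mem_M hs l m hm) ?_
    intro u hu hall
    refine absurd ?_ hu
    rw [← hs.fixEq, mem_fixF]; exact hall
  · obtain ⟨hzC, m0, hm0, hm01, hm0z⟩ := mem_nrF.1 hz
    set L : Subgroup (MulAction.stabilizer G Δ) :=
      (MulAction.stabilizer G z).comap (MulAction.stabilizer G Δ).subtype
    refine alt_contra hs hT hk5 (L := L) ?_ (H := M ⊓ MulAction.stabilizer G z)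
      (fun m hm => hs.mem_iff.1 hm.1) ?_ ?_ ?_
    · intro σ hσ
      obtain ⟨l, -, rfl⟩ := honto hσ
      have hlz : (l : G) • z ∈ nrF M Δ := by
        refine mem_nrF.2 ⟨Finset.mem_compl.2 fun h => Finset.mem_compl.1 hzC ?_,
          (l : G) * m0 * (l : G)⁻¹, conj_mem_M hs l m0 hm0, fun e => hm01 ?_, ?_⟩
        · have h' := Finset.inv_smul_mem_iff (a := (l : G)) (b := (l : G) • z) (s := Δ)
          rw [inv_smul_smul, MulAction.mem_stabilizer_iff.1 l.2] at h'
          exact h'.2 h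
        · exact conj_eq_one_iff.1 e
        · rw [mul_smul, mul_smul, inv_smul_smul, hm0z]
      obtain ⟨m, hm, hmz⟩ := mem_orb.1 (one_orbit hs hone z hz _ hlz)
      have hmΔ : m ∈ MulAction.stabilizer G Δ := by
        refine MulAction.mem_stabilizer_iff.2 (Finset.eq_of_subset_of_card_le (fun u hu => ?_)
          (Finset.card_smul_finset m Δ).ge)
        obtain ⟨a, ha, rfl⟩ := Finset.mem_smul_finset.1 hu
        rwa [hs.mem_iff.1 hm a ha]
      refine ⟨⟨m, hmΔ⟩⁻¹ * l, ?_, ?_⟩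
      · change (m⁻¹ * (l : G)) • z = z
        rw [mul_smul, ← hmz, inv_smul_smul]
      · refine Equiv.ext fun a => Subtype.ext ?_
        rw [resΔ_apply, resΔ_apply]
        change (m⁻¹ * (l : G)) • (a : α) = (l : G) • (a : α)
        rw [mul_smul, inv_smul_eq_iff]
        have hla : (l : G) • (a : α) ∈ Δ := (resΔ G Δ l a).2
        exact (hs.mem_iff.1 hm _ hla).symm
    · have h1 := card_stF (M := M) z
      have h2 := orb_two hs z hzC
      have h3 := Nat.le_of_dvd (by omega) (st_dvd hs hone z hz)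
      have h4 : (orb M z).card ≤ k :=
        (Finset.card_le_card (orb_compl hs z hzC)).trans (card_compl_Δ hs).le
      omega
    · intro l hl m hm
      refine ⟨conj_mem_M hs l m hm.1, ?_⟩
      change ((l : G) * m * (l : G)⁻¹) • z = z
      rw [mul_smul, mul_smul,
        inv_smul_eq_iff.2 (show z = (l : G) • z from (MulAction.mem_stabilizer_iff.1 hl).symm),
        MulAction.mem_stabilizer_iff.1 hm.2]
      exact MulAction.mem_stabilizer_iff.1 hl
    · intro u hu hall l hl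
      have : u = z := hone m0 hm0 hm01 u z hu (Finset.mem_compl.1 hzC)
        (hall m0 ⟨hm0, hm0z⟩) hm0z
      subst this
      exact hl

end Cfsg.Agent.H26.Pro
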