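import Cfsg.Agent.H26.Pro.Semi1

/-!
# A second block normalised by a Sylow subgroup
-/

set_option linter.unusedSectionVars false
set_option linter.style.haveILetI false

namespace Cfsg.Agent.H26.Pro

open Finset
open scoped Pointwise

variable {α : Type*} [Fintype α] [DecidableEq α]
variable {G : Subgroup (Equiv.Perm α)} {M : Subgroup G} {Δ : Finset α}

theorem semi_prime (hs : Sit G M Δ) (hone : One M Δ) :
    ∃ p : ℕ, p.Prime ∧ p ∣ Nat.card M ∧
      (∀ x ∈ Δᶜ, ∀ m ∈ M, m • x = x → ∀ e : ℕ, orderOf m = p ^ e → m = 1) ∧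
      (nrF M Δ = ∅ → p = 2 ∨ Odd (Nat.card M)) ∧
      (∀ z ∈ nrF M Δ, (p = 2 ↔ Even (orb M z).card)) := by
  classical
  have hM1 : 1 < Nat.card M := by
    obtain ⟨m, hm, b, hb⟩ := hs.moves
    haveI : Nontrivial M := ⟨⟨⟨m, hm⟩, 1, fun e => hb (by
      rw [show m = 1 from congrArg Subtype.val e, one_smul])⟩⟩
    exact Finite.one_lt_card
  set NR := nrF M Δ with hNR
  rcases NR.eq_empty_or_nonempty with hNe | ⟨z, hz⟩
  · obtain ⟨p, hp, hpM, h2⟩ : ∃ p : ℕ, p.Prime ∧ p ∣ Nat.card M ∧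
        (p = 2 ∨ Odd (Nat.card M)) := by
      rcases Nat.even_or_odd (Nat.card M) with h | h
      · exact ⟨2, Nat.prime_two, even_iff_two_dvd.1 h, Or.inl rfl⟩
      · exact ⟨_, Nat.minFac_prime (by omega), Nat.minFac_dvd _, Or.inr h⟩
    refine ⟨p, hp, hpM, fun x hx m hm hmx e _ => ?_, fun _ => h2,
      fun z hz => absurd hz (hNe ▸ Finset.notMem_empty z)⟩
    by_contra h1
    have : x ∈ NR := mem_nrF.2 ⟨hx, m, hm, h1, hmx⟩
    rw [hNe] at this
    exact Finset.notMem_empty x this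
  · have hzC : z ∈ Δᶜ := (mem_nrF.1 hz).1
    have ho := orb_two hs z hzC
    obtain ⟨p, hp, hpd, h2⟩ : ∃ p : ℕ, p.Prime ∧ p ∣ (orb M z).card ∧
        (p = 2 ↔ Even (orb M z).card) := by
      rcases Nat.even_or_odd (orb M z).card with h | h
      · exact ⟨2, Nat.prime_two, even_iff_two_dvd.1 h, iff_of_true rfl h⟩
      · refine ⟨_, Nat.minFac_prime (by omega), Nat.minFac_dvd _,
          iff_of_false (fun e => ?_) (Nat.not_even_iff_odd.2 h)⟩
        have h' : 2 ∣ (orb M z).card := e ▸ Nat.minFac_dvd _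
        exact Nat.not_even_iff_odd.2 h (even_iff_two_dvd.2 h')
    refine ⟨p, hp, hpd.trans ⟨_, (orbst z z (self_mem_orb M z)).symm⟩, fun x hx m hm hmx e he => ?_,
      fun h => absurd hz (h ▸ Finset.notMem_empty z), fun z' hz' => ?_⟩
    · by_contra h1
      have hxn : x ∈ NR := mem_nrF.2 ⟨hx, m, hm, h1, hmx⟩
      have hxo := one_orbit hs hone z hz x hxn
      have hdvd : orderOf m ∣ (stF M x).card := by
        rw [← card_stF]
        exact Subgroup.orderOf_dvd_natCard _ ⟨hm, hmx⟩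
      have hdx := st_dvd hs hone x hxn
      rw [orb_eq_of_mem hxo] at hdx
      have he0 : e ≠ 0 := fun e0 => h1 (orderOf_eq_one_iff.1 (by rw [he, e0, pow_zero]))
      have hp1 : p ∣ (orb M z).card - 1 :=
        (dvd_pow_self p he0).trans ((he ▸ hdvd).trans hdx)
      have hp3 := Nat.dvd_sub hpd hp1
      rw [show (orb M z).card - ((orb M z).card - 1) = 1 by omega] at hp3
      exact hp.ne_one (Nat.dvd_one.1 hp3)
    · rw [show orb M z' = orb M z from orb_eq_of_mem (one_orbit hs hone z hz z' hz')]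
      exact h2

/-- The data of a second block. -/
structure Blk (M : Subgroup G) (Δ : Finset α) (p : ℕ) (g x y0 : G) (v : ℕ) : Prop where
  ne : g • Δ ≠ Δ
  xM : x ∈ M
  xB : x • g • Δ = g • Δ
  xfix : ∀ u, x • u = u → u ∈ Δ
  xnorm : ∀ y ∈ cj g M, x * y * x⁻¹ ∈ cj g M
  commfix : ∀ y ∈ cj g M, ∀ z ∈ Δ \ g • Δ, y • z ∈ Δ →
    (x * y * x⁻¹ * y⁻¹) • (y • z) = y • z
  zcomm : ∀ y ∈ cj g M ⊓ MulAction.stabilizer G Δ, x * y = y * x
  commz : ∀ y ∈ cj g M, x * y = y * x → y ∈ cj g M ⊓ MulAction.stabilizer G Δ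
  notz : ∀ y ∈ cj g M, y ∉ cj g M ⊓ MulAction.stabilizer G Δ →
    ∀ z ∈ Δ \ g • Δ, ∀ z' ∈ Δ \ g • Δ, y • z ∈ Δ \ g • Δ → y • z' ∈ Δ \ g • Δ → z = z'
  zne : ∃ y ∈ cj g M, y ∉ cj g M ⊓ MulAction.stabilizer G Δ
  hv : Nat.card M = Nat.card (cj g M ⊓ MulAction.stabilizer G Δ : Subgroup G) * v
  two_le : 2 ≤ v
  notdvd : ¬ p ∣ v
  pj : p ∣ (Δ \ g • Δ).card
  pk : p ∣ Δ.card
  j2 : 2 ≤ (Δ \ g • Δ).card
  jk : (Δ \ g • Δ).card < Δ.card
  y0Z : y0 ∈ cj g M ⊓ MulAction.stabilizer G Δ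
  y0o : orderOf y0 = p

theorem mem_cj_iff (hs : Sit G M Δ) {g y : G} :
    y ∈ cj g M ↔ ∀ b ∈ g • Δ, y • b = b := by
  rw [mem_cj, hs.mem_iff]
  constructor
  · intro h b hb
    obtain ⟨a, ha, rfl⟩ := Finset.mem_smul_finset.1 hb
    have := h a ha
    rwa [mul_smul, mul_smul, inv_smul_eq_iff] at this
  · intro h a ha
    rw [mul_smul, mul_smul, inv_smul_eq_iff]
    exact h _ (Finset.smul_mem_smul_finset ha)

theorem cj_smul_notMem (hs : Sit G M Δ) {g : G} :
    ∀ y ∈ cj g M, ∀ b, b ∉ g • Δ → y • b ∉ g • Δ := by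
  intro y hy b hb h
  have h2 := (mem_cj_iff hs).1 hy _ h
  exact hb (MulAction.injective y h2 ▸ h)

theorem one_cj (hone : One M Δ) {g : G} :
    ∀ y ∈ cj g M, y ≠ 1 → ∀ u v, u ∉ g • Δ → v ∉ g • Δ → y • u = u → y • v = v → u = v := by
  intro y hy hy1 u v hu hv hyu hyv
  rw [← Finset.inv_smul_mem_iff] at hu hv
  refine MulAction.injective g⁻¹ (hone _ (mem_cj.1 hy) (fun e => hy1 ?_) _ _ hu hv ?_ ?_)
  · have : y = g * (g⁻¹ * y * g) * g⁻¹ := by group
    rw [this, e, mul_one, mul_inv_cancel]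
  · rw [mul_smul, mul_smul, smul_inv_smul, hyu]
  · rw [mul_smul, mul_smul, smul_inv_smul, hyv]

theorem cj_card (g : G) : Nat.card (cj g M) = Nat.card M :=
  Subgroup.card_map_of_injective (MulAut.conj g).injective

set_option maxHeartbeats 1000000 in
theorem exists_blk (hs : Sit G M Δ) (hone : One M Δ) {p : ℕ} (hp : p.Prime)
    (hpM : p ∣ Nat.card M)
    (hpfree : ∀ x ∈ Δᶜ, ∀ m ∈ M, m • x = x → ∀ e : ℕ, orderOf m = p ^ e → m = 1) :
    ∃ (g x y0 : G) (v : ℕ), Blk M Δ p g x y0 v := by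
  classical
  haveI := Fintype.ofFinite G
  have hn := hs.card
  haveI := Fact.mk hp
  set k := Δ.card with hkdef
  set C := Δᶜ with hC
  have hCcard : C.card = k := card_compl_Δ hs
  have hMC : ∀ m ∈ M, ∀ x ∈ C, m • x ∈ C := fun m hm x hx => mem_compl_smul hs hm hx
  obtain ⟨P, hPM, hPp, hPcard⟩ : ∃ P : Subgroup G, P ≤ M ∧ IsPGroup p P ∧
      ¬ p ∣ Nat.card M / Nat.card P := by
    obtain ⟨S⟩ : Nonempty (Sylow p M) := inferInstance
    have hc : Nat.card ((S : Subgroup M).map M.subtype) = Nat.card (S : Subgroup M) :=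
      Subgroup.card_map_of_injective M.subtype_injective
    refine ⟨(S : Subgroup M).map M.subtype, Subgroup.map_subtype_le _, S.isPGroup'.map _, ?_⟩
    rw [hc, ← Subgroup.card_mul_index (S : Subgroup M),
      Nat.mul_div_cancel_left _ Nat.card_pos]
    exact S.not_dvd_index
  have hPd : Nat.card P ∣ Nat.card M := Subgroup.card_dvd_of_le hPM
  obtain ⟨w, hw⟩ := hPd
  have hwp : ¬ p ∣ w := by
    rwa [hw, Nat.mul_div_cancel_left _ Nat.card_pos] at hPcard
  have hpP : p ∣ Nat.card P := by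
    rcases hp.dvd_mul.1 (hw ▸ hpM) with h | h
    exacts [h, absurd h hwp]
  have hPfree : ∀ x ∈ C, ∀ m ∈ P, m • x = x → m = 1 := by
    intro x hx m hm hmx
    obtain ⟨e, he⟩ := hPp.exists_card_eq
    obtain ⟨i, -, hi⟩ := (Nat.dvd_prime_pow hp).1 (he ▸ Subgroup.orderOf_dvd_natCard P hm)
    exact hpfree x hx m (hPM hm) hmx i hi
  have hPk : Nat.card P ∣ k := by
    rw [← hCcard]
    exact free_dvd P C (fun m hm x hx => hMC m (hPM hm) x hx)
      fun m hm x hx h => hPfree x hx m hm h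
  -- the second block
  obtain ⟨g, hgne, hgP⟩ := second_block hs hPM hPp
  set B := g • Δ with hBdef
  set M' := cj g M with hM'
  have hM'mem : ∀ y, y ∈ M' ↔ ∀ b ∈ B, y • b = b := fun y => mem_cj_iff hs
  have hM'C : ∀ y ∈ M', ∀ b, b ∉ B → y • b ∉ B := cj_smul_notMem hs
  have hone' : ∀ y ∈ M', y ≠ 1 → ∀ u v, u ∉ B → v ∉ B → y • u = u → y • v = v → u = v :=
    one_cj hone
  have hM'card : Nat.card M' = Nat.card M := cj_card g
  set Δ0 := Δ \ B with hΔ0
  set j := Δ0.card with hjdef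
  have hBcard : B.card = k := Finset.card_smul_finset g Δ
  have hBΔ : (B \ Δ).card = j := Finset.card_sdiff_comm (by rw [hBcard])
  have hPj : Nat.card P ∣ j := by
    rw [← hBΔ]
    refine free_dvd P _ (fun m hm x hx => ?_) fun m hm x hx h => ?_
    · rw [Finset.mem_sdiff] at hx ⊢
      exact ⟨hgP m hm ▸ Finset.smul_mem_smul_finset hx.1,
        Finset.mem_compl.1 (hMC m (hPM hm) x (Finset.mem_compl.2 hx.2))⟩
    · exact hPfree x (Finset.mem_compl.2 (Finset.mem_sdiff.1 hx).2) m hm h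
  have hj0 : 0 < j := by
    rcases Nat.eq_zero_or_pos j with h | h
    · exact absurd (Finset.eq_of_subset_of_card_le (Finset.sdiff_eq_empty_iff_subset.1
        (Finset.card_eq_zero.1 h)) (by rw [hBcard])).symm hgne
    · exact h
  have hjk : j < k := by
    refine lt_of_le_of_ne (Finset.card_le_card Finset.sdiff_subset) fun e => ?_
    exact hs.not_disjoint g (Finset.disjoint_left.2 fun u hu hu' =>
      (Finset.mem_sdiff.1 ((Finset.eq_of_subset_of_card_le Finset.sdiff_subset e.ge).symm ▸ hu' :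
        u ∈ Δ \ B)).2 hu)
  have hj2 : 2 ≤ j := (hp.two_le.trans (Nat.le_of_dvd hj0 (hpP.trans hPj)))
  -- conjugation by `P` stabilises `M'`
  have hPnorm : ∀ m ∈ P, ∀ y ∈ M', m * y * m⁻¹ ∈ M' := by
    intro m hm y hy
    rw [hM'mem] at hy ⊢
    intro b hb
    have hmb : m⁻¹ • b ∈ B := by
      rw [Finset.inv_smul_mem_iff, hgP m hm]; exact hb
    rw [mul_smul, mul_smul, hy _ hmb, smul_inv_smul]
  have hxfix : ∀ m ∈ P, m ≠ 1 → ∀ u, m • u = u → u ∈ Δ := by
    intro m hm hm1 u hu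
    by_contra h
    exact hm1 (hPfree u (Finset.mem_compl.2 h) m hm hu)
  obtain ⟨x, hxP, hxo⟩ : ∃ x ∈ P, orderOf x = p := by
    obtain ⟨⟨x, hx⟩, he⟩ := exists_prime_orderOf_dvd_card' p hpP
    exact ⟨x, hx, (Subgroup.orderOf_mk _ _).symm.trans he⟩
  have hx1 : x ≠ 1 := fun e => hp.ne_one (by rw [← hxo, e, orderOf_one])
  -- the part of `M'` preserving `Δ`
  set Z := M' ⊓ MulAction.stabilizer G Δ with hZ
  have hZΔ0 : ∀ y ∈ Z, ∀ z ∈ Δ0, y • z ∈ Δ0 := by
    rintro y ⟨hy, hyΔ⟩ z hz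
    rw [hΔ0, Finset.mem_sdiff] at hz ⊢
    exact ⟨(show y • Δ = Δ from hyΔ) ▸ Finset.smul_mem_smul_finset hz.1, hM'C y hy z hz.2⟩
  have hcomm_fix : ∀ m ∈ P, ∀ y ∈ M', ∀ z ∈ Δ0, y • z ∈ Δ →
      (m * y * m⁻¹ * y⁻¹) • (y • z) = y • z := by
    intro m hm y hy z hz hyz
    rw [mul_smul, mul_smul, mul_smul, inv_smul_smul]
    have h1 : m • z = z := hs.mem_iff.1 (hPM hm) z (Finset.mem_sdiff.1 hz).1
    rw [inv_smul_eq_iff.2 h1.symm, hs.mem_iff.1 (hPM hm) _ hyz]
  have hZcomm : ∀ m ∈ P, ∀ y ∈ Z, m * y = y * m := by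
    rintro m hm y ⟨hy, hyΔ⟩
    obtain ⟨u, hu, v, hv, huv⟩ := Finset.one_lt_card.1 hj2
    by_contra hne
    have hc1 : m * y * m⁻¹ * y⁻¹ ≠ 1 := fun e => hne (by
      have := mul_inv_eq_one.1 e
      exact (mul_inv_eq_iff_eq_mul.1 this))
    have hin : ∀ z ∈ Δ0, y • z ∈ Δ ∧ y • z ∉ B := fun z hz =>
      Finset.mem_sdiff.1 (hZΔ0 y ⟨hy, hyΔ⟩ z hz)
    refine huv (MulAction.injective y (hone' _ (M'.mul_mem (hPnorm m hm y hy) (M'.inv_mem hy))
      hc1 _ _ (hin u hu).2 (hin v hv).2 (hcomm_fix m hm y hy u hu (hin u hu).1)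
      (hcomm_fix m hm y hy v hv (hin v hv).1)))
  have hcommZ : ∀ m ∈ P, m ≠ 1 → ∀ y ∈ M', m * y = y * m → y ∈ Z := by
    intro m hm hm1 y hy he
    refine ⟨hy, MulAction.mem_stabilizer_iff.2 (Finset.eq_of_subset_of_card_le (fun u hu => ?_)
      (Finset.card_smul_finset y Δ).ge)⟩
    obtain ⟨a, ha, rfl⟩ := Finset.mem_smul_finset.1 hu
    exact hxfix m hm hm1 _ (by rw [← mul_smul, he, mul_smul, hs.mem_iff.1 (hPM hm) a ha])
  have hnotZ : ∀ y ∈ M', y ∉ Z → ∀ z ∈ Δ0, ∀ z' ∈ Δ0, y • z ∈ Δ0 → y • z' ∈ Δ0 → z = z' := by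
    intro y hy hyZ z hz z' hz' h1 h2
    rw [hΔ0, Finset.mem_sdiff] at h1 h2
    by_contra hne
    refine hyZ (hcommZ x hxP hx1 y hy ?_)
    by_contra hc
    have hc1 : x * y * x⁻¹ * y⁻¹ ≠ 1 := fun e => hc
      (mul_inv_eq_iff_eq_mul.1 (mul_inv_eq_one.1 e))
    exact hne (MulAction.injective y (hone' _ (M'.mul_mem (hPnorm x hxP y hy) (M'.inv_mem hy))
      hc1 _ _ h1.2 h2.2 (hcomm_fix x hxP y hy z hz h1.1) (hcomm_fix x hxP y hy z' hz' h2.1)))
  have hZne : ∃ y ∈ M', y ∉ Z := by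
    by_contra hall
    simp only [not_exists, not_and, not_not] at hall
    apply hgne
    have := hs.eq_of_normalised (g := g⁻¹) fun m hm => by
      have hm' : g * m * g⁻¹ ∈ M' := conj_mem_cj hm
      have h1 : (g * m * g⁻¹) • Δ = Δ := (hall _ hm').2
      rw [mul_smul, mul_smul] at h1
      exact eq_inv_smul_iff.2 h1
    exact (inv_smul_eq_iff.1 this).symm
  -- free conjugation action of `P`
  have hZcard : Nat.card P ∣ Nat.card Z := by
    set Df : Finset (ConjAct G) := univ.filter fun c => ConjAct.ofConjAct c ∈ M' ∧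
      ConjAct.ofConjAct c ∉ Z
    set Y : Finset G := univ.filter fun y => y ∈ M' ∧ y ∉ Z with hY
    set Pc := P.map (ConjAct.toConjAct (G := G)).toMonoidHom
    have hPc : Nat.card Pc = Nat.card P :=
      Subgroup.card_map_of_injective (ConjAct.toConjAct (G := G)).injective
    have hdv : Nat.card Pc ∣ Y.card := by
      refine free_dvd Pc Y ?_ ?_
      · rintro c ⟨m, hm, rfl⟩ y hy
        simp only [hY, Finset.mem_filter, Finset.mem_univ, true_and] at hy ⊢
        rw [MulEquiv.coe_toMonoidHom, ConjAct.toConjAct_smul]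
        refine ⟨hPnorm m hm y hy.1, fun hz => hy.2 ?_⟩
        have h' := hZcomm m hm _ hz
        have : y = m * y * m⁻¹ := by
          have h2 : m * y * m⁻¹ * m = m * y := by group
          rw [← h'] at h2
          exact (mul_left_cancel h2).symm
        rwa [← this] at hz
      · rintro c ⟨m, hm, rfl⟩ y hy he
        simp only [hY, Finset.mem_filter, Finset.mem_univ, true_and] at hy
        rw [MulEquiv.coe_toMonoidHom, ConjAct.toConjAct_smul] at he
        by_contra h1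
        exact hy.2 (hcommZ m hm (fun e => h1 (by rw [e, map_one])) y hy.1
          (mul_inv_eq_iff_eq_mul.1 he))
    rw [hPc] at hdv
    have hsum : Nat.card M = Nat.card Z + Y.card := by
      rw [← hM'card, Nat.card_eq_fintype_card, Nat.card_eq_fintype_card,
        Fintype.card_of_subtype (univ.filter (· ∈ M')) (fun y => by simp),
        Fintype.card_of_subtype (univ.filter (· ∈ Z)) (fun y => by simp), hY,
        ← Finset.card_union_of_disjoint]
      · congr 1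
        ext y
        simp only [Finset.mem_filter, Finset.mem_univ, true_and, Finset.mem_union]
        exact ⟨fun h => (em (y ∈ Z)).imp id fun h' => ⟨h, h'⟩, fun h => h.elim (·.1) (·.1)⟩
      · exact Finset.disjoint_left.2 fun y h1 h2 => by
          simp only [Finset.mem_filter, Finset.mem_univ, true_and] at h1 h2
          exact h2.2 h1
    exact (Nat.dvd_add_left hdv).1 (hsum ▸ ⟨w, hw⟩)
  -- the index of `Z`
  obtain ⟨v, hv⟩ : Nat.card Z ∣ Nat.card M := hM'card ▸ Subgroup.card_dvd_of_le inf_le_left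
  obtain ⟨tz, htz⟩ := hZcard
  have hvp : ¬ p ∣ v := by
    have : tz * v = w := Nat.eq_of_mul_eq_mul_left (Nat.card_pos (α := P))
      (by rw [← mul_assoc, ← htz, ← hv, hw])
    exact fun h => hwp (this ▸ dvd_mul_of_dvd_right h tz)
  have hv1 : 2 ≤ v := by
    by_contra h
    obtain ⟨y, hy, hyZ⟩ := hZne
    have hle : Nat.card M' ≤ Nat.card Z := by
      rw [hM'card, hv]
      calc Nat.card Z * v ≤ Nat.card Z * 1 := Nat.mul_le_mul_left _ (by omega)
        _ = _ := mul_one _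
    exact hyZ ((Subgroup.eq_of_le_of_card_ge (inf_le_left : Z ≤ M') hle).ge hy)
  -- an element of `Z` of order `p`
  obtain ⟨y0, hy0, hy0o⟩ : ∃ y ∈ Z, orderOf y = p := by
    obtain ⟨⟨y, hy⟩, he⟩ := exists_prime_orderOf_dvd_card' p
      (hpP.trans ⟨tz, htz⟩ : p ∣ Nat.card Z)
    exact ⟨y, hy, (Subgroup.orderOf_mk _ _).symm.trans he⟩
  exact ⟨g, x, y0, v, hgne, hPM hxP, hgP x hxP, hxfix x hxP hx1, hPnorm x hxP,
    hcomm_fix x hxP, hZcomm x hxP, hcommZ x hxP hx1, hnotZ, hZne, hv, hv1, hvp,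
    hpP.trans hPj, hpP.trans hPk, hj2, hjk, hy0, hy0o⟩

theorem Blk.lower (hs : Sit G M Δ) {p : ℕ} {g x y0 : G} {v : ℕ} (b : Blk M Δ p g x y0 v) :
    ∀ (S : ℕ), (haveI : Fintype G := Fintype.ofFinite G; ∀ (Mg : Finset G),
      (∀ y, y ∈ Mg ↔ y ∈ cj g M) →
      ∑ y ∈ Mg, ((Δ \ g • Δ).filter fun z => y • z ∈ Δ \ g • Δ).card ≤ S) →
      Nat.card M * ((Δ \ g • Δ).card * (Δ \ g • Δ).card) ≤ Δ.card * S := by
  classical
  intro S hS
  haveI : Fintype G := Fintype.ofFinite G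
  have hn := hs.card
  set k := Δ.card with hkdef
  set B := g • Δ with hBdef
  set M' := cj g M with hM'
  have hM'mem : ∀ y, y ∈ M' ↔ ∀ b ∈ B, y • b = b := fun y => mem_cj_iff hs
  have hM'card : Nat.card M' = Nat.card M := cj_card g
  have hBcard : B.card = k := Finset.card_smul_finset g Δ
  have hM1 : 1 ≤ Nat.card M := Nat.card_pos
  set Δ0 := Δ \ B with hΔ0
  set j := Δ0.card with hjdef
  set Mg : Finset G := univ.filter (· ∈ M') with hMg
  have hMgc : Mg.card = Nat.card M := by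
    rw [← hM'card, Nat.card_eq_fintype_card, Fintype.card_of_subtype Mg (fun y => by simp [hMg])]
  set F := fun u : α => (Mg.filter fun y => y • u ∈ Δ0).card with hF
  set Sm := ∑ y ∈ Mg, (Δ0.filter fun z => y • z ∈ Δ0).card with hSm
  have hlower : Nat.card M * (j * j) ≤ k * Sm := by
    have hpre : ∀ y ∈ Mg, (Bᶜ.filter fun u => y • u ∈ Δ0) = y⁻¹ • Δ0 := by
      intro y hy
      simp only [hMg, Finset.mem_filter, Finset.mem_univ, true_and] at hy
      ext u
      rw [Finset.mem_filter, Finset.mem_inv_smul_finset_iff, Finset.mem_compl, hΔ0,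
        Finset.mem_sdiff]
      refine ⟨fun h => h.2, fun h => ⟨fun hu => h.2 ?_, h⟩⟩
      rw [(hM'mem y).1 hy u hu]; exact hu
    have h1 : ∑ u ∈ Bᶜ, F u = Nat.card M * j := by
      rw [← dcount Mg Bᶜ fun y u => y • u ∈ Δ0, Finset.sum_const_nat (m := j) fun y hy => ?_,
        hMgc]
      rw [hpre y hy, Finset.card_smul_finset]
    have h2 : ∑ u ∈ Bᶜ, F u * F u = Nat.card M * Sm := by
      have e : ∑ z ∈ Δ0, F z = Sm := (dcount Mg Δ0 fun y u => y • u ∈ Δ0).symm
      calc ∑ u ∈ Bᶜ, F u * F u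
          = ∑ u ∈ Bᶜ, ∑ y ∈ Mg, (if y • u ∈ Δ0 then F u else 0) := by
            refine Finset.sum_congr rfl fun u _ => ?_
            rw [← Finset.sum_filter, Finset.sum_const, smul_eq_mul]
        _ = ∑ y ∈ Mg, ∑ u ∈ Bᶜ, (if y • u ∈ Δ0 then F u else 0) := Finset.sum_comm
        _ = ∑ y ∈ Mg, Sm := by
            refine Finset.sum_congr rfl fun y hy => ?_
            rw [← Finset.sum_filter, hpre y hy, ← e, Finset.smul_finset_def,
              Finset.sum_image fun a _ b _ h => MulAction.injective y⁻¹ h]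
            refine Finset.sum_congr rfl fun z _ => ?_
            refine Finset.card_equiv (Equiv.mulRight y⁻¹) fun y' => ?_
            simp only [hMg, Finset.mem_filter, Finset.mem_univ, true_and,
              Equiv.coe_mulRight] at hy ⊢
            rw [Subgroup.mul_mem_cancel_right _ (M'.inv_mem hy), mul_smul]
        _ = _ := by rw [Finset.sum_const, smul_eq_mul, hMgc]
    have h3 := sq_sum_le_card_mul_sum_sq (s := Bᶜ) (f := F)
    rw [h1] at h3
    simp only [sq] at h3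
    rw [h2, Finset.card_compl, hBcard, show Fintype.card α - k = k by omega] at h3
    have hpos : 0 < Nat.card M := by omega
    refine Nat.le_of_mul_le_mul_left ?_ hpos
    calc Nat.card M * (Nat.card M * (j * j)) = Nat.card M * j * (Nat.card M * j) := by ring
      _ ≤ k * (Nat.card M * Sm) := h3
      _ = _ := by ring
  exact hlower.trans (Nat.mul_le_mul_left k (hS Mg fun y => by simp [hMg]))

theorem Blk.ineq (hs : Sit G M Δ) {p : ℕ} {g x y0 : G} {v : ℕ} (b : Blk M Δ p g x y0 v) :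
    v * ((Δ \ g • Δ).card * (Δ \ g • Δ).card) ≤
      Δ.card * ((Δ \ g • Δ).card + (v - 1)) := by
  classical
  haveI : Fintype G := Fintype.ofFinite G
  set j := (Δ \ g • Δ).card
  set Z := cj g M ⊓ MulAction.stabilizer G Δ with hZ
  have hv := b.hv
  have hupper : ∀ (Mg : Finset G), (∀ y, y ∈ Mg ↔ y ∈ cj g M) →
      ∑ y ∈ Mg, ((Δ \ g • Δ).filter fun z => y • z ∈ Δ \ g • Δ).card ≤
        Nat.card Z * j + Nat.card Z * (v - 1) := by
    intro Mg hMg
    have hMgc : Mg.card = Nat.card M := by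
      rw [← cj_card g, Nat.card_eq_fintype_card, Fintype.card_of_subtype Mg hMg]
    rw [← Finset.sum_filter_add_sum_filter_not Mg (· ∈ Z)]
    have e1 : (Mg.filter (· ∈ Z)).card = Nat.card Z := by
      rw [Nat.card_eq_fintype_card, Fintype.card_of_subtype (Mg.filter (· ∈ Z)) fun y => by
        rw [Finset.mem_filter, hMg]
        exact ⟨fun h => h.2, fun h => ⟨h.1, h⟩⟩]
    have e2 := Finset.card_filter_add_card_filter_not (s := Mg) (· ∈ Z)
    rw [e1, hMgc, hv] at e2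
    refine add_le_add ?_ ?_
    · refine (Finset.sum_le_card_nsmul _ _ j fun y _ => Finset.card_filter_le _ _).trans ?_
      rw [e1, smul_eq_mul]
    · refine (Finset.sum_le_card_nsmul _ _ 1 fun y hy => Finset.card_le_one.2 ?_).trans ?_
      · intro a ha c hc
        rw [Finset.mem_filter, hMg] at hy
        rw [Finset.mem_filter] at ha hc
        exact b.notz y hy.1 hy.2 a ha.1 c hc.1 ha.2 hc.2
      · rw [smul_eq_mul, mul_one, Nat.mul_sub_left_distrib, mul_one]
        rw [← hZ] at e2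
        omega
  have hlower := b.lower hs _ hupper
  refine Nat.le_of_mul_le_mul_left ?_ (Nat.card_pos (α := Z))
  calc Nat.card Z * (v * (j * j)) = Nat.card M * (j * j) := by rw [hv]; ring
    _ ≤ Δ.card * (Nat.card Z * j + Nat.card Z * (v - 1)) := hlower
    _ = _ := by ring

theorem Blk.conj_fix {p : ℕ} {g x y0 : G} {v : ℕ} (_b : Blk M Δ p g x y0 v) :
    ∀ y ∈ cj g M, ∀ u ∉ g • Δ, y • u = u →
      g⁻¹ * y * g ∈ M ∧ g⁻¹ • u ∈ Δᶜ ∧ (g⁻¹ * y * g) • g⁻¹ • u = g⁻¹ • u ∧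
        orderOf (g⁻¹ * y * g) = orderOf y := by
  intro y hy u hu hyu
  refine ⟨mem_cj.1 hy, Finset.mem_compl.2 fun h => hu (Finset.inv_smul_mem_iff.1 h), ?_, ?_⟩
  · rw [mul_smul, mul_smul, smul_inv_smul, hyu]
  · have := orderOf_injective (MulAut.conj g⁻¹).toMonoidHom (MulAut.conj g⁻¹).injective y
    simpa [MulAut.conj_apply] using this

end Cfsg.Agent.H26.Pro
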