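import Cfsg.Agent.H26.Pro.Semi2

/-!
# The critical situation does not occur
-/

set_option linter.unusedSectionVars false
set_option linter.style.haveILetI false

namespace Cfsg.Agent.H26.Pro

open Finset
open scoped Pointwise

variable {α : Type*} [Fintype α] [DecidableEq α]
variable {G : Subgroup (Equiv.Perm α)} {M : Subgroup G} {Δ : Finset α}
variable {p : ℕ} {g x y0 : G} {v : ℕ}

theorem Blk.smul_mem (hs : Sit G M Δ) (_b : Blk M Δ p g x y0 v) :
    ∀ y ∈ cj g M ⊓ MulAction.stabilizer G Δ, ∀ z ∈ Δ \ g • Δ, y • z ∈ Δ \ g • Δ := by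
  rintro y ⟨hy, hyΔ⟩ z hz
  rw [Finset.mem_sdiff] at hz ⊢
  exact ⟨(show y • Δ = Δ from hyΔ) ▸ Finset.smul_mem_smul_finset hz.1,
    cj_smul_notMem hs y hy z hz.2⟩

theorem Blk.y0_free (b : Blk M Δ p g x y0 v) (hp : p.Prime)
    (hpfree : ∀ x ∈ Δᶜ, ∀ m ∈ M, m • x = x → ∀ e : ℕ, orderOf m = p ^ e → m = 1) :
    ∀ u ∉ g • Δ, y0 • u ≠ u := by
  intro u hu he
  obtain ⟨h1, h2, h3, h4⟩ := b.conj_fix y0 b.y0Z.1 u hu he
  have := hpfree _ h2 _ h1 h3 1 (by rw [h4, b.y0o, pow_one])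
  rw [this, orderOf_one] at h4
  exact hp.ne_one (b.y0o ▸ h4.symm)

/-- `y₀` has large degree on `Δ` -/
theorem Blk.deg_false (hs : Sit G M Δ) (hT : Trans4 G) (hk : 3 ≤ Δ.card)
    (b : Blk M Δ p g x y0 v) (hp : p.Prime)
    (hpfree : ∀ x ∈ Δᶜ, ∀ m ∈ M, m • x = x → ∀ e : ℕ, orderOf m = p ^ e → m = 1)
    (hc : (Δ \ g • Δ).card ≤ 3 ∨ 2 * (Δ \ g • Δ).card + 4 ≤ Δ.card ∨
      (p ≠ 2 ∧ 2 * (Δ \ g • Δ).card + 3 ≤ Δ.card)) : False := by
  refine onto_false hs hT hk (onto_of_degree hs hT (four_le hs hT hk) (y := y0) b.y0Z.2 hp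
    (b.y0o ▸ pow_orderOf_eq_one y0) (D := Δ \ g • Δ) ?_
    (Finset.card_pos.1 (lt_of_lt_of_le Nat.two_pos b.j2)) Finset.sdiff_subset ?_)
  · intro a ha
    exact ⟨fun hne => Finset.mem_sdiff.2 ⟨ha, fun h => hne ((mem_cj_iff hs).1 b.y0Z.1 a h)⟩,
      fun h => b.y0_free hp hpfree a (Finset.mem_sdiff.1 h).2⟩
  · rcases hc with h | h | ⟨h, h'⟩
    · exact Or.inl h
    · rcases em (p = 2) with h2 | h2
      · exact Or.inr (Or.inl ⟨h2, h⟩)
      · exact Or.inr (Or.inr ⟨h2, by omega⟩)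
    · exact Or.inr (Or.inr ⟨h, h'⟩)

/-- `M` is not semiregular outside `Δ` -/
theorem Blk.semireg_false (hs : Sit G M Δ) (hT : Trans4 G) (hk : 3 ≤ Δ.card)
    (b : Blk M Δ p g x y0 v) (hp : p.Prime)
    (hpfree : ∀ x ∈ Δᶜ, ∀ m ∈ M, m • x = x → ∀ e : ℕ, orderOf m = p ^ e → m = 1)
    (hNe : nrF M Δ = ∅) (hp2 : p = 2 ∨ Odd (Nat.card M)) : False := by
  classical
  set j := (Δ \ g • Δ).card with hj
  set Z := cj g M ⊓ MulAction.stabilizer G Δ with hZ
  have hj4 : 4 ≤ j := by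
    by_contra h
    exact b.deg_false hs hT hk hp hpfree (Or.inl (by omega))
  have hfree : ∀ y ∈ cj g M, ∀ u ∉ g • Δ, y • u = u → y = 1 := by
    intro y hy u hu he
    obtain ⟨h1, h2, h3, -⟩ := b.conj_fix y hy u hu he
    by_contra hy1
    have : g⁻¹ • u ∈ nrF M Δ := mem_nrF.2 ⟨h2, _, h1, fun e => hy1 ?_, h3⟩
    · rw [hNe] at this; exact Finset.notMem_empty _ this
    · have : y = g * (g⁻¹ * y * g) * g⁻¹ := by group
      rw [this, e, mul_one, mul_inv_cancel]
  have hlower := b.lower hs (Nat.card Z * j) (by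
    intro Mg hMg
    rw [← Finset.sum_filter_add_sum_filter_not Mg (· ∈ Z)]
    have e1 : (Mg.filter (· ∈ Z)).card = Nat.card Z := by
      rw [Nat.card_eq_fintype_card, Fintype.card_of_subtype (Mg.filter (· ∈ Z)) fun y => by
        rw [Finset.mem_filter, hMg]
        exact ⟨fun h => h.2, fun h => ⟨h.1, h⟩⟩]
    rw [Finset.sum_eq_zero (s := Mg.filter fun y => ¬ y ∈ Z), add_zero]
    · refine (Finset.sum_le_card_nsmul _ _ j fun y _ => Finset.card_filter_le _ _).trans ?_
      rw [e1, smul_eq_mul]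
    intro y hy
    rw [Finset.mem_filter, hMg] at hy
    refine Finset.card_eq_zero.2 (Finset.filter_eq_empty_iff.2 fun u hu hyu => hy.2 ?_)
    rw [Finset.mem_sdiff] at hyu
    refine b.commz y hy.1 (mul_inv_eq_iff_eq_mul.1 (mul_inv_eq_one.1
      (hfree _ ((cj g M).mul_mem (b.xnorm y hy.1) ((cj g M).inv_mem hy.1)) _ hyu.2
        (b.commfix y hy.1 u hu hyu.1)))))
  have hv := b.hv
  rw [← hZ] at hv
  rw [← hj, hv] at hlower
  have h1 : Nat.card Z * (v * j * j) ≤ Nat.card Z * (Δ.card * j) := by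
    calc Nat.card Z * (v * j * j) = Nat.card Z * v * (j * j) := by ring
      _ ≤ Δ.card * (Nat.card Z * j) := hlower
      _ = _ := by ring
  have h2 : v * j ≤ Δ.card :=
    Nat.le_of_mul_le_mul_right (Nat.le_of_mul_le_mul_left h1 Nat.card_pos) (by omega)
  have hv3 : 3 ≤ v := by
    by_contra h
    have hv2 : v = 2 := by have := b.two_le; omega
    rcases hp2 with h' | h'
    · exact b.notdvd (by rw [h', hv2])
    · rw [hv, hv2] at h'
      exact Nat.not_even_iff_odd.2 h' ⟨Nat.card Z, by ring⟩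
  have : 3 * j ≤ v * j := Nat.mul_le_mul_right j hv3
  exact b.deg_false hs hT hk hp hpfree (Or.inr (Or.inl (by rw [← hj]; omega)))

/-- an orbit with nontrivial point stabilisers is not even -/
theorem Blk.even_false (hs : Sit G M Δ) (hT : Trans4 G) (hk : 3 ≤ Δ.card)
    (b : Blk M Δ p g x y0 v) (hp : p.Prime)
    (hpfree : ∀ x ∈ Δᶜ, ∀ m ∈ M, m • x = x → ∀ e : ℕ, orderOf m = p ^ e → m = 1)
    (hpp : p = 2) {z : α} (hz : z ∈ nrF M Δ) (hev : Even (orb M z).card) : False := by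
  classical
  have hone := one_of hs hT hk
  set k := Δ.card with hkdef
  set j := (Δ \ g • Δ).card with hjdef
  set Z := cj g M ⊓ MulAction.stabilizer G Δ with hZ
  have hzC : z ∈ Δᶜ := (mem_nrF.1 hz).1
  have hst2 := two_le_st hz
  have hoh := orbst (M := M) z z (self_mem_orb M z)
  have hhdvd := st_dvd hs hone z hz
  have ho2 := orb_two hs z hzC
  set o := (orb M z).card with ho
  set h := (stF M z).card with hh
  have hineq := b.ineq hs
  rw [← hjdef, ← hkdef] at hineq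
  have hv3 : 3 ≤ v := by
    by_contra hlt
    exact b.notdvd (by rw [hpp, show v = 2 by have := b.two_le; omega])
  obtain ⟨jj, hjj⟩ := hpp ▸ b.pj
  obtain ⟨kk, hkk⟩ := hpp ▸ b.pk
  rw [← hjdef] at hjj
  rw [← hkdef] at hkk
  have hnot : ¬ (2 * j + 4 ≤ k) := fun hge =>
    b.deg_false hs hT hk hp hpfree (Or.inr (Or.inl hge))
  have hk2 : k ≤ 2 * j + 2 := by omega
  have hj4 : 4 ≤ j := by
    by_contra hlt
    exact b.deg_false hs hT hk hp hpfree (Or.inl (by omega))
  -- `o ≥ 4` and the point stabilizer is odd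
  have hodd' : Odd h := by
    rw [← Nat.not_even_iff_odd]
    intro he
    obtain ⟨c, hc⟩ := (even_iff_two_dvd.1 he).trans hhdvd
    obtain ⟨c', hc'⟩ := even_iff_two_dvd.1 hev
    omega
  have hst3 : 3 ≤ h := by obtain ⟨c, hc⟩ := hodd'; omega
  have ho4 : 4 ≤ o := by
    have := Nat.le_of_dvd (by omega) hhdvd
    omega
  have hjj2 : k < j * j := by nlinarith
  have hbound : 3 * (j * j) ≤ k * (j + 2) := by
    obtain ⟨v', rfl⟩ : ∃ v', v = v' + 3 := ⟨v - 3, by omega⟩
    rw [show j + (v' + 3 - 1) = j + 2 + v' by omega] at hineq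
    nlinarith [Nat.mul_le_mul_left v' hjj2.le]
  by_cases hall : ∃ u ∈ Δᶜ, u ∉ orb M z
  · -- a regular orbit
    obtain ⟨u, hu, huz⟩ := hall
    have hreg : (orb M u).card = Nat.card M := by
      have hun : u ∉ nrF M Δ := fun h' => huz (one_orbit hs hone z hz u h')
      have h1 : (stF M u).card = 1 := by
        rw [Finset.card_eq_one]
        refine ⟨1, Finset.eq_singleton_iff_unique_mem.2 ⟨one_mem_stF u, fun m hm => ?_⟩⟩
        rw [mem_stF] at hm
        by_contra h1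
        exact hun (mem_nrF.2 ⟨hu, m, hm.1, h1, hm.2⟩)
      have := orbst (M := M) u u (self_mem_orb M u)
      rwa [h1, mul_one] at this
    have hd : Disjoint (orb M z) (orb M u) := Finset.disjoint_left.2 fun a ha ha' => huz
      (by rw [← orb_eq_of_mem ha, orb_eq_of_mem ha']; exact self_mem_orb M u)
    have hle := Finset.card_le_card
      (Finset.union_subset (orb_compl hs z hzC) (orb_compl hs u hu))
    rw [Finset.card_union_of_disjoint hd, card_compl_Δ hs, hreg, ← hoh, ← ho, ← hkdef] at hle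
    have h12 : o * 3 ≤ o * h := Nat.mul_le_mul_left o hst3
    have hk16 : 16 ≤ k := by omega
    have hj7 : 7 ≤ j := by omega
    nlinarith
  · simp only [not_exists, not_and, not_not] at hall
    have hok : o = k := by
      rw [hkdef, ← card_compl_Δ hs]
      exact congrArg Finset.card
        (Finset.Subset.antisymm (orb_compl hs z hzC) fun u hu => hall u hu)
    have hZΔ0 := b.smul_mem hs
    by_cases hZfree : ∀ y ∈ Z, ∀ u ∉ g • Δ, y • u = u → y = 1
    · have hZj : Nat.card Z ≤ j := Nat.le_of_dvd (by omega) (free_dvd Z (Δ \ g • Δ) hZΔ0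
        fun y hy u hu h' => hZfree y hy u (Finset.mem_sdiff.1 hu).2 h')
      have h1 : 3 * k ≤ v * j := by
        have : k * 3 ≤ o * h := by rw [hok]; exact Nat.mul_le_mul_left k hst3
        have h' : Nat.card M ≤ v * j := by
          rw [b.hv, ← hZ, mul_comm]; exact Nat.mul_le_mul_left v hZj
        omega
      obtain ⟨v', rfl⟩ : ∃ v', v = v' + 3 := ⟨v - 3, by omega⟩
      rw [show j + (v' + 3 - 1) = j + 2 + v' by omega] at hineq
      nlinarith [Nat.mul_le_mul_left k hk2]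
    · simp only [not_forall] at hZfree
      obtain ⟨y, hy, u, hu, hyu, hy1⟩ := hZfree
      obtain ⟨r, hr, y1, hy1G, hy11, hy1r, -⟩ :=
        exists_prime_power ((MulAction.stabilizer G u ⊓ Z).map G.subtype)
          (c := ((y : G) : Equiv.Perm α)) ⟨y, ⟨hyu, hy⟩, rfl⟩
          (fun e => hy1 (Subtype.ext e))
      obtain ⟨y2, ⟨hy2u, hy2Z⟩, rfl⟩ := hy1G
      have hy2ne : y2 ≠ 1 := fun e => hy11 (by rw [e]; rfl)
      have hy2r : y2 ^ r = 1 := Subtype.ext (by simpa using hy1r)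
      -- `u ∈ Δ`
      have huΔ : u ∈ Δ := by
        have h1 : y2 • x • u = x • u := by
          rw [← mul_smul, ← b.zcomm y2 hy2Z, mul_smul, show y2 • u = u from hy2u]
        have hxu : x • u ∉ g • Δ := by
          intro h'
          apply hu
          have := Finset.inv_smul_mem_iff (a := x) (b := x • u) (s := x • g • Δ)
          rw [inv_smul_smul] at this
          rw [← b.xB] at h'
          exact (Finset.smul_mem_smul_finset_iff x).1 h'
        exact b.xfix u (one_cj hone y2 hy2Z.1 hy2ne _ _ hxu hu h1 hy2u)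
      have hrodd : r ≠ 2 := by
        rintro rfl
        obtain ⟨h1, h2, h3, h4⟩ := b.conj_fix y2 hy2Z.1 u hu hy2u
        have ho2' : orderOf y2 = 2 := orderOf_eq_prime hy2r hy2ne
        have := hpfree _ h2 _ h1 h3 1 (by rw [h4, ho2', hpp, pow_one])
        rw [this, orderOf_one] at h4
        omega
      have hk2j : 2 * j + 1 ≤ k ∨ j ≤ 4 := by
        by_contra h'
        simp only [not_or, not_le] at h'
        nlinarith
      have huD : u ∈ Δ \ g • Δ := Finset.mem_sdiff.2 ⟨huΔ, hu⟩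
      refine onto_false hs hT hk (onto_of_degree hs hT (four_le hs hT hk) (y := y2) hy2Z.2 hr
        hy2r (D := (Δ \ g • Δ).erase u) ?_ ?_
        ((Finset.erase_subset _ _).trans Finset.sdiff_subset) ?_)
      · intro a ha
        rw [Finset.mem_erase, Finset.mem_sdiff]
        exact ⟨fun hne => ⟨fun e => hne (e ▸ hy2u), ha,
            fun h' => hne ((mem_cj_iff hs).1 hy2Z.1 a h')⟩,
          fun h' he => h'.1 (one_cj hone y2 hy2Z.1 hy2ne a u h'.2.2 hu he hy2u)⟩
      · refine Finset.card_pos.1 ?_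
        rw [Finset.card_erase_of_mem huD, ← hjdef]
        omega
      · rw [Finset.card_erase_of_mem huD, ← hjdef, ← hkdef]
        rcases hk2j with h' | h'
        · exact Or.inr (Or.inr ⟨hrodd, by omega⟩)
        · exact Or.inl (by omega)

/-- `v = 2` and `2 j = k` force an even orbit -/
theorem Blk.odd_sep (hs : Sit G M Δ) (b : Blk M Δ p g x y0 v) (hp : p.Prime)
    (hpfree : ∀ x ∈ Δᶜ, ∀ m ∈ M, m • x = x → ∀ e : ℕ, orderOf m = p ^ e → m = 1)
    (hv2 : v = 2) (heq : Δ.card = 2 * (Δ \ g • Δ).card) {z : α} (hzC : z ∈ Δᶜ) :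
    Even (orb M z).card := by
  classical
  set Z := cj g M ⊓ MulAction.stabilizer G Δ with hZ
  obtain ⟨y, hy, hyZ⟩ := b.zne
  have hidx : (Z.subgroupOf (cj g M)).index = 2 := by
    have h1 := Subgroup.card_mul_index (Z.subgroupOf (cj g M))
    rw [Nat.card_congr (Subgroup.subgroupOfEquivOfLe (inf_le_left : Z ≤ cj g M)).toEquiv,
      cj_card, b.hv, ← hZ, hv2] at h1
    exact Nat.eq_of_mul_eq_mul_left Nat.card_pos h1
  have hmul : ∀ a ∈ cj g M, ∀ c ∈ cj g M, (a * c ∈ Z ↔ (a ∈ Z ↔ c ∈ Z)) := by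
    intro a ha c hc
    exact Subgroup.mul_mem_iff_of_index_two hidx (a := ⟨a, ha⟩) (b := ⟨c, hc⟩)
  have hZΔ0 := b.smul_mem hs
  set D := Δ \ g • Δ with hD
  have hsep : ∀ y ∈ cj g M, y ∉ Z → ∀ u ∈ D, y • u ∉ D := by
    intro y hy hyZ u hu hyu
    have hcj : y * y0 * y⁻¹ ∈ Z := by
      rw [hmul _ ((cj g M).mul_mem hy b.y0Z.1) _ ((cj g M).inv_mem hy),
        hmul _ hy _ b.y0Z.1]
      simp [hyZ, show y0 ∈ Z from b.y0Z]
    have h2 : y • (y0 • u) ∈ D := by
      have : y • y0 • u = (y * y0 * y⁻¹) • y • u := by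
        rw [mul_smul, mul_smul, inv_smul_smul]
      rw [this]
      exact hZΔ0 _ hcj _ hyu
    exact b.y0_free hp hpfree u (Finset.mem_sdiff.1 hu).2
      (b.notz y hy hyZ u hu (y0 • u) (hZΔ0 y0 b.y0Z u hu) hyu h2).symm
  set R := (g • Δ)ᶜ \ D with hR
  have hsub0 : D ⊆ (g • Δ)ᶜ := fun u hu => Finset.mem_compl.2 (Finset.mem_sdiff.1 hu).2
  have hn := hs.card
  have hRc : R.card = D.card := by
    rw [hR, Finset.card_sdiff_of_subset hsub0, Finset.card_compl, Finset.card_smul_finset]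
    omega
  have hyimg : y • D = R := by
    refine Finset.eq_of_subset_of_card_le (fun a ha => ?_)
      (by rw [hRc, Finset.card_smul_finset])
    obtain ⟨c, hc, rfl⟩ := Finset.mem_smul_finset.1 ha
    exact Finset.mem_sdiff.2
      ⟨Finset.mem_compl.2 (cj_smul_notMem hs y hy c (Finset.mem_sdiff.1 hc).2),
        hsep y hy hyZ c hc⟩
  set Y := g • orb M z with hY
  have hyY : y • Y = Y := by
    refine Finset.eq_of_subset_of_card_le (fun a ha => ?_) (Finset.card_smul_finset y Y).ge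
    obtain ⟨c, hc, rfl⟩ := Finset.mem_smul_finset.1 ha
    obtain ⟨c', hc', rfl⟩ := Finset.mem_smul_finset.1 hc
    obtain ⟨m, hm, rfl⟩ := mem_orb.1 hc'
    rw [hY, ← Finset.inv_smul_mem_iff]
    refine mem_orb.2 ⟨g⁻¹ * y * g * m, M.mul_mem (mem_cj.1 hy) hm, ?_⟩
    rw [mul_smul, mul_smul, mul_smul]
  have hYsub : Y ⊆ (g • Δ)ᶜ := by
    intro a ha
    obtain ⟨c, hc, rfl⟩ := Finset.mem_smul_finset.1 ha
    rw [Finset.mem_compl, Finset.smul_mem_smul_finset_iff]
    exact Finset.mem_compl.1 (orb_compl hs z hzC hc)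
  have hc1 : (Y ∩ R).card = (Y ∩ D).card := by
    rw [← hyimg, show Y ∩ y • D = y • (Y ∩ D) by rw [Finset.smul_finset_inter, hyY],
      Finset.card_smul_finset]
  have hc2 : Y ∩ R = Y \ D := by
    ext a
    simp only [hR, Finset.mem_inter, Finset.mem_sdiff]
    exact ⟨fun h => ⟨h.1, h.2.2⟩, fun h => ⟨h.1, hYsub h.1, h.2⟩⟩
  have hc3 := Finset.card_sdiff_add_card_inter Y D
  rw [← hc2, hc1, hY, Finset.card_smul_finset] at hc3
  exact ⟨_, hc3.symm⟩

/-- the critical situation does not occur for `k ≥ 3` -/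
theorem sit_false (hs : Sit G M Δ) (hT : Trans4 G) (hk : 3 ≤ Δ.card) : False := by
  classical
  have hone := one_of hs hT hk
  obtain ⟨p, hp, hpM, hpfree, hp2, hpo⟩ := semi_prime hs hone
  obtain ⟨g, x, y0, v, b⟩ := exists_blk hs hone hp hpM hpfree
  rcases (nrF M Δ).eq_empty_or_nonempty with hNe | ⟨z, hz⟩
  · exact b.semireg_false hs hT hk hp hpfree hNe (hp2 hNe)
  have hzC : z ∈ Δᶜ := (mem_nrF.1 hz).1
  rcases Nat.even_or_odd (orb M z).card with hev | hod
  · exact b.even_false hs hT hk hp hpfree ((hpo z hz).2 hev) hz hev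
  have hpodd : p ≠ 2 := fun h => Nat.not_even_iff_odd.2 hod ((hpo z hz).1 h)
  have hp3 : 3 ≤ p := by have := hp.two_le; omega
  have hineq := b.ineq hs
  set k := Δ.card with hkdef
  set j := (Δ \ g • Δ).card with hjdef
  have hpj : p ∣ j := b.pj
  have hpk : p ∣ k := b.pk
  have hj4 : 4 ≤ j := by
    by_contra h
    exact b.deg_false hs hT hk hp hpfree (Or.inl (by omega))
  have h2v := b.two_le
  rcases lt_trichotomy k (2 * j) with hlt | heq | hgt
  · have hd : 3 ≤ 2 * j - k := by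
      have := Nat.le_of_dvd (by omega) (Nat.dvd_sub (dvd_mul_of_dvd_right hpj 2) hpk)
      omega
    obtain ⟨v', rfl⟩ : ∃ v', v = v' + 2 := ⟨v - 2, by omega⟩
    obtain ⟨e, he⟩ : ∃ e, 2 * j = k + 3 + e := ⟨2 * j - k - 3, by omega⟩
    rw [show j + (v' + 2 - 1) = j + 1 + v' by omega] at hineq
    nlinarith [Nat.mul_le_mul_left v' (show 2 * j ≤ j * j from Nat.mul_le_mul_right j (by omega)),
      Nat.mul_le_mul_right (j + 1 + v') (show k + 3 ≤ 2 * j by omega)]
  · rcases Nat.lt_or_ge v 3 with hv2 | hv3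
    · exact Nat.not_even_iff_odd.2 hod
        (b.odd_sep hs hp hpfree (by omega) heq hzC)
    obtain ⟨v', rfl⟩ : ∃ v', v = v' + 3 := ⟨v - 3, by omega⟩
    rw [show j + (v' + 3 - 1) = j + 2 + v' by omega, heq] at hineq
    have hj5 : 5 ≤ j := by
      by_contra h
      have h4 : p ∣ 2 ^ 2 := by
        have : j = 4 := by omega
        rw [this] at hpj; exact hpj
      exact hpodd ((Nat.prime_dvd_prime_iff_eq hp Nat.prime_two).1 (hp.dvd_of_dvd_pow h4))
    nlinarith [Nat.mul_le_mul_left v' (show 2 * j ≤ j * j from Nat.mul_le_mul_right j (by omega)),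
      Nat.mul_le_mul_right j hj5]
  · refine b.deg_false hs hT hk hp hpfree (Or.inr (Or.inr ⟨hpodd, ?_⟩))
    have := Nat.le_of_dvd (by omega) (Nat.dvd_sub hpk (dvd_mul_of_dvd_right hpj 2))
    omega

end Cfsg.Agent.H26.Pro
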