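import Cfsg.Agent.H26.Pro.Rank

/-!
# The critical situation: a pronormal subgroup fixing half of the points
-/

set_option linter.unusedSectionVars false

namespace Cfsg.Agent.H26.Pro

open Finset
open scoped Pointwise

variable {α : Type*} [Fintype α] [DecidableEq α]

/-- The critical situation. -/
structure Sit (G : Subgroup (Equiv.Perm α)) (M : Subgroup G) (Δ : Finset α) : Prop where
  htr : MulAction.IsPretransitive G α
  pron : IsPron M
  fixEq : fixF (β := α) M = Δ
  full : ∀ g : G, (∀ a ∈ Δ, g • a = a) → g ∈ M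
  card : Fintype.card α = 2 * Δ.card
  IH : BndLt (Fintype.card α)
  moves : Moves α M

variable {G : Subgroup (Equiv.Perm α)} {M : Subgroup G} {Δ : Finset α}

theorem Sit.mem_iff (hs : Sit G M Δ) {g : G} : g ∈ M ↔ ∀ a ∈ Δ, g • a = a := by
  refine ⟨fun hg a ha => ?_, hs.full g⟩
  rw [← hs.fixEq] at ha
  exact mem_fixF.1 ha g hg

theorem Sit.fix_cj (hs : Sit G M Δ) (g : G) : fixF (β := α) (cj g M) = g • Δ := by
  ext a
  rw [mem_fixF_cj, hs.fixEq, Finset.inv_smul_mem_iff]

theorem Sit.cj_eq_iff (hs : Sit G M Δ) {g h : G} : cj g M = cj h M ↔ g • Δ = h • Δ := by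
  refine ⟨fun e => by rw [← hs.fix_cj, ← hs.fix_cj, e], fun e => ?_⟩
  have key : ∀ g h : G, g • Δ = h • Δ → cj g M ≤ cj h M := by
    intro g h e x hx
    rw [mem_cj] at hx ⊢
    rw [hs.mem_iff] at hx ⊢
    intro a ha
    have : g⁻¹ • h • a ∈ Δ := by
      rw [Finset.inv_smul_mem_iff, e]
      exact Finset.smul_mem_smul_finset ha
    have h1 := hx _ this
    rw [mul_smul, mul_smul, smul_inv_smul] at h1
    rw [mul_smul, mul_smul, inv_smul_eq_iff]
    exact MulAction.injective g⁻¹ h1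
  exact le_antisymm (key g h e) (key h g e.symm)

theorem Sit.two_le (hs : Sit G M Δ) : 2 ≤ Fintype.card α := by
  obtain ⟨m, -, b, hb⟩ := hs.moves
  exact Fintype.one_lt_card_iff.2 ⟨_, _, hb⟩

theorem Sit.nonempty (hs : Sit G M Δ) : Δ.Nonempty := by
  have := hs.two_le
  have := hs.card
  exact Finset.card_pos.1 (by omega)

/-- Witt's condition for the critical situation. -/
theorem Sit.witt (hs : Sit G M Δ) {S : Finset α} (hS : S ⊆ Δ) {g : G} (hg : S ⊆ g • Δ) :
    ∃ h : G, (∀ a ∈ S, h • a = a) ∧ h • Δ = g • Δ := by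
  obtain ⟨h, h1, h2⟩ := hs.pron.witt (S := S) (by rw [hs.fixEq]; exact hS) (g := g)
    (fun a ha => by rw [hs.fixEq, Finset.inv_smul_mem_iff]; exact hg ha)
  exact ⟨h, h1, hs.cj_eq_iff.1 h2⟩

theorem Sit.eq_of_normalised (hs : Sit G M Δ) {g : G} (hg : ∀ m ∈ M, m • g • Δ = g • Δ) :
    g • Δ = Δ := by
  obtain ⟨w, hw, he⟩ := hs.pron g
  have hle : M ⊔ cj g M ≤ MulAction.stabilizer G (g • Δ) := by
    refine sup_le hg fun x hx => ?_
    rw [MulAction.mem_stabilizer_iff]
    ext a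
    constructor
    · intro ha
      obtain ⟨b, hb, rfl⟩ := Finset.mem_smul_finset.1 ha
      rw [← hs.fix_cj, mem_fixF] at hb
      rw [hb x hx]
      rw [← hs.fix_cj, mem_fixF]
      exact hb
    · intro ha
      refine Finset.mem_smul_finset.2 ⟨a, ha, ?_⟩
      rw [← hs.fix_cj, mem_fixF] at ha
      exact ha x hx
  have h1 : w • g • Δ = g • Δ := hle hw
  have h2 : w • Δ = g • Δ := hs.cj_eq_iff.1 he
  rw [← h2] at h1
  exact h2.symm.trans (MulAction.injective w h1)

theorem Sit.not_disjoint (hs : Sit G M Δ) (g : G) : ¬ Disjoint (g • Δ) Δ := by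
  intro hd
  have hc : g • Δ = Δᶜ := by
    refine Finset.eq_of_subset_of_card_le (fun a ha => Finset.mem_compl.2
      fun h => Finset.disjoint_left.1 hd ha h) ?_
    rw [Finset.card_compl, Finset.card_smul_finset, hs.card]
    omega
  have hfix : ∀ m ∈ M, m • g • Δ = g • Δ := by
    intro m hm
    have hmΔ : m • Δ = Δ := by
      refine Finset.eq_of_subset_of_card_le (fun a ha => ?_) (Finset.card_smul_finset m Δ).ge
      obtain ⟨b, hb, rfl⟩ := Finset.mem_smul_finset.1 ha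
      rwa [hs.mem_iff.1 hm b hb]
    ext a
    rw [← Finset.inv_smul_mem_iff, hc, Finset.mem_compl, Finset.mem_compl, not_iff_not]
    conv_rhs => rw [← hmΔ]
    exact Finset.inv_smul_mem_iff
  have := hs.eq_of_normalised hfix
  rw [this] at hd
  exact hs.nonempty.ne_empty (disjoint_self.1 hd)

theorem Sit.not_compl (hs : Sit G M Δ) (g : G) : g • Δ ≠ Δᶜ := fun e =>
  hs.not_disjoint g (by rw [e]; exact disjoint_compl_left)

theorem Sit.two_le_card (hs : Sit G M Δ) : 2 ≤ Δ.card := by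
  by_contra h
  have := hs.card
  have := hs.two_le
  obtain ⟨a, ha⟩ := Finset.card_eq_one.1 (show Δ.card = 1 by omega)
  obtain ⟨m, hm, b, hb⟩ := hs.moves
  have hma : m • a = a := hs.mem_iff.1 hm a (by simp [ha])
  have hba : b ≠ a := fun e => hb (e ▸ hma)
  have hmb : m • b = a := by
    by_contra hne
    have h3 : ({a, b, m • b} : Finset α).card = 3 := by
      rw [Finset.card_insert_of_notMem (by simp [hba.symm, Ne.symm hne]),
        Finset.card_pair hb.symm]
    have := Finset.card_le_univ ({a, b, m • b} : Finset α)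
    omega
  exact hba (MulAction.injective m (hmb.trans hma.symm))

theorem Sit.not_alt (hs : Sit G M Δ) : ¬ alternatingGroup α ≤ G := by
  intro hle
  have hk := hs.two_le_card
  have hcard : Fintype.card {a // a ∈ Δ} = Fintype.card {a // ¬ a ∈ Δ} := by
    rw [Fintype.card_subtype_compl, Fintype.card_coe, hs.card]; omega
  set e := Fintype.equivOfCardEq hcard
  set σ : Equiv.Perm α := e.extendSubtype
  obtain ⟨u, hu, v, hv, huv⟩ := Finset.one_lt_card.1 hk
  have hswap : ∀ a, a ∈ Δ → Equiv.swap u v a ∈ Δ := by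
    intro a ha
    by_cases h1 : a = u
    · subst h1; rw [Equiv.swap_apply_left]; exact hv
    by_cases h2 : a = v
    · subst h2; rw [Equiv.swap_apply_right]; exact hu
    rwa [Equiv.swap_apply_of_ne_of_ne h1 h2]
  obtain ⟨τ, hτ, hτΔ⟩ : ∃ τ : Equiv.Perm α, τ ∈ alternatingGroup α ∧ ∀ a ∈ Δ, τ a ∉ Δ := by
    have hσ : ∀ a ∈ Δ, σ a ∉ Δ := fun a ha => e.extendSubtype_mem a ha
    rcases Int.units_eq_one_or (Equiv.Perm.sign σ) with h | h
    · exact ⟨σ, Equiv.Perm.mem_alternatingGroup.2 h, hσ⟩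
    · refine ⟨σ * Equiv.swap u v, Equiv.Perm.mem_alternatingGroup.2 ?_,
        fun a ha => hσ _ (hswap a ha)⟩
      rw [map_mul, h, Equiv.Perm.sign_swap huv]; decide
  refine hs.not_disjoint ⟨τ, hle hτ⟩ (Finset.disjoint_left.2 fun a ha => ?_)
  obtain ⟨b, hb, rfl⟩ := Finset.mem_smul_finset.1 ha
  exact hτΔ b hb

/-- double transitivity -/
theorem Sit.trans2 (hs : Sit G M Δ) {a b a' b' : α} (hab : a ≠ b) (hab' : a' ≠ b') :
    ∃ g : G, g • a = a' ∧ g • b = b' := by
  haveI := hs.htr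
  have key : ∀ c ∈ Δ, ∀ u v : α, u ≠ c → v ≠ c → ∃ g : G, g • c = c ∧ g • u = v := by
    intro c hc u v hu hv
    have hcF : c ∈ fixF (β := α) M := hs.fixEq.symm ▸ hc
    have hT : ∀ b, b ≠ c → ∃ d ∈ orb (MulAction.stabilizer G c) b, d ∉ fixF M := fun b hb =>
      exists_moved_of_not_rel hs.pron hcF (rel_trivial_of_slack hs.IH le_rfl hs.pron hs.moves
        (by rw [hs.fixEq, hs.card]; omega) hcF hb)
    obtain ⟨hbd, hsz, hfx⟩ := step hs.IH le_rfl hs.pron hcF hT
    rw [hs.fixEq] at hfx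
    rw [hs.fixEq] at hbd
    have hP : (orbitsAway (MulAction.stabilizer G c) c).card ≤ 1 := by
      have h := Finset.sum_le_sum hbd
      rw [Finset.sum_add_distrib, ← Finset.mul_sum, Finset.sum_const, smul_eq_mul, mul_one] at h
      have := hs.card
      omega
    have hmem : ∀ y, y ≠ c → orb (MulAction.stabilizer G c) y ∈
        orbitsAway (MulAction.stabilizer G c) c := fun y hy =>
      Finset.mem_image_of_mem _ (Finset.mem_erase.2 ⟨hy, mem_univ _⟩)
    have := Finset.card_le_one.1 hP _ (hmem u hu) _ (hmem v hv)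
    obtain ⟨g, hg, he⟩ := mem_orb.1 (this ▸ self_mem_orb _ v : v ∈ orb _ u)
    exact ⟨g, hg, he⟩
  obtain ⟨c, hc⟩ := hs.nonempty
  obtain ⟨g1, e1⟩ := hs.htr.exists_smul_eq a c
  obtain ⟨g2, e2⟩ := hs.htr.exists_smul_eq a' c
  obtain ⟨g, h1, h2⟩ := key c hc (g1 • b) (g2 • b')
    (fun h => hab (MulAction.injective g1 (e1.trans h.symm)))
    (fun h => hab' (MulAction.injective g2 (e2.trans h.symm)))
  exact ⟨g2⁻¹ * g * g1, by rw [mul_smul, mul_smul, e1, h1, inv_smul_eq_iff, e2],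
    by rw [mul_smul, mul_smul, h2, inv_smul_smul]⟩

/-- triple transitivity -/
theorem Sit.trans3 (hs : Sit G M Δ) {a b c a' b' c' : α} (hab : a ≠ b) (hac : a ≠ c)
    (hbc : b ≠ c) (hab' : a' ≠ b') (hac' : a' ≠ c') (hbc' : b' ≠ c') :
    ∃ g : G, g • a = a' ∧ g • b = b' ∧ g • c = c' := by
  haveI := hs.htr
  obtain ⟨u, hu, v, hv, huv⟩ := Finset.one_lt_card.1 hs.two_le_card
  set S := MulAction.stabilizer G u
  have horb : orb S v = univ.erase u := by
    ext y
    rw [mem_orb, Finset.mem_erase]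
    constructor
    · rintro ⟨g, hg, rfl⟩
      exact ⟨fun h => huv.symm (MulAction.injective g
        (h.trans (MulAction.mem_stabilizer_iff.1 hg).symm)), mem_univ _⟩
    · rintro ⟨hy, -⟩
      obtain ⟨g, e1, e2⟩ := hs.trans2 huv (Ne.symm hy)
      exact ⟨g, e1, e2⟩
  have huF : u ∈ fixF (β := α) M := hs.fixEq.symm ▸ hu
  have hmv : ∃ d ∈ orb S v, d ∉ fixF M := by
    obtain ⟨m, hm, d, hd⟩ := hs.moves
    refine ⟨d, ?_, fun h => hd (mem_fixF.1 h m hm)⟩
    rw [horb]
    exact Finset.mem_erase.2 ⟨fun h => hd (h ▸ mem_fixF.1 huF m hm), mem_univ _⟩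
  have hsl : (orb S v).card = 2 * (orb S v ∩ fixF M).card + 1 := by
    rw [horb, Finset.erase_inter, Finset.univ_inter, hs.fixEq,
      Finset.card_erase_of_mem hu, Finset.card_erase_of_mem (mem_univ u), Finset.card_univ,
      hs.card]
    have := hs.two_le_card
    omega
  have key : ∀ x y : α, x ≠ u → x ≠ v → y ≠ u → y ≠ v →
      ∃ g : G, g • u = u ∧ g • v = v ∧ g • x = y := by
    intro x y hxu hxv hyu hyv
    obtain ⟨g, hg, h1, h2⟩ := orb_extremal hs.IH le_rfl hs.pron (le_stabilizer_of_mem_fixF huF)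
      hmv hsl (self_mem_orb S v) (hs.fixEq.symm ▸ hv)
      (b := x) (by rw [horb]; exact Finset.mem_erase.2 ⟨hxu, mem_univ _⟩) hxv
      (c := y) (by rw [horb]; exact Finset.mem_erase.2 ⟨hyu, mem_univ _⟩) hyv
    exact ⟨g, hg, h1, h2⟩
  obtain ⟨g1, e1, f1⟩ := hs.trans2 hab huv
  obtain ⟨g2, e2, f2⟩ := hs.trans2 hab' huv
  obtain ⟨g, h1, h2, h3⟩ := key (g1 • c) (g2 • c')
    (fun h => hac (MulAction.injective g1 (e1.trans h.symm)))
    (fun h => hbc (MulAction.injective g1 (f1.trans h.symm)))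
    (fun h => hac' (MulAction.injective g2 (e2.trans h.symm)))
    (fun h => hbc' (MulAction.injective g2 (f2.trans h.symm)))
  exact ⟨g2⁻¹ * g * g1, by rw [mul_smul, mul_smul, e1, h1, inv_smul_eq_iff, e2],
    by rw [mul_smul, mul_smul, f1, h2, inv_smul_eq_iff, f2],
    by rw [mul_smul, mul_smul, h3, inv_smul_smul]⟩

end Cfsg.Agent.H26.Pro
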